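import Cfsg.Agent.Ree.MinDegree65
import Cfsg.Agent.Ree.Local
import Cfsg.Agent.Ree.Generate
import Cfsg.Agent.Ree.Cosets

/-!
The classes of the elements of order `2`, `3`, `6`, `9` of the small twisted groups of type `G₂`:
bounds for the centralisers and subgroups of order `q` inside the classes of order three.
-/

set_option autoImplicit false
set_option linter.unusedSectionVars false
set_option linter.style.haveILetI false

open scoped Matrix MatrixGroups

namespace CfsgLib.ReeSquare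

open Cfsg.Lie CfsgLib.Chevalley CfsgLib.Ree

variable {K : Type*} [Field K] [CharP K 3] {m : ℕ}

local notation "G¹" => twistedG2 K (3 ^ m)
local notation "B¹" => Subgroup.subgroupOf (chevG2.borelSubgroup K ⊓ twistedG2 K (3 ^ m)) (twistedG2 K (3 ^ m))
local notation "q₀" => 3 ^ (2 * m + 1)
set_option quotPrecheck false in
local notation "C¹" => Subgroup.centralizer ({invE} : Set ↥(twistedG2 K (3 ^ m)))

/-- Unipotent elements. -/
noncomputable def uEl (t u v : K) : ↥G¹ := ⟨eU K m t u v, eU_mem_twisted t u v⟩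

theorem eB_eq (u : K) : eB K m u = eU K m 0 u 0 := by
  simp [eU, eA_val, eC_val, sysG2.xG_zero]

theorem eC_eq (v : K) : eC K m v = eU K m 0 0 v := by
  simp [eU, eA_val, eB_val, sysG2.xG_zero]

theorem psi1_one : psi1 (1 : GL chevG2.Idx K) = 0 := by
  rw [← eU_zero (K := K) (m := 1), eU_psi1]

theorem psi1_inv {g : GL chevG2.Idx K} (hg : g ∈ chevG2.posUnipotent K) :
    psi1 g⁻¹ = -psi1 g := by
  have h := psi1_mul hg (inv_mem hg)
  rw [mul_inv_cancel, psi1_one] at h
  linear_combination -h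

theorem psi1_conj {p g : GL chevG2.Idx K} (hp : p ∈ chevG2.posUnipotent K)
    (hg : g ∈ chevG2.posUnipotent K) : psi1 (p * g * p⁻¹) = psi1 g := by
  rw [psi1_mul (mul_mem hp hg) (inv_mem hp), psi1_mul hp hg, psi1_inv hp]
  ring

/-- The torus character on the first coordinate. -/
noncomputable def chiA (w : Kˣ) : K := fr K m w ^ 2 / (w : K) ^ 3

theorem psi1_hT_conj (hq : Q K m) (w : Kˣ) (t u v : K) :
    psi1 (hT K m w * eU K m t u v * (hT K m w)⁻¹) = chiA (m := m) w * t := by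
  obtain ⟨u', v', e⟩ := hT_conj_eA (m := m) hq w t
  have hsplit : hT K m w * eU K m t u v * (hT K m w)⁻¹ = hT K m w * eA K m t * (hT K m w)⁻¹ *
      (hT K m w * eB K m u * (hT K m w)⁻¹) * (hT K m w * eC K m v * (hT K m w)⁻¹) := by
    rw [eU]; group
  rw [hsplit, e, hT_conj_eB hq, hT_conj_eC hq,
    psi1_mul (mul_mem (eU_pos _ _ _) (eB_pos _)) (eC_pos _), psi1_mul (eU_pos _ _ _) (eB_pos _),
    eU_psi1, eB_eq, eC_eq, eU_psi1, eU_psi1, add_zero, add_zero]
  rfl

theorem eC_commute {g : GL chevG2.Idx K} (hg : g ∈ chevG2.posUnipotent K) (v : K) :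
    eC K m v * g = g * eC K m v := by
  rw [eC_val]; exact commute_x9x11 _ _ hg

theorem eA_conj_eB (t u : K) :
    eA K m t * eB K m u * (eA K m t)⁻¹ = eB K m u * eC K m (t * u) := by
  rw [MinDeg65.eA_mul_eB_exact, mul_assoc (eB K m u), ← eC_commute (eA_pos t), ← mul_assoc,
    mul_inv_cancel_right]

theorem card_cent_conj {H : Type*} [Group H] (c g : H) :
    Nat.card (Subgroup.centralizer ({c * g * c⁻¹} : Set H)) =
      Nat.card (Subgroup.centralizer ({g} : Set H)) := by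
  refine Nat.card_congr (Equiv.subtypeEquiv (MulAut.conj c).toEquiv fun z => ?_).symm
  show _ ↔ c * z * c⁻¹ ∈ Subgroup.centralizer {c * g * c⁻¹}
  rw [Subgroup.mem_centralizer_singleton_iff, Subgroup.mem_centralizer_singleton_iff,
    show c * z * c⁻¹ * (c * g * c⁻¹) = c * (z * g) * c⁻¹ by group,
    show c * g * c⁻¹ * (c * z * c⁻¹) = c * (g * z) * c⁻¹ by group, mul_left_inj, mul_right_inj]

variable [Fintype K] (hK : Fintype.card K = 3 ^ (2 * m + 1))
include hK

/-- A torus element in the twisted group. -/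
theorem exists_tEl (w : Kˣ) : ∃ h : ↥G¹, (h : GL chevG2.Idx K) = hT K m w :=
  ⟨⟨hT K m w, hT_mem_twisted hK w⟩, rfl⟩

theorem chiA_surjective {t : K} (ht : t ≠ 0) : ∃ w : Kˣ, chiA (m := m) w = t := by
  have hne : ∀ w : Kˣ, chiA (m := m) w ≠ 0 := fun w =>
    div_ne_zero (pow_ne_zero _ ((map_ne_zero _).2 w.ne_zero)) (pow_ne_zero _ w.ne_zero)
  let f : Kˣ → Kˣ := fun w => Units.mk0 (chiA (m := m) w) (hne w)
  have hinj : Function.Injective f := fun a b h => by
    have h' : chiA (m := m) a = chiA (m := m) b := congrArg Units.val h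
    have h1 : fr K m ((a : K) / b) ^ 2 / ((a : K) / b) ^ 3 = 1 := by
      rw [map_div₀, div_pow, div_pow, div_div_div_comm]
      unfold chiA at h'
      rw [h', div_self]
      exact hne b
    have h2 := (eA_coeff_eq_one_iff hK (div_ne_zero a.ne_zero b.ne_zero)).1 h1
    exact Units.ext ((div_eq_one_iff_eq b.ne_zero).1 h2)
  obtain ⟨w, hw⟩ := Finite.surjective_of_injective hinj (Units.mk0 t ht)
  exact ⟨w, congrArg Units.val hw⟩

theorem borel_of_commute {c g : ↥G¹} (hg : g ∈ uSub3 K m) (h1 : g ≠ 1) (hc : c * g = g * c) :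
    ∃ t u v w, (c : GL chevG2.Idx K) = eU K m t u v * hT K m w := by
  have hcb : c ∈ B¹ := ti_uSub3 hK hg h1 (by rwa [hc, mul_inv_cancel_right])
  exact borel_fix (Q_of_card hK) hcb.1 (twistedG2_le_fixSub (Q_of_card hK) c.2)

theorem coe_commute {c g : ↥G¹} (hc : c * g = g * c) {p h : GL chevG2.Idx K}
    (e : (c : GL chevG2.Idx K) = p * h) :
    p * (h * (g : GL chevG2.Idx K) * h⁻¹) * p⁻¹ = g := by
  have := congrArg Subtype.val hc
  rw [Subgroup.coe_mul, Subgroup.coe_mul, e] at this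
  calc p * (h * (g : GL chevG2.Idx K) * h⁻¹) * p⁻¹ = p * h * g * (p * h)⁻¹ := by group
    _ = _ := by rw [this, mul_inv_cancel_right]

/-- The centraliser of an element of order nine of `U` with first coordinate one. -/
theorem card_cent_nine_one (u₀ v₀ : K) :
    Nat.card (Subgroup.centralizer ({uEl (m := m) 1 u₀ v₀} : Set ↥G¹)) ≤ 3 * q₀ := by
  classical
  set g : ↥G¹ := uEl 1 u₀ v₀ with hgdef
  have hq := Q_of_card hK
  have hgU : g ∈ uSub3 K m := eU_pos _ _ _
  have hg1 : g ≠ 1 := fun e => one_ne_zero (α := K)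
    (eU_inj ((congrArg Subtype.val e : eU K m (1 : K) u₀ v₀ = 1).trans (eU_zero).symm)).1
  have hmem : ∀ c : ↥(Subgroup.centralizer ({g} : Set ↥G¹)), ∃ t u v,
      ((c : ↥G¹) : GL chevG2.Idx K) = eU K m t u v ∧ (t = 0 ∨ t = 1 ∨ t = -1) := by
    rintro ⟨c, hc⟩
    have hc' := Subgroup.mem_centralizer_singleton_iff.1 hc
    obtain ⟨t, u, v, w, e⟩ := borel_of_commute hK hgU hg1 hc'
    have hcc := coe_commute hK hc' e
    have hpos : hT K m w * eU K m 1 u₀ v₀ * (hT K m w)⁻¹ ∈ chevG2.posUnipotent K :=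
      (Subgroup.mem_normalizer_iff.mp (sysG2.diagonal_le_normalizer K (hT_mem_diagonal w)) _).mp
        (eU_pos _ _ _)
    have hw : chiA (m := m) w = 1 := by
      have := congrArg psi1 hcc
      rw [show ((g : ↥G¹) : GL chevG2.Idx K) = eU K m 1 u₀ v₀ from rfl,
        psi1_conj (eU_pos t u v) hpos, psi1_hT_conj hq, eU_psi1, mul_one] at this
      exact this
    have hw1 : w = 1 := Units.ext ((eA_coeff_eq_one_iff hK w.ne_zero).1 hw)
    subst hw1
    rw [map_one, mul_one] at e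
    refine ⟨t, u, v, e, ?_⟩
    obtain ⟨v'', he⟩ := eU_commutator hq t u v u₀ v₀
    have h0 : eU K m t u v * eU K m 1 u₀ v₀ * (eU K m t u v)⁻¹ * (eU K m 1 u₀ v₀)⁻¹ = 1 := by
      have := congrArg Subtype.val hc'
      rw [Subgroup.coe_mul, Subgroup.coe_mul, e] at this
      change eU K m t u v * eU K m 1 u₀ v₀ = eU K m 1 u₀ v₀ * eU K m t u v at this
      rw [this]; group
    rw [he, ← eU_zero (K := K) (m := m)] at h0
    have ht : fr K m t = t := sub_eq_zero.1 (eU_inj h0).2.1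
    by_cases h : t = 0
    · exact Or.inl h
    · exact Or.inr ((fr_eq_self_iff hK h).1 ht)
  let ψ : ↥(Subgroup.centralizer ({g} : Set ↥G¹)) →* Multiplicative K :=
    MonoidHom.mk' (fun c => Multiplicative.ofAdd (psi1 ((c : ↥G¹) : GL chevG2.Idx K))) fun a b => by
      obtain ⟨t, u, v, ea, -⟩ := hmem a
      obtain ⟨t', u', v', eb, -⟩ := hmem b
      rw [← ofAdd_add, Subgroup.coe_mul, Subgroup.coe_mul,
        psi1_mul (ea ▸ eU_pos t u v) (eb ▸ eU_pos t' u' v')]
  have hrange : Nat.card ψ.range ≤ 3 := by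
    refine le_trans (Nat.card_mono (t := (↑(({0, 1, -1} : Finset K).image Multiplicative.ofAdd) :
      Set (Multiplicative K))) (Finset.finite_toSet _) ?_) ?_
    · rintro _ ⟨c, rfl⟩
      obtain ⟨t, u, v, e, ht⟩ := hmem c
      simp only [Finset.coe_image, Set.mem_image, Finset.mem_coe, Finset.mem_insert,
        Finset.mem_singleton]
      exact ⟨t, ht, by simp [ψ, e, eU_psi1]⟩
    · simp only [Nat.card_eq_fintype_card, Finset.coe_sort_coe, Fintype.card_coe]
      exact Finset.card_image_le.trans Finset.card_le_three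
  have hker : Nat.card ψ.ker ≤ q₀ := by
    have hform : ∀ c : ψ.ker, ∃ v : K,
        (((c : ↥(Subgroup.centralizer ({g} : Set ↥G¹))) : ↥G¹) : GL chevG2.Idx K) = eC K m v := by
      rintro ⟨c, hc⟩
      obtain ⟨t, u, v, e, -⟩ := hmem c
      have ht : t = 0 := by
        have h := MonoidHom.mem_ker.1 hc
        simpa [ψ, e, eU_psi1] using h
      subst ht
      have hc' := congrArg Subtype.val (Subgroup.mem_centralizer_singleton_iff.1 c.2)
      rw [Subgroup.coe_mul, Subgroup.coe_mul, e] at hc'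
      change eU K m 0 u v * eU K m 1 u₀ v₀ = eU K m 1 u₀ v₀ * eU K m 0 u v at hc'
      have hA0 : eA K m (0 : K) = 1 := by simp [eA_val, sysG2.xG_zero]
      rw [eU, eU, hA0, one_mul] at hc'
      have h1 : eB K m u * eA K m 1 * (eB K m u₀ * eC K m v₀) =
          eA K m 1 * eB K m u * (eB K m u₀ * eC K m v₀) := by
        have c1 := eC_commute (m := m) (mul_mem (eA_pos (m := m) (1 : K))
          (mul_mem (eB_pos (m := m) u₀) (eC_pos (m := m) v₀))) v
        have hBB : eB K m u₀ * eC K m v₀ * eB K m u = eB K m u * (eB K m u₀ * eC K m v₀) := by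
          rw [mul_assoc, eC_commute (eB_pos u), ← mul_assoc, eB_add, add_comm, ← eB_add, mul_assoc]
        apply mul_right_cancel (b := eC K m v)
        calc eB K m u * eA K m 1 * (eB K m u₀ * eC K m v₀) * eC K m v
            = eB K m u * (eA K m 1 * (eB K m u₀ * eC K m v₀) * eC K m v) := by group
          _ = eB K m u * (eC K m v * (eA K m 1 * (eB K m u₀ * eC K m v₀))) := by rw [c1]
          _ = eB K m u * eC K m v * (eA K m 1 * eB K m u₀ * eC K m v₀) := by group
          _ = eA K m 1 * eB K m u₀ * eC K m v₀ * (eB K m u * eC K m v) := hc'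
          _ = eA K m 1 * (eB K m u₀ * eC K m v₀ * eB K m u) * eC K m v := by group
          _ = _ := by rw [hBB]; group
      have h2 := mul_right_cancel h1
      rw [MinDeg65.eA_mul_eB_exact, one_mul, left_eq_mul, eC_eq, ← eU_zero (K := K) (m := m)] at h2
      obtain rfl := (eU_inj h2).2.2
      exact ⟨v, by rw [e, eC_eq]⟩
    choose f hf using hform
    refine le_trans (Nat.card_le_card_of_injective f fun a b h => ?_)
      (by rw [Nat.card_eq_fintype_card, hK])
    exact Subtype.ext (Subtype.ext (Subtype.ext (by rw [hf, hf, h])))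
  rw [← Subgroup.card_mul_index ψ.ker, Subgroup.index_ker, mul_comm]
  exact Nat.mul_le_mul hrange hker

theorem nine_cases {g : ↥G¹} (hg : orderOf g = 9) :
    Nat.card (Subgroup.centralizer ({g} : Set ↥G¹)) ≤ 3 * q₀ := by
  obtain ⟨c, hc⟩ := exists_conj_uSub3 hK (g := g) (k := 2)
    (orderOf_dvd_iff_pow_eq_one.1 (by rw [hg]; norm_num))
  rw [← card_cent_conj c g]
  obtain ⟨t, u, v, e⟩ := mem_uSub3 hK hc
  have ht : t ≠ 0 := fun h0 => by
    have h3 : (c * g * c⁻¹) ^ 3 = 1 := Subtype.ext (by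
      rw [Subgroup.coe_pow, e]; exact (eU_pow_three_iff t u v).2 h0)
    have h := orderOf_dvd_of_pow_eq_one h3
    rw [orderOf_conj_eq, hg] at h
    norm_num at h
  obtain ⟨w, hw⟩ := chiA_surjective hK (inv_ne_zero ht)
  obtain ⟨h, hh⟩ := exists_tEl hK w
  rw [← card_cent_conj h]
  have hpos : hT K m w * eU K m t u v * (hT K m w)⁻¹ ∈ chevG2.posUnipotent K :=
    (Subgroup.mem_normalizer_iff.mp (sysG2.diagonal_le_normalizer K (hT_mem_diagonal w)) _).mp
      (eU_pos _ _ _)
  have hmem : h * (c * g * c⁻¹) * h⁻¹ ∈ uSub3 K m := by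
    show ((h * (c * g * c⁻¹) * h⁻¹ : ↥G¹) : GL chevG2.Idx K) ∈ chevG2.posUnipotent K
    rw [Subgroup.coe_mul, Subgroup.coe_mul, Subgroup.coe_inv, hh, e]
    exact hpos
  obtain ⟨t', u', v', e'⟩ := mem_uSub3 hK hmem
  have ht' : t' = 1 := by
    have := congrArg psi1 e'
    rw [Subgroup.coe_mul, Subgroup.coe_mul, Subgroup.coe_inv, hh, e,
      psi1_hT_conj (Q_of_card hK), eU_psi1, hw, inv_mul_cancel₀ ht] at this
    exact this.symm
  subst ht'
  rw [show h * (c * g * c⁻¹) * h⁻¹ = uEl 1 u' v' from Subtype.ext e']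
  exact card_cent_nine_one hK u' v'

/-- The elements of order three. -/
theorem three_conj {g : ↥G¹} (hg : orderOf g = 3) :
    (∃ (c : ↥G¹) (v : K), v ≠ 0 ∧ c * g * c⁻¹ = uEl 0 0 v) ∨
      ∃ (c : ↥G¹) (u : K), u ≠ 0 ∧ c * g * c⁻¹ = uEl 0 u 0 := by
  obtain ⟨c, hc⟩ := exists_conj_uSub3 hK (g := g) (k := 1)
    (by rw [pow_one]; exact orderOf_dvd_iff_pow_eq_one.1 hg.dvd)
  obtain ⟨t, u, v, e⟩ := mem_uSub3 hK hc
  have ho : orderOf (uEl (m := m) t u v) = 3 := by
    rw [← show c * g * c⁻¹ = uEl t u v from Subtype.ext e, orderOf_conj_eq, hg]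
  obtain ⟨rfl, huv⟩ := (eU_orderOf (m := m) t u v).1 ho
  by_cases hu : u = 0
  · subst hu
    exact Or.inl ⟨c, v, fun h => huv (by rw [h]), Subtype.ext e⟩
  · refine Or.inr ⟨(⟨eA K m (v / u), eA_twisted _⟩ : ↥G¹)⁻¹ * c, u, hu, Subtype.ext ?_⟩
    have key := eA_conj_eB (m := m) (v / u) u
    rw [div_mul_cancel₀ _ hu] at key
    have e' : eU K m 0 u v = eB K m u * eC K m v := by simp [eU, eA_val, sysG2.xG_zero]
    show (eA K m (v / u))⁻¹ * (c : GL chevG2.Idx K) * g *
      ((eA K m (v / u))⁻¹ * (c : GL chevG2.Idx K))⁻¹ = eU K m 0 u 0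
    rw [show (eA K m (v / u))⁻¹ * (c : GL chevG2.Idx K) * g *
      ((eA K m (v / u))⁻¹ * (c : GL chevG2.Idx K))⁻¹ = (eA K m (v / u))⁻¹ *
        ((c : GL chevG2.Idx K) * g * (c : GL chevG2.Idx K)⁻¹) * eA K m (v / u) by group,
      show (c : GL chevG2.Idx K) * g * (c : GL chevG2.Idx K)⁻¹ = eU K m 0 u v from e, e', ← key,
      ← eB_eq]
    group

theorem card_cent_eC {v : K} (hv : v ≠ 0) :
    Nat.card (Subgroup.centralizer ({uEl (m := m) 0 0 v} : Set ↥G¹)) ≤ q₀ ^ 3 := by
  rw [← card_uSub3 hK]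
  refine Subgroup.card_le_of_le fun c hc => ?_
  have hc' := Subgroup.mem_centralizer_singleton_iff.1 hc
  have hg1 : uEl (m := m) 0 0 v ≠ 1 := fun e => hv
    (eU_inj ((congrArg Subtype.val e : eU K m (0 : K) 0 v = 1).trans (eU_zero).symm)).2.2
  obtain ⟨t, u, v', w, e⟩ := borel_of_commute hK (g := uEl 0 0 v) (eU_pos _ _ _) hg1 hc'
  have hcc := coe_commute hK hc' e
  rw [show ((uEl (m := m) 0 0 v : ↥G¹) : GL chevG2.Idx K) = eC K m v from (eC_eq v).symm,
    hT_conj_eC (Q_of_card hK), ← eC_commute (eU_pos t u v'), mul_inv_cancel_right, eC_eq,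
    eC_eq] at hcc
  have hw : fr K m w = 1 := by
    have := (eU_inj hcc).2.2
    exact (mul_eq_right₀ hv).1 this
  have hw1 : w = 1 := Units.ext ((fr K m).injective (by rw [hw, Units.val_one, map_one]))
  subst hw1
  show (c : GL chevG2.Idx K) ∈ chevG2.posUnipotent K
  rw [e, map_one, mul_one]
  exact eU_pos _ _ _

theorem card_cent_eB {u : K} (hu : u ≠ 0) :
    Nat.card (Subgroup.centralizer ({uEl (m := m) 0 u 0} : Set ↥G¹)) ≤ q₀ ^ 3 := by
  classical
  have hg1 : uEl (m := m) 0 u 0 ≠ 1 := fun e => hu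
    (eU_inj ((congrArg Subtype.val e : eU K m (0 : K) u 0 = 1).trans (eU_zero).symm)).2.1
  have hform : ∀ c : ↥(Subgroup.centralizer ({uEl (m := m) 0 u 0} : Set ↥G¹)), ∃ (a b : K) (w : Kˣ),
      ((c : ↥G¹) : GL chevG2.Idx K) = eU K m 0 a b * hT K m w ∧ (w = 1 ∨ w = -1) := by
    rintro ⟨c, hc⟩
    have hc' := Subgroup.mem_centralizer_singleton_iff.1 hc
    obtain ⟨t, a, b, w, e⟩ := borel_of_commute hK (g := uEl 0 u 0) (eU_pos _ _ _) hg1 hc'
    have hcc := coe_commute hK hc' e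
    rw [show ((uEl (m := m) 0 u 0 : ↥G¹) : GL chevG2.Idx K) = eB K m u from (eB_eq u).symm,
      hT_conj_eB (Q_of_card hK)] at hcc
    set u' := (w : K) ^ 3 / fr K m w * u
    have h1 : eU K m t a b * eB K m u' * (eU K m t a b)⁻¹ = eB K m u' * eC K m (t * u') := by
      rw [← eA_conj_eB]
      have c1 : eC K m b * eB K m u' * (eC K m b)⁻¹ = eB K m u' := by
        rw [eC_commute (eB_pos u'), mul_inv_cancel_right]
      have c2 : eB K m a * eB K m u' * (eB K m a)⁻¹ = eB K m u' := by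
        rw [eB_add, add_comm, ← eB_add, mul_inv_cancel_right]
      calc eU K m t a b * eB K m u' * (eU K m t a b)⁻¹
          = eA K m t * (eB K m a * (eC K m b * eB K m u' * (eC K m b)⁻¹) * (eB K m a)⁻¹) *
              (eA K m t)⁻¹ := by rw [eU]; group
        _ = _ := by rw [c1, c2]
    rw [h1, show eB K m u' * eC K m (t * u') = eU K m 0 u' (t * u') by
      simp [eU, eA_val, sysG2.xG_zero], eB_eq] at hcc
    obtain ⟨-, h2, h3⟩ := eU_inj hcc
    have hβ : (w : K) ^ 3 / fr K m w = 1 := (mul_eq_right₀ hu).1 h2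
    have ht : t = 0 := (mul_eq_zero.1 (h2 ▸ h3)).resolve_right hu
    subst ht
    refine ⟨a, b, w, e, ?_⟩
    rcases (eB_coeff_eq_one_iff hK w.ne_zero).1 hβ with h | h
    · exact Or.inl (Units.ext h)
    · exact Or.inr (Units.ext h)
  choose fa fb fw hf hw using hform
  let f : ↥(Subgroup.centralizer ({uEl (m := m) 0 u 0} : Set ↥G¹)) →
      K × K × ({1, -1} : Finset Kˣ) := fun c => (fa c, fb c, ⟨fw c, by simpa using hw c⟩)
  refine le_trans (Nat.card_le_card_of_injective f fun c d h => ?_) ?_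
  · obtain ⟨h1, h2⟩ := Prod.mk.inj h
    obtain ⟨h2, h3⟩ := Prod.mk.inj h2
    exact Subtype.ext (Subtype.ext (by rw [hf, hf, h1, h2, Subtype.mk.inj h3]))
  · rw [Nat.card_prod, Nat.card_prod, Nat.card_eq_fintype_card, hK, Nat.card_eq_fintype_card,
      Fintype.card_coe]
    have h2 : ({1, -1} : Finset Kˣ).card ≤ q₀ := le_trans Finset.card_le_two
      (le_trans (by norm_num) (Nat.le_self_pow (by omega) 3))
    calc q₀ * (q₀ * ({1, -1} : Finset Kˣ).card) ≤ q₀ * (q₀ * q₀) :=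
          Nat.mul_le_mul_left _ (Nat.mul_le_mul_left _ h2)
      _ = q₀ ^ 3 := by ring

/-- An element of order three lies, up to inversion and conjugacy, in a subgroup of order `q`. -/
theorem three_data {g : ↥G¹} (hg : orderOf g = 3) :
    Nat.card (Subgroup.centralizer ({g} : Set ↥G¹)) ≤ q₀ ^ 3 ∧
    ∃ Z : Subgroup ↥G¹, Nat.card Z = q₀ ∧ ∀ z ∈ Z, z ≠ 1 → IsConj g z ∨ IsConj g z⁻¹ := by
  classical
  have hq := Q_of_card hK
  rcases three_conj hK hg with ⟨c, v, hv, hc⟩ | ⟨c, u, hu, hc⟩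
  · refine ⟨by rw [← card_cent_conj c g, hc]; exact card_cent_eC hK hv, ?_⟩
    let f : Multiplicative K →* ↥G¹ := MonoidHom.mk' (fun a => uEl 0 0 a.toAdd) fun a b =>
      Subtype.ext (by
        show eU K m 0 0 (a.toAdd + b.toAdd) = eU K m 0 0 a.toAdd * eU K m 0 0 b.toAdd
        rw [← eC_eq, ← eC_eq, ← eC_eq, eC_add])
    have hinj : Function.Injective f := fun a b h => Multiplicative.toAdd.injective
      (eU_inj (congrArg Subtype.val h : eU K m (0 : K) 0 a.toAdd = eU K m 0 0 b.toAdd)).2.2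
    refine ⟨f.range, ?_, ?_⟩
    · rw [← Nat.card_congr (MonoidHom.ofInjective hinj).toEquiv,
        Nat.card_congr Multiplicative.toAdd, Nat.card_eq_fintype_card, hK]
    · rintro z ⟨a, rfl⟩ hz
      have ha : a.toAdd ≠ 0 := fun h0 => hz (by
        rw [show a = 1 from Multiplicative.toAdd.injective h0, map_one])
      obtain ⟨w₀, hw₀⟩ := Finite.surjective_of_injective (fr K m).injective (a.toAdd / v)
      have hw₀' : w₀ ≠ 0 := fun h0 => by
        rw [h0, map_zero] at hw₀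
        exact div_ne_zero ha hv hw₀.symm
      obtain ⟨h, hh⟩ := exists_tEl hK (Units.mk0 w₀ hw₀')
      refine Or.inl (isConj_iff.2 ⟨h * c, Subtype.ext ?_⟩)
      rw [show h * c * g * (h * c)⁻¹ = h * (c * g * c⁻¹) * h⁻¹ by group, hc, Subgroup.coe_mul,
        Subgroup.coe_mul, Subgroup.coe_inv, hh]
      show hT K m (Units.mk0 w₀ hw₀') * eU K m 0 0 v * (hT K m (Units.mk0 w₀ hw₀'))⁻¹ =
        eU K m 0 0 a.toAdd
      rw [← eC_eq, hT_conj_eC hq, eC_eq, Units.val_mk0, hw₀, div_mul_cancel₀ _ hv]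
  · refine ⟨by rw [← card_cent_conj c g, hc]; exact card_cent_eB hK hu, ?_⟩
    let f : Multiplicative K →* ↥G¹ := MonoidHom.mk' (fun a => uEl 0 a.toAdd 0) fun a b =>
      Subtype.ext (by
        show eU K m 0 (a.toAdd + b.toAdd) 0 = eU K m 0 a.toAdd 0 * eU K m 0 b.toAdd 0
        rw [← eB_eq, ← eB_eq, ← eB_eq, eB_add])
    have hinj : Function.Injective f := fun a b h => Multiplicative.toAdd.injective
      (eU_inj (congrArg Subtype.val h : eU K m (0 : K) a.toAdd 0 = eU K m 0 b.toAdd 0)).2.1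
    refine ⟨f.range, ?_, ?_⟩
    · rw [← Nat.card_congr (MonoidHom.ofInjective hinj).toEquiv,
        Nat.card_congr Multiplicative.toAdd, Nat.card_eq_fintype_card, hK]
    · let β : Kˣ →* Kˣ := MonoidHom.mk' (fun w => Units.mk0 ((w : K) ^ 3 / fr K m w)
        (div_ne_zero (pow_ne_zero _ w.ne_zero) ((map_ne_zero _).2 w.ne_zero))) fun a b =>
        Units.ext (by
          show ((a * b : Kˣ) : K) ^ 3 / fr K m (a * b : Kˣ) = _
          rw [Units.val_mul, map_mul, mul_pow, mul_div_mul_comm]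
          rfl)
      have hone : (-1 : Kˣ) ≠ 1 := neg_one_ne_one_units hK
      have hker : ∀ w : Kˣ, w ∈ β.ker ↔ w = 1 ∨ w = -1 := fun w => by
        rw [MonoidHom.mem_ker, Units.ext_iff,
          show ((β w : Kˣ) : K) = (w : K) ^ 3 / fr K m w from rfl, Units.val_one,
          eB_coeff_eq_one_iff hK w.ne_zero, Units.ext_iff, Units.ext_iff]
        simp
      have hk2 : Nat.card β.ker = 2 := by
        rw [Nat.card_congr (Equiv.subtypeEquivRight (q := fun w => w ∈ ({1, -1} : Finset Kˣ))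
          fun w => by rw [hker]; simp), Nat.card_eq_fintype_card, Fintype.card_coe]
        exact Finset.card_pair hone.symm
      have hidx : β.range.index = 2 := by
        have h1 := β.range.card_mul_index
        have h2 := β.ker.card_mul_index
        rw [Subgroup.index_ker, hk2] at h2
        have hpos : 0 < Nat.card β.range := Nat.card_pos
        rw [← h2] at h1
        nlinarith
      have hodd : ¬ (-1 : Kˣ) ∈ β.range := by
        intro hm1
        have h1 := Subgroup.orderOf_dvd_natCard _ hm1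
        rw [orderOf_eq_prime (p := 2) (by simp) hone] at h1
        have h2 := β.range.card_mul_index
        rw [hidx, Nat.card_units, Nat.card_eq_fintype_card (α := K), hK] at h2
        have h8 : q₀ % 4 = 3 := by
          rw [pow_add, pow_mul, Nat.mul_mod, Nat.pow_mod]; norm_num
        omega
      rintro z ⟨a, rfl⟩ hz
      have ha : a.toAdd ≠ 0 := fun h0 => hz (by
        rw [show a = 1 from Multiplicative.toAdd.injective h0, map_one])
      set r : Kˣ := Units.mk0 (a.toAdd / u) (div_ne_zero ha hu)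
      have hkey : ∀ (w : Kˣ) (b : K), (β w : K) * u = b → IsConj g (f (Multiplicative.ofAdd b)) := by
        intro w b hb
        obtain ⟨h, hh⟩ := exists_tEl hK w
        refine isConj_iff.2 ⟨h * c, Subtype.ext ?_⟩
        rw [show h * c * g * (h * c)⁻¹ = h * (c * g * c⁻¹) * h⁻¹ by group, hc, Subgroup.coe_mul,
          Subgroup.coe_mul, Subgroup.coe_inv, hh]
        show hT K m w * eU K m 0 u 0 * (hT K m w)⁻¹ = eU K m 0 b 0
        rw [← eB_eq, hT_conj_eB hq, eB_eq, ← hb]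
        rfl
      by_cases hr : r ∈ β.range
      · obtain ⟨w, hw⟩ := hr
        refine Or.inl ?_
        have := hkey w a.toAdd (by rw [hw]; exact div_mul_cancel₀ _ hu)
        rwa [ofAdd_toAdd] at this
      · have hnr : -r ∈ β.range := by
          rw [← neg_one_mul, Subgroup.mul_mem_iff_of_index_two hidx]
          exact iff_of_false hodd hr
        obtain ⟨w, hw⟩ := hnr
        refine Or.inr ?_
        have := hkey w (-a.toAdd) (by
          rw [hw, Units.val_neg, neg_mul]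
          exact congrArg Neg.neg (div_mul_cancel₀ _ hu))
        rwa [ofAdd_neg, ofAdd_toAdd, map_inv] at this

theorem card_borel_centralizer :
    Nat.card ↥((B¹).subgroupOf C¹) = q₀ * (q₀ - 1) := by
  have e := ((B¹).subgroupOf C¹).card_mul_index
  rw [index_borel_centralizer hK, card_centralizer_invE hK] at e
  have h1 : 1 < q₀ := Nat.one_lt_pow (by omega) (by norm_num)
  refine Nat.eq_of_mul_eq_mul_right (show 0 < q₀ + 1 by omega) ?_
  rw [e]
  obtain ⟨n, hn⟩ : ∃ n, q₀ = n + 1 := ⟨q₀ - 1, by omega⟩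
  rw [hn, show n + 1 - 1 = n from rfl,
    show (n + 1) ^ 2 - 1 = n * (n + 1 + 1) by
      rw [show (n + 1) ^ 2 = n * (n + 1 + 1) + 1 by ring, Nat.add_sub_cancel]]
  ring

theorem six_bound (hm : 1 ≤ m) {g : ↥G¹} (hg : orderOf g = 6) :
    2 * Nat.card (Subgroup.centralizer ({g} : Set ↥G¹)) ≤ q₀ * (q₀ - 1) := by
  obtain ⟨c, hc⟩ := exists_conj_invE hK (g := g ^ 3) (by rw [orderOf_pow, hg]; rfl)
  rw [← card_cent_conj c g]
  set g₁ := c * g * c⁻¹ with hg₁
  have hi : g₁ ^ 3 = invE := by rw [hg₁, conj_pow, hc]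
  have hgC : g₁ ∈ C¹ := Subgroup.mem_centralizer_singleton_iff.2 (by
    rw [← hi, ← pow_succ', ← pow_succ])
  have ho4 : orderOf (g₁ ^ 4) = 3 := by rw [orderOf_pow, hg₁, orderOf_conj_eq, hg]; rfl
  obtain ⟨d, u, hu⟩ := exists_conj_eB hK (g := (⟨g₁, hgC⟩ : ↥C¹) ^ 4) (k := 1) (Subtype.ext (by
    rw [Subgroup.coe_pow, Subgroup.coe_pow, Subgroup.coe_one, pow_one]
    have := pow_orderOf_eq_one (g₁ ^ 4)
    rwa [ho4] at this))
  rw [← card_cent_conj (d : ↥G¹) g₁]
  set g₂ := (d : ↥G¹) * g₁ * (d : ↥G¹)⁻¹ with hg₂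
  have hs : g₂ ^ 4 = uEl 0 u 0 := Subtype.ext (by
    rw [hg₂, conj_pow]
    exact hu.trans (eB_eq u))
  have hs1 : uEl (m := m) 0 u 0 ≠ 1 := fun e => by
    have := ho4
    rw [show g₁ ^ 4 = (d : ↥G¹)⁻¹ * g₂ ^ 4 * (d : ↥G¹) by rw [hg₂]; generalize g₁ = y; rw [conj_pow]; group, hs, e, mul_one,
      inv_mul_cancel, orderOf_one] at this
    omega
  have hu0 : u ≠ 0 := fun h => hs1 (Subtype.ext (by rw [h]; exact eU_zero))
  have hi2 : g₂ ^ 3 = invE := by
    rw [hg₂, conj_pow, hi, Subgroup.mem_centralizer_singleton_iff.1 d.2, mul_inv_cancel_right]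
  set Z := Subgroup.centralizer ({g₂} : Set ↥G¹)
  set P := ((B¹).subgroupOf C¹).map (C¹).subtype with hP
  have hle : Z ≤ P := by
    intro z hz
    have hz' : Commute z g₂ := Subgroup.mem_centralizer_singleton_iff.1 hz
    have hzC : z ∈ C¹ := Subgroup.mem_centralizer_singleton_iff.2 (hi2 ▸ (hz'.pow_right 3).eq)
    have h4 := (hz'.pow_right 4).eq
    rw [hs] at h4
    obtain ⟨t, a, b, w, e⟩ := borel_of_commute hK (eU_pos 0 u 0) hs1 h4
    exact ⟨⟨z, hzC⟩, ⟨by
      show (z : GL chevG2.Idx K) ∈ chevG2.borelSubgroup K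
      rw [e]; exact eU_hT_mem_borel t a b w, z.2⟩, rfl⟩
  have hcardP : Nat.card P = q₀ * (q₀ - 1) := by
    rw [hP, Subgroup.card_subtype]; exact card_borel_centralizer hK
  rw [← hcardP]
  obtain ⟨w₀, hw0, hw1, hwn⟩ := exists_generic hm hK
  set h : ↥G¹ := ⟨hT K m (Units.mk0 w₀ hw0), hT_mem_twisted hK _⟩ with hh
  have hhP : h ∈ P := ⟨⟨h, hT_mem_centralizer hK _⟩,
    ⟨Subgroup.mem_sup_right (hT_mem_diagonal _), hT_mem_twisted hK _⟩, rfl⟩
  have hhZ : h ∉ Z := fun hz => by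
    have h4 := ((show Commute h g₂ from Subgroup.mem_centralizer_singleton_iff.1 hz).pow_right 4).eq
    rw [hs] at h4
    have h5 : hT K m (Units.mk0 w₀ hw0) * eB K m u * (hT K m (Units.mk0 w₀ hw0))⁻¹ = eB K m u := by
      have := congrArg Subtype.val h4
      rw [Subgroup.coe_mul, Subgroup.coe_mul] at this
      rw [eB_eq]
      change hT K m (Units.mk0 w₀ hw0) * eU K m 0 u 0 = eU K m 0 u 0 * hT K m (Units.mk0 w₀ hw0)
        at this
      rw [this, mul_inv_cancel_right]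
    rw [hT_conj_eB (Q_of_card hK), eB_eq, eB_eq] at h5
    have h6 := (mul_eq_right₀ hu0).1 (eU_inj h5).2.1
    rcases (eB_coeff_eq_one_iff hK hw0).1 h6 with e | e
    · exact hw1 e
    · exact hwn e
  obtain ⟨k, hk⟩ := Subgroup.card_dvd_of_le hle
  rcases k with _ | _ | k
  · have := Nat.card_pos (α := P); omega
  · exfalso
    refine hhZ ?_
    rw [Subgroup.eq_of_le_of_card_ge hle (le_of_eq (by rw [hk]; simp))]
    exact hhP
  · rw [hk]; nlinarith [Nat.zero_le k]

theorem card_cent_involution {g : ↥G¹} (hg : orderOf g = 2) :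
    Nat.card (Subgroup.centralizer ({g} : Set ↥G¹)) = q₀ * (q₀ ^ 2 - 1) := by
  obtain ⟨c, hc⟩ := exists_conj_invE hK hg
  rw [← card_cent_conj c g, hc, card_centralizer_invE hK]

/-- An element of order three fixes exactly one point. -/
theorem fixed_three {g : ↥G¹} (hg : orderOf g = 3) :
    Nat.card (MulAction.fixedBy (↥G¹ ⧸ B¹) g) = 1 := by
  haveI : Fact (Nat.Prime 3) := ⟨Nat.prime_three⟩
  have hUB : uSub3 K m ≤ B¹ := fun x hx => ⟨Subgroup.mem_sup_left hx, x.2⟩
  have hnd : ¬ 3 ∣ ((uSub3 K m).subgroupOf B¹).index := by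
    have e1 := (B¹).card_mul_index
    rw [index_borel hK, card_twisted hK] at e1
    have hB : Nat.card ↥(B¹) = q₀ ^ 3 * (q₀ - 1) :=
      Nat.eq_of_mul_eq_mul_right (by positivity) e1
    have e2 := ((uSub3 K m).subgroupOf B¹).card_mul_index
    rw [Nat.card_congr (Subgroup.subgroupOfEquivOfLe hUB).toEquiv, card_uSub3 hK, hB] at e2
    rw [Nat.eq_of_mul_eq_mul_left (pow_pos (pow_pos (by norm_num) _) _) e2]
    have h3 : 3 ∣ q₀ := dvd_pow_self 3 (by omega)
    have h1 : 1 < q₀ := Nat.one_lt_pow (by omega) (by norm_num)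
    omega
  haveI : ((uSub3 K m).subgroupOf B¹).Normal := ⟨fun a ha b => borel_conj_uSub3 hK b.2 ha⟩
  have hin : ∀ y : ↥G¹, y ∈ B¹ → orderOf y = 3 → y ∈ uSub3 K m := by
    intro y hy ho
    have h := orderOf_map_dvd (QuotientGroup.mk' ((uSub3 K m).subgroupOf B¹)) (⟨y, hy⟩ : ↥(B¹))
    rw [Subgroup.orderOf_mk, ho] at h
    rcases (Nat.dvd_prime Nat.prime_three).1 h with h1 | h1
    · exact (QuotientGroup.eq_one_iff (⟨y, hy⟩ : ↥(B¹))).1 (orderOf_eq_one_iff.1 h1)
    · have h2 := orderOf_dvd_natCard (QuotientGroup.mk' ((uSub3 K m).subgroupOf B¹) (⟨y, hy⟩ : ↥(B¹)))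
      exact absurd ((dvd_of_eq h1.symm).trans h2) hnd
  obtain ⟨c, hc⟩ := exists_conj_uSub3 hK (g := g) (k := 1) (by rw [pow_one]; exact orderOf_dvd_iff_pow_eq_one.1 hg.dvd)
  have hfix : ∀ y : ↥G¹, g • (QuotientGroup.mk y : ↥G¹ ⧸ B¹) = QuotientGroup.mk y ↔
      y⁻¹ * g * y ∈ B¹ := fun y => by
    rw [MulAction.Quotient.smul_mk, eq_comm, QuotientGroup.eq, smul_eq_mul, mul_assoc]
  rw [Nat.card_eq_one_iff_exists]
  refine ⟨⟨QuotientGroup.mk c⁻¹, (hfix _).2 (by rw [inv_inv]; exact hUB hc)⟩, ?_⟩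
  rintro ⟨z, hz⟩
  obtain ⟨y, rfl⟩ := QuotientGroup.mk_surjective z
  refine Subtype.ext (QuotientGroup.eq.2 ?_)
  have hy : y⁻¹ * g * y ∈ B¹ := (hfix y).1 hz
  have hyU := hin _ hy (by
    have := orderOf_conj_eq y⁻¹ g
    rw [inv_inv, hg] at this
    exact this)
  have hne : c * g * c⁻¹ ≠ 1 := fun e => by
    have := orderOf_conj_eq c g
    rw [e, orderOf_one, hg] at this
    omega
  refine ti_uSub3 hK hc hne ?_
  rw [show y⁻¹ * c⁻¹ * (c * g * c⁻¹) * (y⁻¹ * c⁻¹)⁻¹ = y⁻¹ * g * y by group]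
  exact hyU

/-- An element of prime order prime to the order of the Borel subgroup fixes no point. -/
theorem fixed_coprime {g : ↥G¹} {p : ℕ} (ho : p ∣ orderOf g)
    (hB : ¬ p ∣ q₀ ^ 3 * (q₀ - 1)) : Nat.card (MulAction.fixedBy (↥G¹ ⧸ B¹) g) = 0 := by
  rw [Nat.card_eq_zero]
  refine Or.inl ⟨?_⟩
  rintro ⟨z, hz⟩
  obtain ⟨y, rfl⟩ := QuotientGroup.mk_surjective z
  apply hB
  have hy : y⁻¹ * g * y ∈ B¹ := by
    have h : g • (QuotientGroup.mk y : ↥G¹ ⧸ B¹) = QuotientGroup.mk y := hz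
    rw [MulAction.Quotient.smul_mk, eq_comm, QuotientGroup.eq, smul_eq_mul, ← mul_assoc] at h
    exact h
  have e1 := (B¹).card_mul_index
  rw [index_borel hK, card_twisted hK] at e1
  rw [← Nat.eq_of_mul_eq_mul_right (show 0 < q₀ ^ 3 + 1 by positivity) e1]
  refine ho.trans ?_
  have := orderOf_conj_eq y⁻¹ g
  rw [inv_inv] at this
  rw [← this]
  exact Subgroup.orderOf_dvd_natCard _ hy

end CfsgLib.ReeSquare
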