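import Cfsg.Agent.S0840
import Cfsg.Agent.Chars.PermChar.Suborbit
import Cfsg.Agent.Chars.Exceptional.Inner

/-!
Sufficient conditions for an element to be a product of two conjugates of a given element, read
from the sum over the irreducible characters.

* `covers_of_fourth`: the Cauchy–Schwarz condition;
* `re_ge_of_subgroup`: the lower bound `Re χ(g) ≥ -χ(1)/(q-1)` from a subgroup of order `q`;
* `covers_of_ratio`, `covers_of_ratio_st`: the conditions using that bound;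
* `exists_steinberg`: the character `π - 1` of a doubly transitive action.
-/

set_option autoImplicit false

namespace CfsgLib.ReeSquare

open Cfsg CfsgLib.Chars
open scoped ComplexConjugate

universe u

variable {G : Type u} [Group G] [Finite G]

/-- `g` is a product of two conjugates of `x`. -/
def Covers (x g : G) : Prop := ∃ u v : G, g = u * x * u⁻¹ * (v * x * v⁻¹)

omit [Finite G] in
theorem Covers.conj {x g g' : G} (h : Covers x g) (hg : IsConj g g') : Covers x g' := by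
  obtain ⟨u, v, rfl⟩ := h
  obtain ⟨c, rfl⟩ := isConj_iff.1 hg
  exact ⟨c * u, c * v, by group⟩

omit [Finite G] in
theorem Covers.of_isConj {x x' g : G} (h : Covers x g) (hx : IsConj x x') : Covers x' g := by
  obtain ⟨u, v, rfl⟩ := h
  obtain ⟨c, rfl⟩ := isConj_iff.1 hx
  exact ⟨u * c⁻¹, v * c⁻¹, by group⟩

/-- The trivial character. -/
noncomputable def oneIrr (G : Type u) [Group G] [Finite G] : IrrCharacter G :=
  ⟨fun _ => 1, isIrrCharacter_one⟩

@[simp] theorem oneIrr_apply (g : G) : (oneIrr G : G → ℂ) g = 1 := rfl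

/-- The degree, as a real number. -/
noncomputable def deg (χ : IrrCharacter G) : ℝ := (charDegree (χ : G → ℂ) : ℝ)

theorem apply_one_eq (χ : IrrCharacter G) : (χ : G → ℂ) 1 = ((deg χ : ℝ) : ℂ) := by
  rw [deg, Complex.ofReal_natCast, coe_charDegree]

theorem deg_pos (χ : IrrCharacter G) : 0 < deg χ := by
  unfold deg; exact_mod_cast charDegree_pos χ

theorem apply_eq_of_isConj (χ : IrrCharacter G) {a b : G} (h : IsConj a b) :
    (χ : G → ℂ) a = (χ : G → ℂ) b := by
  obtain ⟨c, rfl⟩ := isConj_iff.1 h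
  exact (isClassFunction_coe χ a c).symm

theorem apply_real {x : G} (hx : IsConj x x⁻¹) (χ : IrrCharacter G) :
    (χ : G → ℂ) x = ((((χ : G → ℂ) x).re : ℝ) : ℂ) := by
  have h : conj ((χ : G → ℂ) x) = (χ : G → ℂ) x := by
    rw [← map_inv_eq_conj (isCharacter_coe χ), ← apply_eq_of_isConj χ hx]
  exact (Complex.conj_eq_iff_re.1 h).symm

section

variable [DecidableEq (IrrCharacter G)]

/-- The nontrivial irreducible characters. -/
noncomputable abbrev others : Finset (IrrCharacter G) := Finset.univ.erase (oneIrr G)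

local notation "𝓞" => (others : Finset (IrrCharacter G))

theorem covers_of_sum_ne_zero (x g : G)
    (h : ∑ χ : IrrCharacter G, (χ : G → ℂ) x * (χ : G → ℂ) x * conj ((χ : G → ℂ) g) /
      (χ : G → ℂ) 1 ≠ 0) : Covers x g := by
  by_contra hno
  haveI : IsEmpty {p : G × G // IsConj x p.1 ∧ IsConj x p.2 ∧ p.1 * p.2 = g} := by
    refine ⟨fun p => ?_⟩
    obtain ⟨⟨a, b⟩, ha, hb, hab⟩ := p
    obtain ⟨u, hu⟩ := isConj_iff.1 ha
    obtain ⟨v, hv⟩ := isConj_iff.1 hb
    exact hno ⟨u, v, by rw [hu, hv]; exact hab.symm⟩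
  have key := Cfsg.Agent.S0840.result x x g
  rw [Nat.card_of_isEmpty, Nat.cast_zero, finsum_eq_sum_of_fintype] at key
  have hne : (Nat.card {z : G // IsConj x z} : ℂ) ≠ 0 := by
    haveI : Nonempty {z : G // IsConj x z} := ⟨⟨x, IsConj.refl x⟩⟩
    exact Nat.cast_ne_zero.mpr Nat.card_pos.ne'
  have hG : (Nat.card G : ℂ) ≠ 0 := Nat.cast_ne_zero.mpr Nat.card_pos.ne'
  exact h ((mul_eq_zero.mp key.symm).resolve_left (div_ne_zero (mul_ne_zero hne hne) hG))

theorem covers_of_norm_lt (x g : G)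
    (h : ‖∑ χ ∈ 𝓞, (χ : G → ℂ) x * (χ : G → ℂ) x * conj ((χ : G → ℂ) g) /
      (χ : G → ℂ) 1‖ < 1) : Covers x g := by
  refine covers_of_sum_ne_zero x g fun h0 => ?_
  rw [← Finset.add_sum_erase _ _ (Finset.mem_univ (oneIrr G))] at h0
  simp only [oneIrr_apply, map_one, mul_one, div_one] at h0
  rw [← eq_neg_of_add_eq_zero_right h0 |>.symm, norm_neg, norm_one] at h
  exact lt_irrefl _ h

theorem sum_norm_sq_others (x : G) :
    ∑ χ ∈ 𝓞, ‖(χ : G → ℂ) x‖ ^ 2 =
      (Nat.card (Subgroup.centralizer ({x} : Set G)) : ℝ) - 1 := by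
  have := sum_irr_norm_sq x
  rw [← Finset.add_sum_erase _ _ (Finset.mem_univ (oneIrr G))] at this
  simp only [oneIrr_apply, norm_one, one_pow] at this
  linarith

/-- The Cauchy–Schwarz condition. -/
theorem covers_of_fourth (x g : G)
    (h : (∑ χ ∈ 𝓞, ‖(χ : G → ℂ) x‖ ^ 4 / deg χ ^ 2) *
      (Nat.card (Subgroup.centralizer ({g} : Set G)) : ℝ) < 1) : Covers x g := by
  refine covers_of_norm_lt x g ((norm_sum_le _ _).trans_lt ?_)
  have hterm : ∀ χ : IrrCharacter G,
      ‖(χ : G → ℂ) x * (χ : G → ℂ) x * conj ((χ : G → ℂ) g) / (χ : G → ℂ) 1‖ =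
        (‖(χ : G → ℂ) x‖ ^ 2 / deg χ) * ‖(χ : G → ℂ) g‖ := fun χ => by
    rw [norm_div, norm_mul, norm_mul, RCLike.norm_conj, apply_one_eq χ, Complex.norm_real,
      Real.norm_eq_abs, abs_of_pos (deg_pos χ)]
    ring
  simp only [hterm]
  have hcs := Finset.sum_mul_sq_le_sq_mul_sq 𝓞
    (fun χ : IrrCharacter G => ‖(χ : G → ℂ) x‖ ^ 2 / deg χ) (fun χ => ‖(χ : G → ℂ) g‖)
  have hsq : ∀ χ : IrrCharacter G, (‖(χ : G → ℂ) x‖ ^ 2 / deg χ) ^ 2 =
      ‖(χ : G → ℂ) x‖ ^ 4 / deg χ ^ 2 := fun χ => by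
    rw [div_pow]; ring
  simp only [hsq] at hcs
  rw [sum_norm_sq_others g] at hcs
  have h0 : 0 ≤ ∑ χ ∈ 𝓞, ‖(χ : G → ℂ) x‖ ^ 4 / deg χ ^ 2 :=
    Finset.sum_nonneg fun χ _ => by positivity
  nlinarith

/-- The crude condition, for small centralisers. -/
theorem covers_of_small (x g : G) (D : ℝ) (hD : 0 < D) (hdeg : ∀ χ ∈ 𝓞, D ≤ deg χ)
    (h : ((Nat.card (Subgroup.centralizer ({x} : Set G)) : ℝ) - 1) ^ 2 *
      (Nat.card (Subgroup.centralizer ({g} : Set G)) : ℝ) < D ^ 2) : Covers x g := by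
  refine covers_of_fourth x g (lt_of_le_of_lt ?_ ((div_lt_one (by positivity)).2 h))
  rw [mul_div_right_comm]
  refine mul_le_mul_of_nonneg_right ?_ (Nat.cast_nonneg _)
  calc ∑ χ ∈ 𝓞, ‖(χ : G → ℂ) x‖ ^ 4 / deg χ ^ 2
      ≤ ∑ χ ∈ 𝓞, (‖(χ : G → ℂ) x‖ ^ 2) ^ 2 / D ^ 2 := Finset.sum_le_sum fun χ hχ => by
        rw [← pow_mul]
        gcongr
        exact hdeg χ hχ
    _ = (∑ χ ∈ 𝓞, (‖(χ : G → ℂ) x‖ ^ 2) ^ 2) / D ^ 2 := (Finset.sum_div _ _ _).symm
    _ ≤ _ := by
        gcongr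
        rw [← sum_norm_sq_others x]
        exact Finset.sum_sq_le_sq_sum_of_nonneg fun χ _ => by positivity

omit [DecidableEq (IrrCharacter G)] in
/-- If a subgroup of order `q` has all its nonidentity elements conjugate to `g` or to `g⁻¹` then
`Re χ(g) ≥ -χ(1)/(q-1)`. -/
theorem re_ge_of_subgroup (χ : IrrCharacter G) (Z : Subgroup G) {g : G}
    (hZ : ∀ z ∈ Z, z ≠ 1 → IsConj g z ∨ IsConj g z⁻¹) :
    -deg χ ≤ ((Nat.card Z : ℝ) - 1) * ((χ : G → ℂ) g).re := by
  classical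
  haveI := Fintype.ofFinite Z
  obtain ⟨k, hk⟩ := exists_nat_classInner (isCharacter_restrict (isCharacter_coe χ) Z) (oneIrr Z)
  simp only [classInner, oneIrr_apply, map_one, mul_one] at hk
  have hs : ∑ z : Z, (χ : G → ℂ) z = (Nat.card Z : ℂ) * k := by
    rw [← hk, mul_inv_cancel_left₀ (Nat.cast_ne_zero.mpr Nat.card_pos.ne')]
  have hre := congrArg Complex.re hs
  rw [Complex.re_sum, ← Finset.add_sum_erase _ _ (Finset.mem_univ (1 : Z))] at hre
  rw [Finset.sum_congr rfl (fun (z : Z) hz => (?_ : ((χ : G → ℂ) z).re = ((χ : G → ℂ) g).re))] at hre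
  · rw [Finset.sum_const, Finset.card_erase_of_mem (Finset.mem_univ _), Finset.card_univ,
      ← Nat.card_eq_fintype_card, nsmul_eq_mul, OneMemClass.coe_one, apply_one_eq χ,
      Complex.ofReal_re, Nat.cast_sub Nat.card_pos, Nat.cast_one] at hre
    have h0 : (0 : ℝ) ≤ ((Nat.card Z : ℂ) * (k : ℂ)).re := by simp; positivity
    rw [← hre] at h0
    linarith
  · have hz1 : (z : G) ≠ 1 := fun e => (Finset.mem_erase.1 hz).1 (Subtype.ext e)
    rcases hZ z z.2 hz1 with h | h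
    · rw [apply_eq_of_isConj χ h]
    · rw [apply_eq_of_isConj χ h, map_inv_eq_conj (isCharacter_coe χ), Complex.conj_re]

theorem covers_of_re_pos {x : G} (hx : IsConj x x⁻¹) (g : G)
    (h : 0 < 1 + ∑ χ ∈ 𝓞, ((χ : G → ℂ) x).re ^ 2 * (((χ : G → ℂ) g).re / deg χ)) :
    Covers x g := by
  refine covers_of_sum_ne_zero x g fun h0 => ?_
  have hre := congrArg Complex.re h0
  rw [← Finset.add_sum_erase _ _ (Finset.mem_univ (oneIrr G)), Complex.add_re, Complex.re_sum,
    Finset.sum_congr rfl (fun (χ : IrrCharacter G) _ => (?_ :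
      ((χ : G → ℂ) x * (χ : G → ℂ) x * conj ((χ : G → ℂ) g) / (χ : G → ℂ) 1).re =
        ((χ : G → ℂ) x).re ^ 2 * (((χ : G → ℂ) g).re / deg χ)))] at hre
  · simp only [oneIrr_apply, map_one, mul_one, div_one, Complex.one_re, Complex.zero_re] at hre
    linarith
  · rw [apply_real hx χ, apply_one_eq χ, Complex.div_ofReal_re, ← Complex.ofReal_mul,
      Complex.re_ofReal_mul, Complex.conj_re, Complex.ofReal_re]
    ring

theorem sum_re_sq_others {x : G} (hx : IsConj x x⁻¹) :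
    ∑ χ ∈ 𝓞, ((χ : G → ℂ) x).re ^ 2 =
      (Nat.card (Subgroup.centralizer ({x} : Set G)) : ℝ) - 1 := by
  rw [← sum_norm_sq_others x]
  refine Finset.sum_congr rfl fun χ _ => ?_
  conv_rhs => rw [apply_real hx χ]
  rw [Complex.norm_real, Real.norm_eq_abs, sq_abs]

theorem covers_of_ratio {x : G} (hx : IsConj x x⁻¹) (Z : Subgroup G) {g : G}
    (hZ : ∀ z ∈ Z, z ≠ 1 → IsConj g z ∨ IsConj g z⁻¹)
    (hn : Nat.card (Subgroup.centralizer ({x} : Set G)) < Nat.card Z) : Covers x g := by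
  refine covers_of_re_pos hx g ?_
  have hc : (Nat.card (Subgroup.centralizer ({x} : Set G)) : ℝ) + 1 ≤ Nat.card Z := by exact_mod_cast hn
  have hc1 : (1 : ℝ) ≤ Nat.card (Subgroup.centralizer ({x} : Set G)) := by
    exact_mod_cast Nat.card_pos
  set c : ℝ := (Nat.card Z : ℝ) - 1 with hcdef
  have hc0 : 0 < c := by linarith
  have hb : ∀ χ ∈ 𝓞, -(((χ : G → ℂ) x).re ^ 2 / c) ≤
      ((χ : G → ℂ) x).re ^ 2 * (((χ : G → ℂ) g).re / deg χ) := fun χ _ => by
    rw [neg_le_iff_add_nonneg]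
    have h1 : 0 ≤ ((χ : G → ℂ) g).re / deg χ + 1 / c := by
      rw [div_add_div _ _ (deg_pos χ).ne' hc0.ne']
      refine div_nonneg ?_ (mul_nonneg (deg_pos χ).le hc0.le)
      have := re_ge_of_subgroup χ Z hZ
      linarith
    have := mul_nonneg (sq_nonneg ((χ : G → ℂ) x).re) h1
    rw [mul_add, mul_one_div] at this
    linarith
  have := Finset.sum_le_sum hb
  rw [Finset.sum_neg_distrib, ← Finset.sum_div, sum_re_sq_others hx] at this
  have : ((Nat.card (Subgroup.centralizer ({x} : Set G)) : ℝ) - 1) / c < 1 := by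
    rw [div_lt_one hc0]; linarith
  linarith

/-- The boundary case `|C(x)| = |Z| + 1`, using a character `ψ` of degree `Q` with `ψ(x) = -1` and
`ψ(g) = 0`. -/
theorem covers_of_ratio_st {x : G} (hx : IsConj x x⁻¹) (Z : Subgroup G) {g : G}
    (hZ : ∀ z ∈ Z, z ≠ 1 → IsConj g z ∨ IsConj g z⁻¹)
    (hn : Nat.card (Subgroup.centralizer ({x} : Set G)) ≤ Nat.card Z + 1) (h2 : 2 ≤ Nat.card Z)
    (hx1 : x ≠ 1) (hxg : ¬ IsConj x g) (ψ : IrrCharacter G) (hψ : ψ ≠ oneIrr G) {Q : ℕ}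
    (hψ1 : (ψ : G → ℂ) 1 = Q) (hψx : (ψ : G → ℂ) x = -1) (hψg : (ψ : G → ℂ) g = 0)
    (hQ : Nat.card Z < Q) : Covers x g := by
  refine covers_of_re_pos hx g ?_
  set c : ℝ := (Nat.card Z : ℝ) - 1 with hcdef
  have h2' : (2 : ℝ) ≤ Nat.card Z := by exact_mod_cast h2
  have hc0 : 0 < c := by linarith
  set R := (𝓞).erase ψ with hR
  have hψmem : ψ ∈ 𝓞 := Finset.mem_erase.2 ⟨hψ, Finset.mem_univ _⟩
  rw [← Finset.add_sum_erase _ _ hψmem, hψg, Complex.zero_re, zero_div, mul_zero, zero_add, ← hR]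
  by_contra hle
  rw [not_lt] at hle
  have hrx : ((ψ : G → ℂ) x).re = -1 := by rw [hψx]; simp
  have hsum : ∑ χ ∈ R, ((χ : G → ℂ) x).re ^ 2 ≤ c := by
    have := sum_re_sq_others hx
    rw [← Finset.add_sum_erase _ _ hψmem, hrx] at this
    have hc : (Nat.card (Subgroup.centralizer ({x} : Set G)) : ℝ) ≤ Nat.card Z + 1 := by
      exact_mod_cast hn
    linarith
  have hnn : ∀ χ ∈ R, 0 ≤ ((χ : G → ℂ) x).re ^ 2 * (((χ : G → ℂ) g).re / deg χ + 1 / c) :=
    fun χ _ => mul_nonneg (sq_nonneg _) (by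
      rw [div_add_div _ _ (deg_pos χ).ne' hc0.ne']
      refine div_nonneg ?_ (mul_nonneg (deg_pos χ).le hc0.le)
      have := re_ge_of_subgroup χ Z hZ
      linarith)
  have hz : ∑ χ ∈ R, ((χ : G → ℂ) x).re ^ 2 * (((χ : G → ℂ) g).re / deg χ + 1 / c) = 0 := by
    refine le_antisymm ?_ (Finset.sum_nonneg hnn)
    simp only [mul_add, Finset.sum_add_distrib, mul_one_div, ← Finset.sum_div]
    have : (∑ χ ∈ R, ((χ : G → ℂ) x).re ^ 2) / c ≤ 1 := (div_le_one hc0).2 hsum
    linarith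
  rw [Finset.sum_eq_zero_iff_of_nonneg hnn] at hz
  -- column orthogonality
  have hcol : ∀ y : G, ¬ IsConj x y →
      1 + ((ψ : G → ℂ) x).re * ((ψ : G → ℂ) y).re +
        ∑ χ ∈ R, ((χ : G → ℂ) x).re * ((χ : G → ℂ) y).re = 0 := by
    intro y hy
    have h := congrArg Complex.re (sum_irr_mul_conj x y)
    rw [if_neg hy, Complex.re_sum, Complex.zero_re,
      Finset.sum_congr rfl (fun (χ : IrrCharacter G) _ => (?_ : ((χ : G → ℂ) x * conj ((χ : G → ℂ) y)).re =
        ((χ : G → ℂ) x).re * ((χ : G → ℂ) y).re)),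
      ← Finset.add_sum_erase _ _ (Finset.mem_univ (oneIrr G)),
      ← Finset.add_sum_erase _ _ hψmem] at h
    · simp only [oneIrr_apply, Complex.one_re, one_mul] at h
      linarith
    · conv_lhs => rw [apply_real hx χ]
      rw [Complex.re_ofReal_mul, Complex.conj_re]
  have hg' := hcol g hxg
  have h1' := hcol 1 fun h => hx1 (isConj_one_right.1 h.symm)
  rw [hψg, Complex.zero_re, mul_zero, add_zero] at hg'
  rw [hψ1, hrx] at h1'
  have e : ∀ χ ∈ R, ((χ : G → ℂ) x).re * ((χ : G → ℂ) g).re =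
      -(1 / c) * (((χ : G → ℂ) x).re * ((χ : G → ℂ) 1).re) := by
    intro χ hχ
    rw [apply_one_eq χ, Complex.ofReal_re]
    rcases mul_eq_zero.1 (hz χ hχ) with h | h
    · rw [pow_eq_zero_iff two_ne_zero] at h; rw [h]; ring
    · rw [div_add_div _ _ (deg_pos χ).ne' hc0.ne', div_eq_zero_iff] at h
      have h' : ((χ : G → ℂ) g).re * c + deg χ * 1 = 0 := h.resolve_right
        (mul_ne_zero (deg_pos χ).ne' hc0.ne')
      field_simp
      linear_combination ((χ : G → ℂ) x).re * h'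
  rw [Finset.sum_congr rfl e, ← Finset.mul_sum] at hg'
  simp only [Complex.natCast_re] at h1'
  have hT : ∑ χ ∈ R, ((χ : G → ℂ) x).re * ((χ : G → ℂ) 1).re = (Q : ℝ) - 1 := by linarith
  rw [hT] at hg'
  field_simp at hg'
  have hQ' : (Nat.card Z : ℝ) + 1 ≤ Q := by exact_mod_cast hQ
  linarith

end

open Chars.PermChar in
/-- The character `π - 1` of a doubly transitive action. -/
theorem exists_steinberg [Fintype G] (Ω : Type u) [Fintype Ω] [MulAction G Ω]
    [MulAction.IsPretransitive G Ω] (a : Ω) (hcard : 3 ≤ Nat.card Ω)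
    (h2 : ∀ b c : Ω, b ≠ a → c ≠ a → ∃ g : G, g • a = a ∧ g • b = c) :
    ∃ ψ : IrrCharacter G, ψ ≠ oneIrr G ∧
      ∀ g : G, (ψ : G → ℂ) g = (Nat.card (MulAction.fixedBy Ω g) : ℂ) - 1 := by
  classical
  have hone : classInner (fixChar G Ω) (oneIrr G : G → ℂ) = 1 := classInner_fixChar_one a
  obtain ⟨φ, hφ, hπ⟩ := exists_add_of_classInner_ne_zero (isCharacter_fixChar (G := G) (Ω := Ω))
    (oneIrr G) (by rw [hone]; exact one_ne_zero)
  have hval : ∀ g, φ g = (Nat.card (MulAction.fixedBy Ω g) : ℂ) - 1 := fun g => by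
    have := congrFun hπ g
    simp only [Pi.add_apply, oneIrr_apply] at this
    show _ = fixChar G Ω g - 1
    rw [this]; ring
  obtain ⟨b, hb⟩ : ∃ b, b ≠ a := by
    by_contra h
    push Not at h
    haveI : Subsingleton Ω := ⟨fun x y => (h x).trans (h y).symm⟩
    have := (Nat.card_eq_one_iff_unique (α := Ω)).2 ⟨this, ⟨a⟩⟩
    omega
  have hrank : Nat.card (MulAction.orbitRel.Quotient (MulAction.stabilizer G a) Ω) = 2 := by
    rw [Nat.card_eq_two_iff]
    refine ⟨Quotient.mk'' a, Quotient.mk'' b, fun h => ?_, ?_⟩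
    · obtain ⟨⟨g, hg⟩, hgb⟩ := MulAction.orbitRel_apply.1 (Quotient.eq''.1 h)
      have h1 : g • b = a := hgb
      exact hb (smul_left_cancel g (h1.trans (MulAction.mem_stabilizer_iff.1 hg).symm))
    · refine Set.eq_univ_of_forall fun z => ?_
      induction z using Quotient.inductionOn' with
      | _ c =>
        by_cases hc : c = a
        · exact Or.inl (by rw [hc])
        · obtain ⟨g, hga, hgc⟩ := h2 b c hb hc
          exact Or.inr (Quotient.sound' (MulAction.orbitRel_apply.2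
            ⟨⟨g, MulAction.mem_stabilizer_iff.2 hga⟩, hgc⟩))
  have hself := classInner_fixChar_self (G := G) a
  rw [hrank] at hself
  have hsub : φ = fixChar G Ω - (oneIrr G : G → ℂ) := by rw [hπ]; abel
  have h1 : classInner φ φ = 1 := by
    rw [hsub, Exceptional.inner_sub_left, Exceptional.inner_sub_right, Exceptional.inner_sub_right,
      ← Exceptional.inner_conj_symm (fixChar G Ω) (oneIrr G : G → ℂ), hone, hself,
      classInner_irr, if_pos rfl]
    simp; norm_num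
  refine ⟨⟨φ, isIrrCharacter_of_classInner_self hφ h1⟩, fun e => ?_, hval⟩
  have h3 := congrFun (congrArg Subtype.val e) 1
  simp only [oneIrr_apply] at h3
  rw [hval, show MulAction.fixedBy Ω (1 : G) = Set.univ from Set.eq_univ_of_forall fun z => one_smul G z,
    Nat.card_congr (Equiv.Set.univ Ω)] at h3
  have h4 : (Nat.card Ω : ℂ) = ((2 : ℕ) : ℂ) := by push_cast; linear_combination h3
  have : Nat.card Ω = 2 := by exact_mod_cast h4
  omega

end CfsgLib.ReeSquare
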