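import Cfsg.Agent.ReeSquare.Torus
import Cfsg.Agent.ReeSquare.Sum

/-!
The exceptional characters of a trivial-intersection torus, their values and degrees, and the
resulting covering criterion.
-/

set_option autoImplicit false
set_option linter.unusedSectionVars false
set_option linter.style.haveILetI false

namespace CfsgLib.ReeSquare

open Cfsg CfsgLib.Chars
open scoped ComplexConjugate Classical

universe u

variable {G : Type u} [Group G] [Fintype G]

/-- The exceptional characters of `T`, indexed by the orbits of the normaliser on the nontrivial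
linear characters. -/
structure Exc (T : Subgroup G) (w : ℕ) where
  k : ℕ
  two : 2 ≤ k
  rep : Fin k → Dual T
  rep_ne : ∀ i, rep i ≠ 1
  cls : ∀ l : Dual T, l ≠ 1 → ∃ i n, l = cjg n (rep i)
  sep : ∀ i j n, rep i = cjg n (rep j) → i = j
  count : w * k + 1 = Nat.card T
  ε : ℤ
  sign : ε = 1 ∨ ε = -1
  μ : Fin k → IrrCharacter G
  inj : Function.Injective μ
  diff : ∀ i j χ, cf (rep i) χ - cf (rep j) χ =
    ε * ((if χ = μ i then 1 else 0) - (if χ = μ j then 1 else 0))

namespace TITorus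

variable {T : Subgroup G}

theorem cjg_ne_one (n : Subgroup.normalizer (T : Set G)) {l : Dual T} (hl : l ≠ 1) :
    cjg n l ≠ 1 := fun e => hl (by
  have := congrArg (cjg n⁻¹) e
  rwa [cjg_cjg, inv_mul_cancel, cjg_one_left, cjg_one_right] at this)

theorem bot_trivial (l m : Dual T) : ∀ t : T, (t : G) ∈ (⊥ : Subgroup G) → l t = m t := fun t ht => by
  rw [show t = 1 from Subtype.ext (Subgroup.mem_bot.1 ht), map_one, map_one]

theorem class_size (h : TITorus T ⊥) {b : Dual T} (hb : b ≠ 1) :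
    (∑ l : Dual T, if (∃ n, l = cjg n b) then (Nat.card T : ℤ) else 0) =
      Nat.card (Subgroup.normalizer (T : Set G)) := by
  have hS : ∀ t : T, (t : G) ∈ (⊥ : Subgroup G) → b t = 1 := fun t ht => bot_trivial b 1 t ht
  refine Eq.trans (b := ∑ l : Dual T, ∑ n : Subgroup.normalizer (T : Set G),
    if l = cjg n b then (1 : ℤ) else 0) (Finset.sum_congr rfl fun l _ => ?_) ?_
  · convert (h.card_transporter hb hS l).symm
  rw [Finset.sum_comm]
  simp [Nat.card_eq_fintype_card]

theorem exists_exceptional (h : TITorus T ⊥) {w : ℕ}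
    (hw : Nat.card (Subgroup.normalizer (T : Set G)) = w * Nat.card T)
    (hk : w + 2 ≤ Nat.card T) : Nonempty (Exc T w) := by
  let r : Setoid {l : Dual T // l ≠ 1} :=
    { r := fun a b => ∃ n, (a : Dual T) = cjg n b
      iseqv :=
        { refl := fun a => ⟨1, (cjg_one_left _).symm⟩
          symm := fun {a b} ⟨n, hn⟩ => ⟨n⁻¹, by rw [hn, cjg_cjg, inv_mul_cancel, cjg_one_left]⟩
          trans := fun {a b c} ⟨n, hn⟩ ⟨m, hm⟩ => ⟨n * m, by rw [hn, hm, cjg_cjg]⟩ } }
  let e : Fin (Nat.card (Quotient r)) ≃ Quotient r := (Finite.equivFin _).symm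
  set k := Nat.card (Quotient r) with hkdef
  let rep : Fin k → Dual T := fun i => ((e i).out : {l : Dual T // l ≠ 1}).1
  have hrep : ∀ i, rep i ≠ 1 := fun i => ((e i).out).2
  have hcls : ∀ l : Dual T, l ≠ 1 → ∃ i n, l = cjg n (rep i) := fun l hl => by
    refine ⟨e.symm (Quotient.mk r ⟨l, hl⟩), ?_⟩
    have : r.r ⟨l, hl⟩ (Quotient.out (e (e.symm (Quotient.mk r ⟨l, hl⟩)))) := by
      rw [Equiv.apply_symm_apply]
      exact Quotient.exact (Quotient.out_eq _).symm
    exact this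
  have hsep : ∀ i j n, rep i = cjg n (rep j) → i = j := fun i j n hn => by
    apply e.injective
    rw [← Quotient.out_eq (e i), ← Quotient.out_eq (e j)]
    exact Quotient.sound ⟨n, hn⟩
  have hcount : w * k + 1 = Nat.card T := by
    have h1 : ∑ i : Fin k, (∑ l : Dual T,
        if (∃ n, l = cjg n (rep i)) then (Nat.card T : ℤ) else 0) =
        k * Nat.card (Subgroup.normalizer (T : Set G)) := by
      simp only [h.class_size (hrep _)]
      simp
    rw [Finset.sum_comm] at h1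
    have h2 : ∀ l : Dual T, (∑ i : Fin k, if (∃ n, l = cjg n (rep i)) then (Nat.card T : ℤ) else 0) =
        if l = 1 then 0 else (Nat.card T : ℤ) := fun l => by
      split_ifs with hl
      · refine Finset.sum_eq_zero fun i _ => if_neg ?_
        rintro ⟨n, hn⟩
        exact cjg_ne_one n (hrep i) (hn.symm.trans hl)
      · obtain ⟨i, n, hn⟩ := hcls l hl
        rw [Finset.sum_eq_single i (fun j _ hj => if_neg ?_)
          (fun hc => absurd (Finset.mem_univ i) hc), if_pos ⟨n, hn⟩]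
        rintro ⟨m, hm⟩
        refine hj (hsep j i (m⁻¹ * n) ?_)
        rw [← cjg_cjg, ← hn, hm, cjg_cjg, inv_mul_cancel, cjg_one_left]
    simp only [h2] at h1
    rw [← Finset.add_sum_erase _ _ (Finset.mem_univ (1 : Dual T)), if_pos rfl, zero_add,
      Finset.sum_congr rfl (fun l hl => if_neg (Finset.mem_erase.1 hl).1), Finset.sum_const,
      Finset.card_erase_of_mem (Finset.mem_univ _), Finset.card_univ, ← Nat.card_eq_fintype_card,
      h.card_dual, nsmul_eq_mul, hw, Nat.cast_sub Nat.card_pos] at h1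
    push_cast at h1
    have hT : (Nat.card T : ℤ) ≠ 0 := by exact_mod_cast Nat.card_pos.ne'
    have : ((w * k + 1 : ℕ) : ℤ) = (Nat.card T : ℤ) := by
      push_cast
      apply mul_right_cancel₀ hT
      linear_combination -h1
    exact_mod_cast this
  have hk2 : 2 ≤ k := by
    by_contra hlt
    interval_cases k <;> omega
  let i₀ : Fin k := ⟨0, by omega⟩
  have hgram : ∀ i j, i ≠ i₀ → j ≠ i₀ →
      classInner (tau (rep i) (rep i₀)) (tau (rep j) (rep i₀)) = if i = j then 2 else 1 := by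
    intro i j hi hj
    rw [parseval]
    have hT : (Nat.card T : ℤ) ≠ 0 := by exact_mod_cast Nat.card_pos.ne'
    have key := h.inner_formula (rep i) (rep i₀) (rep j) (rep i₀) (bot_trivial _ _) (bot_trivial _ _)
    simp only [Finset.sum_add_distrib, Finset.sum_sub_distrib,
      h.card_transporter (hrep _) (fun t ht => (bot_trivial _ 1 t ht).trans rfl)] at key
    have hiff : ∀ a b : Fin k, (∃ n, rep a = cjg n (rep b)) ↔ a = b := fun a b =>
      ⟨fun ⟨n, hn⟩ => hsep a b n hn, fun hab => ⟨1, by rw [hab, cjg_one_left]⟩⟩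
    simp only [hiff, if_neg hi, if_neg (Ne.symm hj), if_true] at key
    have hsum : ∑ χ : IrrCharacter G, (cf (rep i) χ - cf (rep i₀) χ) *
        (cf (rep j) χ - cf (rep i₀) χ) = if i = j then 2 else 1 := by
      apply mul_left_cancel₀ hT
      rw [key]
      split_ifs <;> ring
    rw [hsum]
    split_ifs <;> norm_num
  obtain ⟨ε, hε, μ, hμ, hinj, heq⟩ := Exceptional.exists_star i₀ (fun i => tau (rep i) (rep i₀))
    (by funext g; rw [tau, sub_self, Induced.indFun_zero])
    (fun i => by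
      rw [tau, Induced.indFun_sub]
      refine Exceptional.gen_sub ?_ ?_ <;> refine Exceptional.gen_of_char
        (Induced.isCharacter_indFun T ?_) <;> rw [lf_eq] <;> exact isCharacter_coe _)
    (fun i => tau_one _ _) (fun i j hi hj => (hgram i j hi hj).trans (by congr 1))
  refine ⟨⟨k, hk2, rep, hrep, hcls, hsep, hcount, ε, hε, fun i => ⟨μ i, hμ i⟩,
    fun i j hij => hinj (congrArg Subtype.val hij), fun i j χ => ?_⟩⟩
  have key : ∀ i, ((cf (rep i) χ - cf (rep i₀) χ : ℤ) : ℂ) =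
      ((ε * ((if χ = ⟨μ i, hμ i⟩ then 1 else 0) - (if χ = ⟨μ i₀, hμ i₀⟩ then 1 else 0)) : ℤ) : ℂ) := by
    intro i
    rw [← inner_tau, show tau (rep i) (rep i₀) = (ε : ℂ) • (μ i - μ i₀) from heq i,
      Exceptional.inner_smul_left, Exceptional.inner_sub_left]
    have e : ∀ j, classInner (μ j) (χ : G → ℂ) = if χ = ⟨μ j, hμ j⟩ then (1 : ℂ) else 0 := fun j => by
      rw [show classInner (μ j) (χ : G → ℂ) =
        classInner ((⟨μ j, hμ j⟩ : IrrCharacter G) : G → ℂ) (χ : G → ℂ) from rfl, classInner_irr]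
      simp only [eq_comm (b := χ)]
    rw [e, e]
    push_cast
    rfl
  have hi := Int.cast_injective (key i)
  have hj := Int.cast_injective (key j)
  linarith

end TITorus

namespace Exc

variable {T : Subgroup G} {w : ℕ} (E : Exc T w)

/-- The first index. -/
def i₀ : Fin E.k := ⟨0, lt_of_lt_of_le (by norm_num) E.two⟩

/-- The second index. -/
def i₁ : Fin E.k := ⟨1, E.two⟩

theorem i₁_ne : E.i₁ ≠ E.i₀ := fun e => by simpa [i₀, i₁] using congrArg Fin.val e

/-- The excess of the trivial multiplicity. -/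
noncomputable def cst (χ : IrrCharacter G) : ℤ := cf (1 : Dual T) χ - cf (E.rep E.i₀) χ

/-- The common value of `cst` on the exceptional characters other than the first one. -/
noncomputable def a : ℤ := E.cst (E.μ E.i₁)

theorem sq_ε : E.ε * E.ε = 1 := by rcases E.sign with e | e <;> rw [e] <;> norm_num

theorem rep_iff (i j : Fin E.k) : (∃ n, E.rep i = cjg n (E.rep j)) ↔ i = j :=
  ⟨fun ⟨n, hn⟩ => E.sep i j n hn, fun h => ⟨1, by rw [h, cjg_one_left]⟩⟩

theorem sum_mul_diff (f : IrrCharacter G → ℤ) (i j : Fin E.k) :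
    ∑ χ : IrrCharacter G, f χ * (cf (E.rep i) χ - cf (E.rep j) χ) =
      E.ε * (f (E.μ i) - f (E.μ j)) := by
  simp only [E.diff, mul_sub, mul_ite, mul_one, mul_zero, Finset.sum_sub_distrib,
    Finset.sum_ite_eq', Finset.mem_univ, if_true]
  ring

theorem cst_mu (h : TITorus T ⊥) (i : Fin E.k) :
    E.cst (E.μ i) = E.a - if i = E.i₀ then E.ε else 0 := by
  have hb := TITorus.bot_trivial (G := G) (T := T)
  have key := h.inner_formula 1 (E.rep E.i₀) (E.rep i) (E.rep E.i₁) (hb _ _) (hb _ _)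
  have hone : ∀ j n, ¬ (1 : Dual T) = cjg n (E.rep j) := fun j n e =>
    TITorus.cjg_ne_one n (E.rep_ne j) e.symm
  simp only [hone, if_false, sub_zero, zero_sub, Finset.sum_add_distrib, Finset.sum_neg_distrib,
    h.card_transporter (E.rep_ne _) (fun t ht => (hb _ 1 t ht).trans rfl), E.rep_iff,
    if_neg E.i₁_ne.symm, add_zero] at key
  rw [show (∑ χ : IrrCharacter G, (cf 1 χ - cf (E.rep E.i₀) χ) *
      (cf (E.rep i) χ - cf (E.rep E.i₁) χ)) = E.ε * (E.cst (E.μ i) - E.a) from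
    E.sum_mul_diff E.cst i E.i₁] at key
  have hT : (Nat.card T : ℤ) ≠ 0 := by exact_mod_cast Nat.card_pos.ne'
  have h' : E.ε * (E.cst (E.μ i) - E.a) = -(if i = E.i₀ then 1 else 0) := by
    apply mul_left_cancel₀ hT
    rw [key]
    by_cases e : i = E.i₀ <;> simp [e, eq_comm]
  have h'' := congrArg (fun z => E.ε * z) h'
  simp only [← mul_assoc, E.sq_ε, one_mul] at h''
  split_ifs with e
  · rw [if_pos e] at h''; linarith
  · rw [if_neg e] at h''; linarith

theorem sum_cst_sq (h : TITorus T ⊥)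
    (hw : Nat.card (Subgroup.normalizer (T : Set G)) = w * Nat.card T) :
    ∑ χ : IrrCharacter G, E.cst χ ^ 2 = (w : ℤ) + 1 := by
  have hb := TITorus.bot_trivial (G := G) (T := T)
  have key := h.inner_formula 1 (E.rep E.i₀) 1 (E.rep E.i₀) (hb _ _) (hb _ _)
  simp only [cjg_one_right, E.rep_ne, fun n => (TITorus.cjg_ne_one n (E.rep_ne E.i₀)).symm,
    if_true, if_false, sub_zero, Finset.sum_add_distrib,
    h.card_transporter (E.rep_ne _) (fun t ht => (hb _ 1 t ht).trans rfl), E.rep_iff,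
    Finset.sum_const, Finset.card_univ, nsmul_eq_mul, mul_one] at key
  rw [← Nat.card_eq_fintype_card, hw] at key
  have hT : (Nat.card T : ℤ) ≠ 0 := by exact_mod_cast Nat.card_pos.ne'
  apply mul_left_cancel₀ hT
  simp only [sq]
  refine Eq.trans key ?_
  push_cast
  ring

theorem cf_oneIrr (l : Dual T) : cf l (oneIrr G) = if l = 1 then 1 else 0 := by
  have h : (cf l (oneIrr G) : ℂ) = ((if l = 1 then 1 else 0 : ℤ) : ℂ) := by
    rw [← cf_eq, show (fun t : T => (oneIrr G : G → ℂ) t) = lf (1 : Dual T) from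
      funext fun t => by simp [lf], inner_lf]
    simp only [eq_comm (b := l)]
    split_ifs <;> simp
  exact_mod_cast h

theorem mu_ne_one (i : Fin E.k) : E.μ i ≠ oneIrr G := by
  intro e
  obtain ⟨j, hj⟩ : ∃ j : Fin E.k, j ≠ i := by
    by_cases hi : i = E.i₀
    · exact ⟨E.i₁, fun e' => E.i₁_ne (e'.trans hi)⟩
    · exact ⟨E.i₀, fun e' => hi e'.symm⟩
  have h := E.diff i j (oneIrr G)
  rw [cf_oneIrr, cf_oneIrr, if_neg (E.rep_ne i), if_neg (E.rep_ne j), if_pos e.symm,
    if_neg (fun e' => hj (E.inj (e'.symm.trans e.symm)))] at h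
  rcases E.sign with s | s <;> rw [s] at h <;> norm_num at h

theorem cst_oneIrr : E.cst (oneIrr G) = 1 := by
  rw [cst, cf_oneIrr, cf_oneIrr, if_pos rfl, if_neg (E.rep_ne _), sub_zero]

/-- The nontrivial characters that are not exceptional. -/
noncomputable def rest : Finset (IrrCharacter G) := others \ Finset.univ.image E.μ

theorem mu_subset : Finset.univ.image E.μ ⊆ (others : Finset (IrrCharacter G)) := fun χ hχ => by
  obtain ⟨i, -, rfl⟩ := Finset.mem_image.1 hχ
  exact Finset.mem_erase.2 ⟨E.mu_ne_one i, Finset.mem_univ _⟩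

theorem cf_rest {χ : IrrCharacter G} (hχ : χ ∉ Finset.univ.image E.μ) {l : Dual T} (hl : l ≠ 1) :
    cf l χ = cf (E.rep E.i₀) χ := by
  obtain ⟨i, n, rfl⟩ := E.cls l hl
  have := E.diff i E.i₀ χ
  rw [if_neg fun e => hχ (Finset.mem_image.2 ⟨i, Finset.mem_univ _, e.symm⟩),
    if_neg fun e => hχ (Finset.mem_image.2 ⟨E.i₀, Finset.mem_univ _, e.symm⟩), sub_zero,
    mul_zero] at this
  rw [cf_cjg]
  linarith

theorem sum_lf {t : T} (h : TITorus T ⊥) (ht : t ≠ 1) : ∑ l : Dual T, lf l t = 0 := by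
  obtain ⟨k, hk⟩ := exists_linChar_ne_one (g := t) (by rwa [h.commutator_eq_bot, Subgroup.mem_bot])
  have e : ∑ l : Dual T, lf l t = lf k t * ∑ l : Dual T, lf l t := by
    rw [Finset.mul_sum]
    refine (Fintype.sum_equiv (Equiv.mulLeft k) _ _ fun l => ?_).symm
    simp [lf]
  have : (lf k t - 1) * ∑ l : Dual T, lf l t = 0 := by rw [sub_mul, ← e, one_mul, sub_self]
  refine (mul_eq_zero.1 this).resolve_left fun e1 => hk (Units.ext ?_)
  exact sub_eq_zero.1 e1

theorem value_rest (h : TITorus T ⊥) {χ : IrrCharacter G} (hχ : χ ∉ Finset.univ.image E.μ) {t : T}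
    (ht : t ≠ 1) : (χ : G → ℂ) t = (E.cst χ : ℂ) := by
  rw [h.expand χ t]
  have e : ∀ l : Dual T, (cf l χ : ℂ) * lf l t =
      (cf (E.rep E.i₀) χ : ℂ) * lf l t + (if l = 1 then (E.cst χ : ℂ) else 0) := fun l => by
    by_cases hl : l = 1
    · subst hl; simp [cst, lf]
    · rw [if_neg hl, E.cf_rest hχ hl, add_zero]
  rw [Finset.sum_congr rfl fun l _ => e l, Finset.sum_add_distrib, ← Finset.mul_sum, sum_lf h ht,
    mul_zero, zero_add, Finset.sum_ite_eq' Finset.univ (1 : Dual T) (fun _ => (E.cst χ : ℂ)),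
    if_pos (Finset.mem_univ _)]

theorem degree_rest (h : TITorus T ⊥) {χ : IrrCharacter G} (hχ : χ ∉ Finset.univ.image E.μ) :
    (Nat.card T : ℤ) ∣ (charDegree (χ : G → ℂ) : ℤ) - E.cst χ := by
  refine ⟨cf (E.rep E.i₀) χ, ?_⟩
  have e : ∀ l : Dual T, cf l χ =
      cf (E.rep E.i₀) χ + (if l = 1 then E.cst χ else 0) := fun l => by
    by_cases hl : l = 1
    · subst hl; simp [cst]
    · rw [if_neg hl, E.cf_rest hχ hl, add_zero]
  rw [h.degree_eq, Finset.sum_congr rfl fun l _ => e l, Finset.sum_add_distrib,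
    Finset.sum_const, Finset.card_univ, ← Nat.card_eq_fintype_card, h.card_dual, nsmul_eq_mul,
    Finset.sum_ite_eq' Finset.univ (1 : Dual T) (fun _ => E.cst χ), if_pos (Finset.mem_univ _)]
  ring

theorem sum_mu_value (h : TITorus T ⊥) {t : T} (ht : t ≠ 1) :
    ∑ i : Fin E.k, (E.μ i : G → ℂ) t = (((E.k : ℤ) * E.a - E.ε : ℤ) : ℂ) := by
  set F : Dual T → ℤ := fun l => ∑ i : Fin E.k, cf l (E.μ i) with hF
  have hconst : ∀ l : Dual T, l ≠ 1 → F l = F (E.rep E.i₀) := fun l hl => by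
    obtain ⟨j, n, rfl⟩ := E.cls l hl
    rw [← sub_eq_zero, hF]
    simp only [cf_cjg]
    rw [← Finset.sum_sub_distrib]
    simp only [E.diff, E.inj.eq_iff, mul_sub, mul_ite, mul_one,
      mul_zero, Finset.sum_sub_distrib, Finset.sum_ite_eq', Finset.mem_univ, if_true]
    ring
  have hone : F 1 - F (E.rep E.i₀) = (E.k : ℤ) * E.a - E.ε := by
    rw [hF]
    simp only [← Finset.sum_sub_distrib]
    rw [show (∑ i : Fin E.k, (cf (1 : Dual T) (E.μ i) - cf (E.rep E.i₀) (E.μ i))) =
      ∑ i : Fin E.k, E.cst (E.μ i) from rfl]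
    simp [E.cst_mu h]
  have e : ∀ l : Dual T, (F l : ℂ) * lf l t = (F (E.rep E.i₀) : ℂ) * lf l t +
      (if l = 1 then (((E.k : ℤ) * E.a - E.ε : ℤ) : ℂ) else 0) := fun l => by
    by_cases hl : l = 1
    · subst hl
      rw [← hone]
      simp [lf]
    · rw [if_neg hl, hconst l hl, add_zero]
  calc ∑ i : Fin E.k, (E.μ i : G → ℂ) t
      = ∑ i : Fin E.k, ∑ l : Dual T, (cf l (E.μ i) : ℂ) * lf l t :=
        Finset.sum_congr rfl fun i _ => h.expand _ t
    _ = ∑ l : Dual T, (F l : ℂ) * lf l t := by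
        rw [Finset.sum_comm]
        simp only [hF, Int.cast_sum, Finset.sum_mul]
    _ = _ := by
        rw [Finset.sum_congr rfl fun l _ => e l, Finset.sum_add_distrib, ← Finset.mul_sum,
          sum_lf h ht, mul_zero, zero_add,
          Finset.sum_ite_eq' Finset.univ (1 : Dual T) (fun _ => (((E.k : ℤ) * E.a - E.ε : ℤ) : ℂ)),
          if_pos (Finset.mem_univ _)]

theorem tau_eq (i j : Fin E.k) (g : G) :
    tau (E.rep i) (E.rep j) g = (E.ε : ℂ) * ((E.μ i : G → ℂ) g - (E.μ j : G → ℂ) g) := by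
  rw [tau_eq_sum]
  simp only [E.diff, Int.cast_sub, Int.cast_ite, Int.cast_zero,
    mul_sub, sub_mul, mul_ite, ite_mul, mul_one, mul_zero, zero_mul, Finset.sum_sub_distrib,
    Finset.sum_ite_eq', Finset.mem_univ, if_true]

theorem val_eq (g : G) (hg : ∀ x : G, x⁻¹ * g * x ∈ T → x⁻¹ * g * x = 1) (i j : Fin E.k) :
    (E.μ i : G → ℂ) g = (E.μ j : G → ℂ) g := by
  have h := E.tau_eq i j g
  rw [tau_eq_zero fun x hx => by
    rw [show (⟨_, hx⟩ : T) = 1 from Subtype.ext (hg x hx), map_one, map_one]] at h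
  have hε : (E.ε : ℂ) ≠ 0 := by rcases E.sign with e | e <;> rw [e] <;> norm_num
  exact sub_eq_zero.1 ((mul_eq_zero.1 h.symm).resolve_left hε)

theorem deg_const (i j : Fin E.k) :
    charDegree (E.μ i : G → ℂ) = charDegree (E.μ j : G → ℂ) := by
  have h := E.val_eq 1 (fun x _ => by group) i j
  rw [← coe_charDegree, ← coe_charDegree] at h
  exact_mod_cast h

/-- The common degree. -/
noncomputable def D : ℕ := charDegree (E.μ E.i₀ : G → ℂ)

theorem deg_mu (i : Fin E.k) : charDegree (E.μ i : G → ℂ) = E.D := E.deg_const i E.i₀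

theorem degree_mu (h : TITorus T ⊥)
    (hw : Nat.card (Subgroup.normalizer (T : Set G)) = w * Nat.card T) :
    (Nat.card T : ℤ) ∣ (E.D : ℤ) - (E.a + E.ε * w) := by
  refine ⟨cf (E.rep E.i₀) (E.μ E.i₁), ?_⟩
  rw [← E.deg_mu E.i₁, h.degree_eq]
  set c := cf (E.rep E.i₀) (E.μ E.i₁) with hc
  have e : ∀ l : Dual T, cf l (E.μ E.i₁) = c + (if l = 1 then E.a else 0) +
      E.ε * (if (∃ n, l = cjg n (E.rep E.i₁)) then 1 else 0) := fun l => by
    by_cases hl : l = 1
    · subst hl
      rw [if_pos rfl, if_neg fun ⟨n, e⟩ => TITorus.cjg_ne_one n (E.rep_ne _) e.symm, hc, a, cst]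
      ring
    · obtain ⟨i, n, rfl⟩ := E.cls l hl
      rw [if_neg hl, add_zero, cf_cjg]
      have hd := E.diff i E.i₀ (E.μ E.i₁)
      rw [if_neg fun e => E.i₁_ne (E.inj e), sub_zero] at hd
      have hiff : (∃ n', cjg n (E.rep i) = cjg n' (E.rep E.i₁)) ↔ E.μ E.i₁ = E.μ i := by
        constructor
        · rintro ⟨n', e'⟩
          rw [E.sep i E.i₁ (n⁻¹ * n') (by rw [← cjg_cjg, ← e', cjg_cjg, inv_mul_cancel, cjg_one_left])]
        · intro e'
          exact ⟨n, by rw [E.inj e']⟩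
      simp only [hiff]
      linarith
  have hsz := h.class_size (E.rep_ne E.i₁)
  rw [hw] at hsz
  have hT : (Nat.card T : ℤ) ≠ 0 := by exact_mod_cast Nat.card_pos.ne'
  have hsz' : ∑ l : Dual T, (if (∃ n, l = cjg n (E.rep E.i₁)) then 1 else 0 : ℤ) = w := by
    apply mul_left_cancel₀ hT
    rw [Finset.mul_sum]
    simp only [mul_ite, mul_one, mul_zero]
    rw [hsz]; push_cast; ring
  rw [Finset.sum_congr rfl fun l _ => e l, Finset.sum_add_distrib, Finset.sum_add_distrib,
    ← Finset.mul_sum, hsz', Finset.sum_const, Finset.card_univ, ← Nat.card_eq_fintype_card,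
    h.card_dual, nsmul_eq_mul,
    Finset.sum_ite_eq' Finset.univ (1 : Dual T) (fun _ => E.a), if_pos (Finset.mem_univ _)]
  ring

/-- The squares of `cst` outside the exceptional characters. -/
noncomputable def budget : ℤ := ∑ χ ∈ E.rest, E.cst χ ^ 2

theorem budget_eq (h : TITorus T ⊥)
    (hw : Nat.card (Subgroup.normalizer (T : Set G)) = w * Nat.card T) :
    E.budget + (((E.k : ℤ) - 1) * E.a ^ 2 + (E.a - E.ε) ^ 2) = w := by
  have hs := E.sum_cst_sq h hw
  rw [← Finset.add_sum_erase _ _ (Finset.mem_univ (oneIrr G)), E.cst_oneIrr,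
    ← Finset.sum_sdiff E.mu_subset, Finset.sum_image (fun i _ j _ e => E.inj e)] at hs
  rw [budget, rest]
  have e : ∑ i : Fin E.k, E.cst (E.μ i) ^ 2 = ((E.k : ℤ) - 1) * E.a ^ 2 + (E.a - E.ε) ^ 2 := by
    simp only [E.cst_mu h]
    rw [← Finset.add_sum_erase _ _ (Finset.mem_univ E.i₀), if_pos rfl,
      Finset.sum_congr rfl (fun i hi => by rw [if_neg (Finset.mem_erase.1 hi).1, sub_zero]),
      Finset.sum_const, Finset.card_erase_of_mem (Finset.mem_univ _), Finset.card_univ,
      Fintype.card_fin, nsmul_eq_mul, Nat.cast_sub (le_trans one_le_two E.two)]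
    push_cast
    ring
  linarith

theorem budget_nonneg : 0 ≤ E.budget := Finset.sum_nonneg fun χ _ => sq_nonneg _

theorem budget_le (h : TITorus T ⊥)
    (hw : Nat.card (Subgroup.normalizer (T : Set G)) = w * Nat.card T) :
    E.budget + 1 ≤ w := by
  have := E.budget_eq h hw
  have h2 : (2 : ℤ) ≤ E.k := by exact_mod_cast E.two
  have hex : (1 : ℤ) ≤ ((E.k : ℤ) - 1) * E.a ^ 2 + (E.a - E.ε) ^ 2 := by
    by_cases ha : E.a = 0
    · rw [ha, zero_sub, neg_sq, sq E.ε, E.sq_ε]; simp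
    · have : 1 ≤ E.a ^ 2 := by
        rcases Int.lt_or_lt_of_ne ha with h' | h' <;> nlinarith
      nlinarith [sq_nonneg (E.a - E.ε)]
  linarith

end Exc

/-- Fourth powers against squares, for small totals. -/
theorem sum_fourth_le {ι : Type*} (s : Finset ι) (c : ι → ℤ) {r : ℕ}
    (hr : ∑ i ∈ s, c i ^ 2 = r) (h5 : r ≤ 5) :
    ∑ i ∈ s, c i ^ 4 ≤ if r ≤ 3 then (r : ℤ) else (r : ℤ) + 12 := by
  have hsq : ∀ i ∈ s, c i ^ 2 ≤ r := fun i hi =>
    hr ▸ Finset.single_le_sum (f := fun j => c j ^ 2) (fun j _ => sq_nonneg _) hi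
  have hunit : ∀ z : ℤ, z ^ 2 ≤ 3 → z ^ 4 = z ^ 2 := fun z hz => by
    have h1 : -1 ≤ z := by nlinarith
    have h2 : z ≤ 1 := by nlinarith
    interval_cases z <;> norm_num
  by_cases hall : ∀ i ∈ s, c i ^ 2 ≤ 3
  · rw [Finset.sum_congr rfl fun i hi => hunit _ (hall i hi), hr]
    split_ifs <;> omega
  · push Not at hall
    obtain ⟨j, hj, hj3⟩ := hall
    have h4 : c j ^ 2 = 4 := by
      have hle : c j ^ 2 ≤ 5 := (hsq j hj).trans (by exact_mod_cast h5)
      have h1 : -2 ≤ c j := by nlinarith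
      have h2 : c j ≤ 2 := by nlinarith
      generalize c j = z at *
      interval_cases z <;> simp_all
    have hr4 := hsq j hj
    rw [h4] at hr4
    rw [← Finset.add_sum_erase _ _ hj, h4] at hr
    have hrest : ∀ i ∈ s.erase j, c i ^ 4 = c i ^ 2 := fun i hi => hunit _ (by
      have := Finset.single_le_sum (f := fun k => c k ^ 2) (fun k _ => sq_nonneg _) hi
      have h5' : (r : ℤ) ≤ 5 := by exact_mod_cast h5
      linarith)
    rw [← Finset.add_sum_erase _ _ hj, Finset.sum_congr rfl hrest,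
      show c j ^ 4 = 16 by rw [show c j ^ 4 = (c j ^ 2) ^ 2 by ring, h4]; norm_num,
      if_neg (by omega)]
    linarith

namespace Exc

variable {T : Subgroup G} (E : Exc T 6)

/-- The covering criterion. -/
theorem covers (h : TITorus T ⊥) (hw : Nat.card (Subgroup.normalizer (T : Set G)) = 6 * Nat.card T)
    {x g : G} (hx : x ∈ T) (hx1 : x ≠ 1) (hg : ∀ c : G, c⁻¹ * g * c ∈ T → c⁻¹ * g * c = 1)
    (M : ℝ) (hM0 : 0 < M) (hM : ∀ χ ∈ (others : Finset (IrrCharacter G)), M ≤ deg χ)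
    (hnum : ∀ r : ℕ, (r : ℤ) = E.budget → r ≤ 5 →
      ((if r ≤ 3 then (r : ℝ) else (r : ℝ) + 12) / M ^ 2 +
        ((Nat.card T : ℝ) - 1 - r) ^ 2 / ((E.k : ℝ) * (E.D : ℝ) ^ 2)) *
        (Nat.card (Subgroup.centralizer ({g} : Set G)) : ℝ) < 1) :
    Covers x g := by
  obtain ⟨r, hr⟩ := Int.eq_ofNat_of_zero_le E.budget_nonneg
  have hr5 : r ≤ 5 := by have := E.budget_le h hw; omega
  have hbound := hnum r hr.symm hr5
  have hval : ∀ χ ∈ E.rest, (χ : G → ℂ) x = (E.cst χ : ℂ) := fun χ hχ =>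
    E.value_rest h (t := ⟨x, hx⟩) (Finset.mem_sdiff.1 hχ).2 fun e => hx1 (congrArg Subtype.val e)
  set M2 : ℝ := ∑ i : Fin E.k, ‖(E.μ i : G → ℂ) x‖ ^ 2 with hM2
  have hMsum : (r : ℝ) + M2 = (Nat.card T : ℝ) - 1 := by
    have := sum_norm_sq_others x
    rw [h.cent x hx (by simpa using hx1), ← Finset.sum_sdiff E.mu_subset,
      Finset.sum_image (fun i _ j _ e => E.inj e)] at this
    rw [← this]
    congr 1
    rw [show ((r : ℝ)) = ((E.budget : ℤ) : ℝ) by rw [hr]; simp, budget]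
    push_cast
    refine Finset.sum_congr rfl fun χ hχ => ?_
    rw [hval χ hχ, Complex.norm_intCast, sq_abs]
  have hD : 0 < (E.D : ℝ) := by exact_mod_cast charDegree_pos (E.μ E.i₀)
  have hk : 0 < (E.k : ℝ) := by exact_mod_cast (lt_of_lt_of_le two_pos E.two)
  set f : ℝ := ‖(E.μ E.i₀ : G → ℂ) g‖ with hf
  let A : IrrCharacter G → ℝ := fun χ => if χ ∈ Finset.univ.image E.μ then M2 / ((E.k : ℝ) * E.D)
    else ‖(χ : G → ℂ) x‖ ^ 2 / deg χ
  refine covers_of_norm_lt x g ((norm_sum_le _ _).trans_lt ?_)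
  have hterm : ∀ χ : IrrCharacter G,
      ‖(χ : G → ℂ) x * (χ : G → ℂ) x * conj ((χ : G → ℂ) g) / (χ : G → ℂ) 1‖ =
        (‖(χ : G → ℂ) x‖ ^ 2 / deg χ) * ‖(χ : G → ℂ) g‖ := fun χ => by
    rw [norm_div, norm_mul, norm_mul, RCLike.norm_conj, apply_one_eq χ, Complex.norm_real,
      Real.norm_eq_abs, abs_of_pos (deg_pos χ)]
    ring
  simp only [hterm]
  have hfg : ∀ i : Fin E.k, ‖(E.μ i : G → ℂ) g‖ = f := fun i => by rw [hf, E.val_eq g hg i E.i₀]
  have hdeg : ∀ i : Fin E.k, deg (E.μ i) = (E.D : ℝ) := fun i => by rw [deg, E.deg_mu]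
  have hmem : ∀ i : Fin E.k, E.μ i ∈ Finset.univ.image E.μ := fun i =>
    Finset.mem_image.2 ⟨i, Finset.mem_univ _, rfl⟩
  have hswap : ∑ χ ∈ (others : Finset (IrrCharacter G)), ‖(χ : G → ℂ) x‖ ^ 2 / deg χ * ‖(χ : G → ℂ) g‖ =
      ∑ χ ∈ (others : Finset (IrrCharacter G)), A χ * ‖(χ : G → ℂ) g‖ := by
    rw [← Finset.sum_sdiff E.mu_subset, ← Finset.sum_sdiff E.mu_subset,
      Finset.sum_image (fun i _ j _ e => E.inj e), Finset.sum_image (fun i _ j _ e => E.inj e)]
    congr 1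
    · exact Finset.sum_congr rfl fun χ hχ => by simp only [A, if_neg (Finset.mem_sdiff.1 hχ).2]
    · simp only [A, if_pos (hmem _), hfg, hdeg, ← Finset.sum_mul, ← Finset.sum_div, Finset.sum_const,
        Finset.card_univ, Fintype.card_fin, nsmul_eq_mul]
      rw [← hM2]
      field_simp
  rw [hswap]
  have hcs := Finset.sum_mul_sq_le_sq_mul_sq (others : Finset (IrrCharacter G)) A
    (fun χ : IrrCharacter G => ‖(χ : G → ℂ) g‖)
  rw [sum_norm_sq_others g] at hcs
  have hA : ∑ χ ∈ (others : Finset (IrrCharacter G)), A χ ^ 2 ≤ (if r ≤ 3 then (r : ℝ) else (r : ℝ) + 12) / M ^ 2 +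
      ((Nat.card T : ℝ) - 1 - r) ^ 2 / ((E.k : ℝ) * (E.D : ℝ) ^ 2) := by
    rw [← Finset.sum_sdiff E.mu_subset, Finset.sum_image (fun i _ j _ e => E.inj e)]
    refine add_le_add ?_ (le_of_eq ?_)
    · calc ∑ χ ∈ others \ Finset.univ.image E.μ, A χ ^ 2
          ≤ ∑ χ ∈ E.rest, (E.cst χ : ℝ) ^ 4 / M ^ 2 := Finset.sum_le_sum fun χ hχ => by
            have hpos : M ^ 2 ≤ deg χ ^ 2 := by
              gcongr; exact hM χ (Finset.mem_sdiff.1 hχ).1
            simp only [A, if_neg (Finset.mem_sdiff.1 hχ).2, hval χ hχ, Complex.norm_intCast, sq_abs,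
              div_pow, ← pow_mul]
            exact div_le_div_of_nonneg_left (Even.pow_nonneg (by decide) _) (by positivity) hpos
        _ ≤ _ := by
            rw [← Finset.sum_div]
            gcongr
            have := sum_fourth_le E.rest E.cst (r := r) hr hr5
            split_ifs with h3
            · rw [if_pos h3] at this; exact_mod_cast this
            · rw [if_neg h3] at this; exact_mod_cast this
    · simp only [A, if_pos (hmem _), Finset.sum_const, Finset.card_univ, Fintype.card_fin,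
        nsmul_eq_mul]
      rw [show (Nat.card T : ℝ) - 1 - r = M2 by linarith]
      field_simp
  have h0 : 0 ≤ ∑ χ ∈ (others : Finset (IrrCharacter G)), A χ ^ 2 := Finset.sum_nonneg fun χ _ => sq_nonneg _
  have hC : (0 : ℝ) ≤ Nat.card (Subgroup.centralizer ({g} : Set G)) := Nat.cast_nonneg _
  nlinarith

end Exc

end CfsgLib.ReeSquare
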