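import Cfsg.Agent.ReeSquare.Small

/-!
The tori of orders `q ± r + 1` against small elements, by their exceptional characters.
-/

set_option autoImplicit false
set_option linter.unusedSectionVars false
set_option linter.style.haveILetI false

open scoped Matrix MatrixGroups Classical ComplexConjugate

namespace CfsgLib.ReeSquare

open Cfsg Cfsg.Lie CfsgLib.Chevalley CfsgLib.Ree

variable {K : Type*} [Field K] [CharP K 3] {m : ℕ} [Fintype K]

local notation "G¹" => twistedG2 K (3 ^ m)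
local notation "q₀" => 3 ^ (2 * m + 1)
local notation "r₀" => 3 ^ (m + 1)

theorem sum_fourth_bound {r : ℕ} (h5 : r ≤ 5) :
    (if r ≤ 3 then (r : ℝ) else (r : ℝ) + 12) ≤ 17 := by
  interval_cases r <;> norm_num

theorem large_num (q n k D r c F : ℝ) (hq : 243 ≤ q) (hc : c ≤ q ^ 3) (hk : 27 ≤ k)
    (hD : q ^ 3 ≤ 13 * D) (hn : n ≤ 2 * q) (hn6 : 6 ≤ n) (hr0 : 0 ≤ r) (hr : r ≤ 5) (hF : F ≤ 17)
    (hF0 : 0 ≤ F) :
    (F / (q ^ 2 - q + 1) ^ 2 + (n - 1 - r) ^ 2 / (k * D ^ 2)) * c < 1 := by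
  have hq2 : 243 * q ≤ q ^ 2 := by nlinarith
  have h1 : F / (q ^ 2 - q + 1) ^ 2 * q ^ 3 ≤ 68 / q := by
    rw [div_mul_eq_mul_div, div_le_div_iff₀ (pow_pos (by linarith) 2) (by linarith)]
    have hMsq : (q ^ 2 / 2) ^ 2 ≤ (q ^ 2 - q + 1) ^ 2 :=
      pow_le_pow_left₀ (by positivity) (by linarith) 2
    have hq4 : (0 : ℝ) ≤ q ^ 4 := by positivity
    calc F * q ^ 3 * q = F * q ^ 4 := by ring
      _ ≤ 17 * q ^ 4 := mul_le_mul_of_nonneg_right hF hq4
      _ = 68 * (q ^ 2 / 2) ^ 2 := by ring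
      _ ≤ _ := by linarith
  have hq3 : 0 < q ^ 3 := pow_pos (by linarith) 3
  have hDpos : 0 < D := by linarith
  have h2 : (n - 1 - r) ^ 2 / (k * D ^ 2) * q ^ 3 ≤ 676 / (27 * q) := by
    rw [div_mul_eq_mul_div, div_le_div_iff₀ (mul_pos (by linarith) (pow_pos hDpos 2)) (by linarith)]
    have hs : (n - 1 - r) ^ 2 ≤ (2 * q) ^ 2 := pow_le_pow_left₀ (by linarith) (by linarith) 2
    have hD2 : (q ^ 3) ^ 2 ≤ (13 * D) ^ 2 := pow_le_pow_left₀ hq3.le hD 2
    have hq4 : (0 : ℝ) ≤ 27 * q ^ 4 := by positivity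
    calc (n - 1 - r) ^ 2 * q ^ 3 * (27 * q) = (n - 1 - r) ^ 2 * (27 * q ^ 4) := by ring
      _ ≤ (2 * q) ^ 2 * (27 * q ^ 4) := mul_le_mul_of_nonneg_right hs hq4
      _ = 108 * (q ^ 3) ^ 2 := by ring
      _ ≤ 108 * (13 * D) ^ 2 := by linarith
      _ = 676 * (27 * D ^ 2) := by ring
      _ ≤ 676 * (k * D ^ 2) := by
          have := mul_le_mul_of_nonneg_right hk (sq_nonneg D)
          linarith
  have h0 : 0 ≤ F / (q ^ 2 - q + 1) ^ 2 + (n - 1 - r) ^ 2 / (k * D ^ 2) :=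
    add_nonneg (div_nonneg hF0 (sq_nonneg _))
      (div_nonneg (sq_nonneg _) (mul_nonneg (by linarith) (sq_nonneg _)))
  refine lt_of_le_of_lt (mul_le_mul_of_nonneg_left hc h0) ?_
  rw [add_mul]
  have h3 : 68 / q ≤ 68 / 243 := div_le_div_of_nonneg_left (by norm_num) (by norm_num) hq
  have h4 : 676 / (27 * q) ≤ 676 / (27 * 243) :=
    div_le_div_of_nonneg_left (by norm_num) (by norm_num) (by linarith)
  have h5 : (68 : ℝ) / 243 + 676 / (27 * 243) < 1 := by norm_num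
  linarith

variable (hm : 1 ≤ m) (hK : Fintype.card K = 3 ^ (2 * m + 1))
include hm hK

theorem small_one_of {i : Fin 4} (hi : i = 2 ∨ i = 3) : torusSmall i = 1 := by
  rcases hi with rfl | rfl <;> rfl

theorem card_norm_root {i : Fin 4} {z : ↥G¹} (hz : IsRoot i z) :
    Nat.card ↥(Subgroup.normalizer (Subgroup.centralizer {z} : Set ↥G¹)) =
      (if i = 0 then 2 else 6) * Nat.card ↥(Subgroup.centralizer {z}) := by
  rw [card_normalizer_of_root hm hK hz, card_cent_root hm hK hz]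

theorem exists_exc {i : Fin 4} (hi : i = 2 ∨ i = 3) {z : ↥G¹} (hz : IsRoot i z) :
    TITorus (Subgroup.centralizer {z}) ⊥ ∧
      Nat.card ↥(Subgroup.normalizer (Subgroup.centralizer {z} : Set ↥G¹)) =
        6 * Nat.card ↥(Subgroup.centralizer {z}) ∧
      Nonempty (Exc (Subgroup.centralizer {z}) 6) := by
  have h := tiTorus_bot hm hK hz (small_one_of hm hK hi)
  have hw := card_norm_root hm hK hz
  rw [if_neg (by rcases hi with rfl | rfl <;> decide)] at hw
  refine ⟨h, hw, h.exists_exceptional hw ?_⟩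
  rw [card_cent_root hm hK hz]
  have := q_ge hm hK
  have := three_mul_r_le hm hK
  rcases hi with rfl | rfl <;> simp [torusNum] <;> omega

theorem hall_dvd {i j : Fin 4} {z z' : ↥G¹} (hz : IsRoot i z) (hz' : IsRoot j z')
    (hij : i ≠ j) {w : ℕ} (E : Exc (Subgroup.centralizer {z}) w)
    (hk : (if j = 0 then 4 else 12) < E.k) : torusHall m j ∣ E.D := by
  rw [← index_smallPart hm hK hz']
  refine E.dvd_degree (tiTorus hm hK hz') (apart hm hK hz hz' hij) ?_
  rw [card_norm_root hm hK hz', ← mul_assoc]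
  refine Nat.mul_lt_mul_of_pos_right ?_ Nat.card_pos
  split_ifs at hk ⊢ <;> omega

theorem hall_coprime {i j : Fin 4} (hij : i ≠ j) : Nat.Coprime (torusHall m i) (torusHall m j) := by
  refine Nat.coprime_of_dvd fun p hp hpi hpj => ?_
  obtain ⟨l, hl, h5, hld⟩ : ∃ l, l.Prime ∧ 5 ≤ l ∧ l = p := by
    refine ⟨p, hp, ?_, rfl⟩
    by_contra hlt
    have h6 := (torusHall_coprime hm i).coprime_dvd_right hpi
    have h2 := hp.two_le
    interval_cases p
    · exact absurd h6 (by norm_num)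
    · exact absurd h6 (by norm_num)
    · exact absurd hp (by norm_num)
  subst hld
  exact hij (torusNum_disjoint (hm := hm) hp h5 (by rw [torusNum_eq hm i]; exact dvd_mul_of_dvd_right hpi _)
    (by rw [torusNum_eq hm j]; exact dvd_mul_of_dvd_right hpj _))

theorem eight_halls : 8 * (torusHall m 0 * torusHall m 1) = q₀ ^ 2 - 1 := by
  have h8 : q₀ % 8 = 3 := by rw [pow_add, pow_mul, Nat.mul_mod, Nat.pow_mod]; norm_num
  simp only [torusHall, torusNum, torusSmall, Matrix.cons_val_zero, Matrix.cons_val_one]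
  obtain ⟨t, ht⟩ : ∃ t, q₀ = 8 * t + 3 := ⟨q₀ / 8, by omega⟩
  rw [ht, show (8 * t + 3) ^ 2 = 8 * ((4 * t + 1) * (2 * t + 1)) + 1 by ring, Nat.add_sub_cancel,
    show (8 * t + 3 - 1) / 2 = 4 * t + 1 by omega, show (8 * t + 3 + 1) / 4 = 2 * t + 1 by omega]

theorem torusNum_ge {i : Fin 4} (hi : i = 2 ∨ i = 3) : q₀ + 1 - r₀ ≤ torusNum m i := by
  have h1 : 0 < 3 ^ m := by positivity
  have h2 : 0 < 3 ^ (2 * m) := by positivity
  rcases hi with rfl | rfl <;> simp [torusNum] <;> omega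

/-- The degree of the exceptional characters in large fields. -/
theorem degree_large (hm2 : 2 ≤ m) {i : Fin 4} (hi : i = 2 ∨ i = 3) {z : ↥G¹}
    (hz : IsRoot i z) (E : Exc (Subgroup.centralizer {z}) 6) :
    27 ≤ E.k ∧ q₀ ^ 3 ≤ 13 * E.D := by
  have hq : 243 ≤ q₀ :=
    le_trans (by norm_num : 243 ≤ 3 ^ 5) (Nat.pow_le_pow_right (by norm_num) (by omega))
  have hr := three_mul_r_le hm hK
  have hcount := E.count
  rw [card_cent_root hm hK hz] at hcount
  have hge := torusNum_ge hm hK hi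
  have hk : 27 ≤ E.k := by omega
  refine ⟨hk, ?_⟩
  obtain ⟨j, hji, hj⟩ : ∃ j : Fin 4, i ≠ j ∧ (j = 2 ∨ j = 3) := by
    rcases hi with rfl | rfl
    · exact ⟨3, by decide, Or.inr rfl⟩
    · exact ⟨2, by decide, Or.inl rfl⟩
  have hd : ∀ l : Fin 4, i ≠ l → torusHall m l ∣ E.D := fun l hl => by
    obtain ⟨x, p, hp, h5, ho, hd⟩ := exists_prime_torus hm hK l
    exact hall_dvd hm hK hz (isRoot_mk hp h5 ho hd) hl E (by split_ifs <;> omega)
  have h0 : i ≠ 0 := by rcases hi with rfl | rfl <;> decide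
  have h1 : i ≠ 1 := by rcases hi with rfl | rfl <;> decide
  have hprod : torusHall m 0 * torusHall m 1 * torusHall m j ∣ E.D :=
    (Nat.Coprime.mul_left (hall_coprime hm hK (by rcases hj with rfl | rfl <;> decide))
      (hall_coprime hm hK (by rcases hj with rfl | rfl <;> decide))).mul_dvd_of_dvd_of_dvd
      ((hall_coprime hm hK (by decide)).mul_dvd_of_dvd_of_dvd (hd 0 h0) (hd 1 h1)) (hd j hji)
  have hDpos : 0 < E.D := CfsgLib.Chars.charDegree_pos (E.μ E.i₀)
  have hle := Nat.le_of_dvd hDpos hprod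
  have hj' : torusHall m j = torusNum m j := by
    rw [torusHall, small_one_of hm hK hj, Nat.div_one]
  have hge' := torusNum_ge hm hK hj
  have h8 := eight_halls hm hK
  have key : (q₀ ^ 2 - 1) * (2 * q₀) ≤ 24 * E.D := by
    calc (q₀ ^ 2 - 1) * (2 * q₀) ≤ (q₀ ^ 2 - 1) * (3 * torusHall m j) :=
          Nat.mul_le_mul_left _ (by rw [hj']; omega)
      _ = 24 * (torusHall m 0 * torusHall m 1 * torusHall m j) := by rw [← h8]; ring
      _ ≤ _ := Nat.mul_le_mul_left _ hle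
  revert key hq
  generalize q₀ = q
  generalize E.D = D
  intro hq key
  obtain ⟨t, ht⟩ : ∃ t, q ^ 2 = t + 1 := ⟨q ^ 2 - 1, by
    have := Nat.one_le_pow 2 q (by omega)
    omega⟩
  rw [ht, Nat.add_sub_cancel] at key
  rw [show q ^ 3 = (t + 1) * q by rw [← ht]; ring]
  have ht12 : 12 ≤ t := by
    have := Nat.pow_le_pow_left (show 4 ≤ q by omega) 2
    omega
  have := Nat.mul_le_mul_right q ht12
  nlinarith

theorem covers_large (hm2 : 2 ≤ m) {i : Fin 4} (hi : i = 2 ∨ i = 3) {z : ↥G¹}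
    (hz : IsRoot i z) {x g : ↥G¹} (hx : x ∈ Subgroup.centralizer {z}) (hx1 : x ≠ 1)
    (hg : ¬ IsBig g) (hgC : Nat.card (Subgroup.centralizer ({g} : Set ↥G¹)) ≤ q₀ ^ 3) :
    Covers x g := by
  obtain ⟨h, hw, ⟨E⟩⟩ := exists_exc hm hK hi hz
  obtain ⟨hk, hD⟩ := degree_large hm hK hm2 hi hz E
  refine E.covers h hw hx hx1
    (fun c hc => no_conj_of_not_big hm hK hz (small_one_of hm hK hi) hg c hc)
    ((q₀ ^ 2 - q₀ + 1 : ℕ) : ℝ) ?_ ?_ fun r _ hr => ?_
  · exact Nat.cast_pos.2 (Nat.succ_pos _)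
  · intro χ hχ
    exact deg_lower hm hK χ hχ
  have hq : 243 ≤ q₀ :=
    le_trans (by norm_num : 243 ≤ 3 ^ 5) (Nat.pow_le_pow_right (by norm_num) (by omega))
  have hn : Nat.card ↥(Subgroup.centralizer {z}) ≤ 2 * q₀ := by
    rw [card_cent_root hm hK hz]
    have := torusNum_le hm hK i
    have := three_mul_r_le hm hK
    omega
  have hn6 : 6 ≤ Nat.card ↥(Subgroup.centralizer {z}) := by
    have := E.count
    omega
  rw [Nat.cast_add, Nat.cast_sub (show q₀ ≤ q₀ ^ 2 from Nat.le_self_pow (by norm_num) _),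
    Nat.cast_pow (q₀) 2, Nat.cast_one]
  refine large_num _ _ _ _ _ _ _ (by exact_mod_cast hq) ?_ (by exact_mod_cast hk)
    (by exact_mod_cast hD) (by exact_mod_cast hn) (by exact_mod_cast hn6) (Nat.cast_nonneg _)
    (by exact_mod_cast hr) (sum_fourth_bound hr) (by split_ifs <;> positivity)
  exact_mod_cast hgC

end CfsgLib.ReeSquare
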