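import Cfsg.Agent.ReeSquare.Large

/-!
The tori of orders `19` and `37` in the group over the field with `27` elements.
-/

set_option autoImplicit false
set_option linter.unusedSectionVars false
set_option linter.style.haveILetI false

open scoped Matrix MatrixGroups ComplexConjugate

namespace CfsgLib.ReeSquare

open Cfsg Cfsg.Lie CfsgLib.Chars CfsgLib.Chevalley CfsgLib.Ree

theorem cands_37 {D : ℕ} (hlt : D < 4000) (h703 : 703 ≤ D) (hG : 10073444472 % D = 0)
    (h13 : D % 13 = 0) (hres : D % 37 = 6 ∨ D % 37 = 31 ∨ D % 37 = 7 ∨ D % 37 = 30) : False := by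
  have key : (List.range 4000).all (fun n => decide (n < 703) || decide (10073444472 % n ≠ 0) ||
      decide (n % 13 ≠ 0) ||
      !(decide (n % 37 = 6) || decide (n % 37 = 31) || decide (n % 37 = 7) || decide (n % 37 = 30))) =
      true := by decide +kernel
  have := List.all_eq_true.1 key D (List.mem_range.2 hlt)
  simp only [Bool.or_eq_true, decide_eq_true_eq, Bool.not_eq_true', Bool.or_eq_false_iff,
    decide_eq_false_iff_not] at this
  omega

theorem cands_19 {D : ℕ} (hlt : D < 1900) (h703 : 703 ≤ D) (hG : 10073444472 % D = 0)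
    (hres : D % 19 = 6 ∨ D % 19 = 13 ∨ D % 19 = 7 ∨ D % 19 = 12)
    (h37 : D % 37 = 0 ∨ D % 37 = 1 ∨ D % 37 = 36) : D = 962 := by
  have key : (List.range 1900).all (fun n => decide (n < 703) || decide (10073444472 % n ≠ 0) ||
      !(decide (n % 19 = 6) || decide (n % 19 = 13) || decide (n % 19 = 7) || decide (n % 19 = 12)) ||
      !(decide (n % 37 = 0) || decide (n % 37 = 1) || decide (n % 37 = 36)) || decide (n = 962)) =
      true := by decide +kernel
  have := List.all_eq_true.1 key D (List.mem_range.2 hlt)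
  simp only [Bool.or_eq_true, decide_eq_true_eq, Bool.not_eq_true', Bool.or_eq_false_iff,
    decide_eq_false_iff_not] at this
  omega

end CfsgLib.ReeSquare

open scoped Classical

namespace CfsgLib.ReeSquare

open Cfsg Cfsg.Lie CfsgLib.Chars CfsgLib.Chevalley CfsgLib.Ree

variable {K : Type*} [Field K] [CharP K 3] [Fintype K]

local notation "G¹" => twistedG2 K (3 ^ 1)

variable (hK : Fintype.card K = 3 ^ (2 * 1 + 1))
include hK

theorem card_27 : Nat.card ↥G¹ = 10073444472 := by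
  rw [card_twisted hK]; norm_num

theorem deg_703 (χ : IrrCharacter ↥G¹) (hχ : χ ∈ (others : Finset (IrrCharacter ↥G¹))) :
    (703 : ℝ) ≤ deg χ := by
  have h := deg_lower le_rfl hK χ hχ
  norm_num at h
  exact h

theorem D_facts {T : Subgroup ↥G¹} {w : ℕ} (E : Exc T w) :
    703 ≤ E.D ∧ 10073444472 % E.D = 0 := by
  refine ⟨?_, ?_⟩
  · have h := deg_703 hK (E.μ E.i₀) (E.mu_subset (Finset.mem_image.2 ⟨_, Finset.mem_univ _, rfl⟩))
    rw [deg] at h
    exact_mod_cast h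
  · have h := charDegree_dvd_card (E.μ E.i₀)
    rw [card_27 hK] at h
    exact Nat.mod_eq_zero_of_dvd h

theorem covers_37 {z : ↥G¹} (hz : IsRoot 3 z) {x g : ↥G¹}
    (hx : x ∈ Subgroup.centralizer {z}) (hx1 : x ≠ 1) (hg : ¬ IsBig g)
    (hgC : Nat.card (Subgroup.centralizer ({g} : Set ↥G¹)) ≤ 19683) : Covers x g := by
  have hm : 1 ≤ 1 := le_rfl
  obtain ⟨h, hw, ⟨E⟩⟩ := exists_exc hm hK (Or.inr rfl) hz
  have hn : Nat.card ↥(Subgroup.centralizer {z}) = 37 := by
    rw [card_cent_root hm hK hz]; simp [torusNum]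
  have hk : E.k = 6 := by have := E.count; omega
  obtain ⟨hD703, hDG⟩ := D_facts hK E
  have h13 : E.D % 13 = 0 := by
    obtain ⟨y, p, hp, h5, ho, hd⟩ := exists_prime_torus hm hK 0
    have := hall_dvd hm hK hz (isRoot_mk hp h5 ho hd) (by decide) E
      (by rw [if_pos rfl]; omega)
    refine Nat.mod_eq_zero_of_dvd ?_
    simpa [torusHall, torusNum, torusSmall] using this
  have hbud := E.budget_eq h hw
  have hnn := E.budget_nonneg
  have hdvd := E.degree_mu h hw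
  rw [hn] at hdvd
  rw [hk] at hbud
  push_cast at hbud hdvd
  have ha1 : -1 ≤ E.a := by nlinarith [sq_nonneg (E.a - E.ε)]
  have ha2 : E.a ≤ 1 := by nlinarith [sq_nonneg (E.a - E.ε)]
  have hres : E.D % 37 = 6 ∨ E.D % 37 = 31 ∨ E.D % 37 = 7 ∨ E.D % 37 = 30 := by
    generalize hA : E.a = a at hbud hdvd ha1 ha2
    rcases E.sign with s | s <;> rw [s] at hbud hdvd <;> interval_cases a <;>
      norm_num at hbud hdvd <;> omega
  have hD : 4000 ≤ E.D := by
    by_contra hlt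
    exact cands_37 (by omega) hD703 hDG h13 hres
  refine E.covers h hw hx hx1
    (fun c hc => no_conj_of_not_big hm hK hz (small_one_of hm hK (Or.inr rfl)) hg c hc)
    703 (by norm_num) (deg_703 hK) fun r _ hr => ?_
  rw [hn, hk]
  have hc : (Nat.card (Subgroup.centralizer ({g} : Set ↥G¹)) : ℝ) ≤ 19683 := by exact_mod_cast hgC
  have hD' : (4000 : ℝ) ≤ (E.D : ℝ) := by exact_mod_cast hD
  push_cast
  generalize (E.D : ℝ) = D at hD'
  have key : ∀ F A : ℝ, 0 ≤ F → 0 ≤ A → (F / 703 ^ 2 + A / (6 * 4000 ^ 2)) * 19683 < 1 →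
      (F / 703 ^ 2 + A / (6 * D ^ 2)) * (Nat.card (Subgroup.centralizer ({g} : Set ↥G¹)) : ℝ) < 1 := by
    intro F A hF hA hlt
    refine lt_of_le_of_lt ?_ hlt
    have hDD : (4000 : ℝ) ^ 2 ≤ D ^ 2 := pow_le_pow_left₀ (by norm_num) hD' 2
    refine mul_le_mul (add_le_add le_rfl ?_) hc (Nat.cast_nonneg _) ?_
    · exact div_le_div_of_nonneg_left hA (by norm_num) (by linarith)
    · positivity
  refine key _ _ (by split_ifs <;> positivity) (sq_nonneg _) ?_
  interval_cases r <;> norm_num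

theorem covers_19_special {z : ↥G¹} (hz : IsRoot 2 z) {x g : ↥G¹}
    (hx : x ∈ Subgroup.centralizer {z}) (hx1 : x ≠ 1) (hg : orderOf g = 2)
    (E : Exc (Subgroup.centralizer {z}) 6) (ψ : IrrCharacter ↥G¹)
    (hψmem : ψ ∈ E.rest) (hψx : E.cst ψ = -1) (hψ1 : deg ψ = 19683)
    (hk : E.k = 3) (hD : E.D = 962) (ha : E.a = -1) (hε : E.ε = -1) : Covers x g := by
  have hm : 1 ≤ 1 := le_rfl
  obtain ⟨h, hw, -⟩ := exists_exc hm hK (Or.inl rfl) hz
  have hn : Nat.card ↥(Subgroup.centralizer {z}) = 19 := by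
    rw [card_cent_root hm hK hz]; simp [torusNum]
  have hgbig : ¬ IsBig g := fun ⟨p, hp, h5, hd⟩ => by
    rw [hg] at hd
    have := Nat.le_of_dvd (by norm_num) hd
    omega
  have hgT : ∀ c : ↥G¹, c⁻¹ * g * c ∈ Subgroup.centralizer {z} → c⁻¹ * g * c = 1 := fun c hc =>
    no_conj_of_not_big hm hK hz (small_one_of hm hK (Or.inl rfl)) hgbig c hc
  have hxS : x ∉ smallPart hm hK hz := by
    rw [smallPart_eq_bot hm hK hz (small_one_of hm hK (Or.inl rfl))]; simpa using hx1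
  have hcxT : Subgroup.centralizer ({x} : Set ↥G¹) = Subgroup.centralizer {z} :=
    (tiTorus hm hK hz).cent x hx hxS
  have hgx : ¬ IsConj x g := fun hc => by
    obtain ⟨c, hc⟩ := isConj_iff.1 hc
    have := hgT c (by rw [← hc, show c⁻¹ * (c * x * c⁻¹) * c = x by group]; exact hx)
    rw [← hc, show c⁻¹ * (c * x * c⁻¹) * c = x by group] at this
    exact hx1 this
  -- the value at an involution
  have hconjg : ∀ y : ↥G¹, orderOf y = 2 → IsConj g y := fun y hy => by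
    obtain ⟨a, ha⟩ := exists_conj_invE hK hg
    obtain ⟨b, hb⟩ := exists_conj_invE hK hy
    exact (isConj_iff.2 ⟨a, ha⟩).trans (isConj_iff.2 ⟨b, hb⟩).symm
  obtain ⟨e, he26, he⟩ : ∃ e : ℤ, (26 : ℤ) ∣ 962 + e ∧ (E.μ E.i₀ : ↥G¹ → ℂ) g = (e : ℂ) := by
    obtain ⟨y, p, hp, h5, ho, hd⟩ := exists_prime_torus hm hK 0
    have hy : IsRoot 0 y := isRoot_mk hp h5 ho hd
    have h' := tiTorus hm hK hy
    have hw' := card_norm_root hm hK hy
    rw [if_pos rfl] at hw'
    obtain ⟨z', hz'⟩ := h'.dvd_sum_subgroup (E.μ E.i₀) fun l hl => by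
      by_cases hl1 : l = 1
      · rw [hl1]
      · have h2 := E.trivial_pair h' hw' (apart hm hK hz hy (by decide)) hl1 hl E.i₀
        rw [hk] at h2
        set d := cf (1 : Dual (Subgroup.centralizer {y})) (E.μ E.i₀) - cf l (E.μ E.i₀) with hd'
        have : d = 0 := by
          by_contra hne
          rcases Int.lt_or_lt_of_ne hne with h3 | h3 <;> push_cast at h2 <;> nlinarith
        omega
    refine ⟨26 * z' - 962, ⟨z', by ring⟩, ?_⟩
    have hS2 : Nat.card ↥(smallPart hm hK hy) = 2 := card_smallPart hm hK hy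
    obtain ⟨j, hjne, hjall⟩ := (Nat.card_eq_two_iff' (1 : ↥(smallPart hm hK hy))).1 hS2
    have hjo : orderOf (j : ↥G¹) = 2 := orderOf_eq_prime (by
      exact j.2.2) (fun hj => hjne (Subtype.ext hj))
    rw [show (Finset.univ : Finset ↥(smallPart hm hK hy)) = {1, j} from Finset.ext fun a => by
      simp only [Finset.mem_univ, Finset.mem_insert, Finset.mem_singleton, true_iff]
      by_cases ha : a = 1
      · exact Or.inl ha
      · exact Or.inr (hjall a ha), Finset.sum_pair hjne.symm, OneMemClass.coe_one,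
      ← apply_eq_of_isConj (E.μ E.i₀) (hconjg _ hjo), ← coe_charDegree, E.deg_mu, hD,
      card_cent_root hm hK hy, show torusNum 1 0 = 26 from rfl] at hz'
    push_cast at hz' ⊢
    linear_combination hz'
  have he8 : (8 : ℤ) ∣ 962 + 7 * e := by
    obtain ⟨W, hW8, hWsq⟩ := exists_eight (m := 1) hK
    obtain ⟨k, hk'⟩ := exists_nat_classInner
      (isCharacter_restrict (isCharacter_coe (E.μ E.i₀)) W) (oneIrr W)
    refine ⟨k, ?_⟩
    simp only [classInner, oneIrr_apply, map_one, mul_one] at hk'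
    rw [hW8, ← Finset.add_sum_erase _ _ (Finset.mem_univ (1 : W)),
      Finset.sum_congr rfl (fun (w : W) hw' => (?_ : (E.μ E.i₀ : ↥G¹ → ℂ) w = (e : ℂ))), Finset.sum_const,
      Finset.card_erase_of_mem (Finset.mem_univ _), Finset.card_univ, ← Nat.card_eq_fintype_card,
      hW8, OneMemClass.coe_one, ← coe_charDegree, E.deg_mu, hD, nsmul_eq_mul] at hk'
    · have : ((962 + 7 * e : ℤ) : ℂ) = ((8 * k : ℤ) : ℂ) := by
        push_cast
        rw [← hk']
        norm_num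
        ring
      exact_mod_cast this
    · rw [← he]
      refine (apply_eq_of_isConj _ (hconjg _ (orderOf_eq_prime (by rw [sq]; exact hWsq _ w.2) ?_))).symm
      exact fun e1 => (Finset.mem_erase.1 hw').1 (Subtype.ext e1)
  have hegi : ∀ i, (E.μ i : ↥G¹ → ℂ) g = (e : ℂ) := fun i => by rw [E.val_eq g hgT i E.i₀, he]
  have hreal : IsConj g g⁻¹ := hconjg _ (by rw [orderOf_inv, hg])
  -- the characters other than the exceptional ones and the Steinberg character
  set R := E.rest.erase ψ with hRdef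
  have hRmem : ∀ χ ∈ R, χ ∈ (others : Finset (IrrCharacter ↥G¹)) ∧ χ ∉ Finset.univ.image E.μ :=
    fun χ hχ => Finset.mem_sdiff.1 (Finset.mem_of_mem_erase hχ)
  have hsplit : ∀ f : IrrCharacter ↥G¹ → ℝ, ∑ χ ∈ others, f χ =
      f ψ + ∑ χ ∈ R, f χ + ∑ i : Fin E.k, f (E.μ i) := fun f => by
    rw [← Finset.sum_sdiff E.mu_subset, Finset.sum_image (fun i _ j _ e => E.inj e), hRdef,
      show ∑ χ ∈ others \ Finset.univ.image E.μ, f χ = ∑ χ ∈ E.rest, f χ from rfl,
      ← Finset.add_sum_erase _ f hψmem]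
  have hR3 : ∑ χ ∈ R, (E.cst χ : ℝ) ^ 2 = 3 := by
    have hb := E.budget_eq h hw
    rw [hk, ha, hε, Exc.budget, ← Finset.add_sum_erase _ _ hψmem, hψx, ← hRdef] at hb
    have hb' : ∑ χ ∈ R, E.cst χ ^ 2 = 3 := by norm_num at hb; linarith
    exact_mod_cast hb'
  have hval : ∀ χ ∈ E.rest, (χ : ↥G¹ → ℂ) x = (E.cst χ : ℂ) := fun χ hχ =>
    E.value_rest h (t := ⟨x, hx⟩) (Finset.mem_sdiff.1 hχ).2 fun e => hx1 (congrArg Subtype.val e)
  set s : ℝ := ((ψ : ↥G¹ → ℂ) g).re with hs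
  have hgval : ∀ χ : IrrCharacter ↥G¹, ‖(χ : ↥G¹ → ℂ) g‖ ^ 2 = ((χ : ↥G¹ → ℂ) g).re ^ 2 := fun χ => by
    conv_lhs => rw [apply_real hreal χ]
    rw [Complex.norm_real, Real.norm_eq_abs, sq_abs]
  have hsq : s ^ 2 + ∑ χ ∈ R, ((χ : ↥G¹ → ℂ) g).re ^ 2 + 3 * (e : ℝ) ^ 2 = 19655 := by
    have hh := sum_norm_sq_others g
    rw [card_cent_involution hK hg, hsplit] at hh
    simp only [hgval] at hh
    rw [Finset.sum_congr rfl (fun i (_ : i ∈ Finset.univ) =>
      show ((E.μ i : ↥G¹ → ℂ) g).re ^ 2 = (e : ℝ) ^ 2 by rw [hegi]; simp),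
      Finset.sum_const, Finset.card_univ, Fintype.card_fin, hk, nsmul_eq_mul] at hh
    norm_num at hh
    linarith
  have hRnn : 0 ≤ ∑ χ ∈ R, ((χ : ↥G¹ → ℂ) g).re ^ 2 := Finset.sum_nonneg fun χ _ => sq_nonneg _
  have hecases : e = 26 ∨ e = -78 := by
    have h1 : (e : ℝ) ^ 2 < (81 : ℝ) ^ 2 := by nlinarith [sq_nonneg s]
    have h2 : e ^ 2 < 81 ^ 2 := by exact_mod_cast h1
    have h3 : -81 < e ∧ e < 81 := by constructor <;> nlinarith
    omega
  rcases hecases with rfl | rfl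
  · refine covers_of_norm_lt x g ((norm_sum_le _ _).trans_lt ?_)
    have hterm : ∀ χ : IrrCharacter ↥G¹,
        ‖(χ : ↥G¹ → ℂ) x * (χ : ↥G¹ → ℂ) x * conj ((χ : ↥G¹ → ℂ) g) / (χ : ↥G¹ → ℂ) 1‖ =
          (‖(χ : ↥G¹ → ℂ) x‖ ^ 2 / deg χ) * ‖(χ : ↥G¹ → ℂ) g‖ := fun χ => by
      rw [norm_div, norm_mul, norm_mul, RCLike.norm_conj, apply_one_eq χ, Complex.norm_real,
        Real.norm_eq_abs, abs_of_pos (deg_pos χ)]
      ring
    simp only [hterm]
    rw [hsplit]
    have hM2 : ∑ i : Fin E.k, ‖(E.μ i : ↥G¹ → ℂ) x‖ ^ 2 = 14 := by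
      have hh := sum_norm_sq_others x
      rw [hcxT, hn, hsplit, hval ψ hψmem, hψx,
        Finset.sum_congr rfl (fun χ (hχ : χ ∈ R) => show ‖(χ : ↥G¹ → ℂ) x‖ ^ 2 = (E.cst χ : ℝ) ^ 2 by
          rw [hval χ (Finset.mem_of_mem_erase hχ), Complex.norm_intCast, sq_abs]), hR3] at hh
      norm_num at hh
      linarith
    have hbound : ∀ χ : IrrCharacter ↥G¹, ((χ : ↥G¹ → ℂ) g).re ^ 2 ≤ 19655 →
        ‖(χ : ↥G¹ → ℂ) g‖ ≤ 141 := fun χ hh => by
      rw [← hgval χ] at hh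
      nlinarith [norm_nonneg ((χ : ↥G¹ → ℂ) g)]
    have hψb : ‖(ψ : ↥G¹ → ℂ) g‖ ≤ 141 := hbound ψ (by rw [← hs]; nlinarith)
    have hRb : ∀ χ ∈ R, ‖(χ : ↥G¹ → ℂ) x‖ ^ 2 / deg χ * ‖(χ : ↥G¹ → ℂ) g‖ ≤
        (E.cst χ : ℝ) ^ 2 * (141 / 703) := fun χ hχ => by
      have h1 := Finset.single_le_sum (f := fun c : IrrCharacter ↥G¹ => ((c : ↥G¹ → ℂ) g).re ^ 2)
        (fun c _ => sq_nonneg _) hχ
      have h141 := hbound χ (by nlinarith [sq_nonneg s])
      have h703 := deg_703 hK χ (hRmem χ hχ).1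
      rw [hval χ (Finset.mem_of_mem_erase hχ), Complex.norm_intCast, sq_abs, mul_div_assoc',
        div_mul_eq_mul_div]
      exact div_le_div₀ (mul_nonneg (sq_nonneg _) (by norm_num))
        (mul_le_mul_of_nonneg_left h141 (sq_nonneg _)) (by norm_num) h703
    have hRsum := Finset.sum_le_sum hRb
    rw [← Finset.sum_mul, hR3] at hRsum
    rw [hval ψ hψmem, hψx, hψ1,
      Finset.sum_congr rfl (fun i (_ : i ∈ Finset.univ) =>
        show ‖(E.μ i : ↥G¹ → ℂ) x‖ ^ 2 / deg (E.μ i) * ‖(E.μ i : ↥G¹ → ℂ) g‖ =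
          ‖(E.μ i : ↥G¹ → ℂ) x‖ ^ 2 * (26 / 962) by
          rw [hegi i, deg, E.deg_mu, hD]; norm_num; ring), ← Finset.sum_mul, hM2]
    norm_num at hRsum hψb ⊢
    linarith
  · exfalso
    have hM1 : ∑ i : Fin E.k, ((E.μ i : ↥G¹ → ℂ) x).re = -2 := by
      have h1 := E.sum_mu_value h (t := ⟨x, hx⟩) fun e => hx1 (congrArg Subtype.val e)
      have h2 := congrArg Complex.re h1
      rw [Complex.re_sum, show ((E.k : ℤ)) = 3 by exact_mod_cast hk, ha, hε] at h2
      norm_num at h2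
      exact h2
    have hcol : 1 + ∑ χ ∈ (others : Finset (IrrCharacter ↥G¹)), ((χ : ↥G¹ → ℂ) x * conj ((χ : ↥G¹ → ℂ) g)).re = 0 := by
      have h1 := congrArg Complex.re (sum_irr_mul_conj x g)
      rw [if_neg hgx, Complex.re_sum, ← Finset.add_sum_erase _ _ (Finset.mem_univ (oneIrr ↥G¹))] at h1
      simpa using h1
    rw [hsplit] at hcol
    have hterm : ∀ χ : IrrCharacter ↥G¹, ((χ : ↥G¹ → ℂ) x * conj ((χ : ↥G¹ → ℂ) g)).re =
        ((χ : ↥G¹ → ℂ) x).re * ((χ : ↥G¹ → ℂ) g).re := fun χ => by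
      conv_lhs => rw [apply_real hreal χ]
      simp
    simp only [hterm] at hcol
    rw [hval ψ hψmem, hψx, ← hs,
      Finset.sum_congr rfl (fun χ (hχ : χ ∈ R) => show ((χ : ↥G¹ → ℂ) x).re * ((χ : ↥G¹ → ℂ) g).re =
        (E.cst χ : ℝ) * ((χ : ↥G¹ → ℂ) g).re by rw [hval χ (Finset.mem_of_mem_erase hχ)]; simp),
      Finset.sum_congr rfl (fun i (_ : i ∈ Finset.univ) =>
        show ((E.μ i : ↥G¹ → ℂ) x).re * ((E.μ i : ↥G¹ → ℂ) g).re =
          ((E.μ i : ↥G¹ → ℂ) x).re * (-78) by rw [hegi]; simp), ← Finset.sum_mul, hM1] at hcol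
    have hcs := Finset.sum_mul_sq_le_sq_mul_sq R (fun χ : IrrCharacter ↥G¹ => (E.cst χ : ℝ))
      (fun χ : IrrCharacter ↥G¹ => ((χ : ↥G¹ → ℂ) g).re)
    rw [hR3] at hcs
    norm_num at hcol hsq
    have hSR : ∑ χ ∈ R, (E.cst χ : ℝ) * ((χ : ↥G¹ → ℂ) g).re = s - 157 := by linarith
    rw [hSR] at hcs
    nlinarith [sq_nonneg (4 * s - 157)]

theorem covers_19 {z : ↥G¹} (hz : IsRoot 2 z) {x g : ↥G¹}
    (hx : x ∈ Subgroup.centralizer {z}) (hx1 : x ≠ 1) (hg : orderOf g = 2) : Covers x g := by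
  have hm : 1 ≤ 1 := le_rfl
  obtain ⟨h, hw, ⟨E⟩⟩ := exists_exc hm hK (Or.inl rfl) hz
  have hn : Nat.card ↥(Subgroup.centralizer {z}) = 19 := by
    rw [card_cent_root hm hK hz]; simp [torusNum]
  have hk : E.k = 3 := by have := E.count; omega
  obtain ⟨hD703, hDG⟩ := D_facts hK E
  have hdvd := E.degree_mu h hw
  rw [hn] at hdvd
  have hbud := E.budget_eq h hw
  have hnn := E.budget_nonneg
  rw [hk] at hbud
  push_cast at hbud hdvd
  have ha1 : -1 ≤ E.a := by nlinarith [sq_nonneg (E.a - E.ε)]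
  have ha2 : E.a ≤ 1 := by nlinarith [sq_nonneg (E.a - E.ε)]
  obtain ⟨ψ, hψ1, hψ⟩ := exists_st hm hK
  have hxS : x ∉ smallPart hm hK hz := by
    rw [smallPart_eq_bot hm hK hz (small_one_of hm hK (Or.inl rfl))]; simpa using hx1
  have hψdeg : charDegree (ψ : ↥G¹ → ℂ) = 19683 :=
    charDegree_eq_of_map_one (by rw [st_one hm hK hψ]; norm_num)
  have hψim : ψ ∉ Finset.univ.image E.μ := by
    intro hmem
    obtain ⟨i, -, rfl⟩ := Finset.mem_image.1 hmem
    rw [E.deg_mu] at hψdeg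
    rw [hψdeg] at hdvd
    generalize hA : E.a = a at hdvd ha1 ha2
    rcases E.sign with s | s <;> rw [s] at hdvd <;> interval_cases a <;> norm_num at hdvd
  have hψmem : ψ ∈ E.rest :=
    Finset.mem_sdiff.2 ⟨Finset.mem_erase.2 ⟨hψ1, Finset.mem_univ _⟩, hψim⟩
  have hψx : E.cst ψ = -1 := by
    have h1 := E.value_rest h (t := ⟨x, hx⟩) hψim fun e => hx1 (congrArg Subtype.val e)
    rw [show ((⟨x, hx⟩ : ↥(Subgroup.centralizer {z})) : ↥G¹) = x from rfl,
      st_torus hm hK hψ hz (by decide) hx hxS] at h1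
    exact_mod_cast h1.symm
  have hb1 : 1 ≤ E.budget := by
    refine le_trans ?_ (Finset.single_le_sum (f := fun χ => E.cst χ ^ 2)
      (fun χ _ => sq_nonneg _) hψmem)
    simp [hψx]
  have hres : E.D % 19 = 6 ∨ E.D % 19 = 13 ∨ E.D % 19 = 7 ∨ E.D % 19 = 12 := by
    generalize hA : E.a = a at hbud hdvd ha1 ha2
    rcases E.sign with s | s <;> rw [s] at hbud hdvd <;> interval_cases a <;>
      norm_num at hbud hdvd <;> omega
  have hmod37 : E.D % 37 = 0 ∨ E.D % 37 = 1 ∨ E.D % 37 = 36 := by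
    obtain ⟨y, p, hp, h5, ho, hd⟩ := exists_prime_torus hm hK 3
    have hy : IsRoot 3 y := isRoot_mk hp h5 ho hd
    obtain ⟨h', hw', ⟨E'⟩⟩ := exists_exc hm hK (Or.inr rfl) hy
    have hap := apart hm hK hz hy (by decide : (2 : Fin 4) ≠ 3)
    rw [smallPart_eq_bot hm hK hy (small_one_of hm hK (Or.inr rfl))] at hap
    obtain ⟨Δ, hΔ, hdvd'⟩ := E.degree_apart h' E' hw' hap
    rw [card_cent_root hm hK hy, show torusNum 1 3 = 37 from rfl] at hdvd'
    rw [hk] at hΔ
    push_cast at hΔ hdvd'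
    have h1 : -1 ≤ Δ := by nlinarith
    have h2 : Δ ≤ 1 := by nlinarith
    interval_cases Δ <;> omega
  by_cases hD962 : E.D = 962
  · have haε : E.a = -1 ∧ E.ε = -1 := by
      rw [hD962] at hdvd
      generalize hA : E.a = a at hdvd ha1 ha2 ⊢
      rcases E.sign with s | s <;> rw [s] at hdvd ⊢ <;> interval_cases a <;> omega
    exact covers_19_special hK hz hx hx1 hg E ψ hψmem hψx
      (by rw [deg, hψdeg]; norm_num) hk hD962 haε.1 haε.2
  have hD : 1900 ≤ E.D := by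
    by_contra hlt
    exact hD962 (cands_19 (by omega) hD703 hDG hres hmod37)
  have hgbig : ¬ IsBig g := fun ⟨p, hp, h5, hd⟩ => by
    rw [hg] at hd
    have := Nat.le_of_dvd (by norm_num) hd
    omega
  refine E.covers h hw hx hx1
    (fun c hc => no_conj_of_not_big hm hK hz (small_one_of hm hK (Or.inl rfl)) hgbig c hc)
    703 (by norm_num) (deg_703 hK) fun r _ hr => ?_
  rw [hn, hk, card_cent_involution hK hg]
  have hD' : (1900 : ℝ) ≤ (E.D : ℝ) := by exact_mod_cast hD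
  push_cast
  generalize (E.D : ℝ) = D at hD'
  have key : ∀ F A : ℝ, 0 ≤ A → (F / 703 ^ 2 + A / (3 * 1900 ^ 2)) * 19656 < 1 →
      (F / 703 ^ 2 + A / (3 * D ^ 2)) * 19656 < 1 := by
    intro F A hA hlt
    refine lt_of_le_of_lt (mul_le_mul_of_nonneg_right (add_le_add le_rfl ?_) (by norm_num)) hlt
    have hDD : (1900 : ℝ) ^ 2 ≤ D ^ 2 := pow_le_pow_left₀ (by norm_num) hD' 2
    exact div_le_div_of_nonneg_left hA (by norm_num) (by linarith)
  have hmain := key (if r ≤ 3 then (r : ℝ) else (r : ℝ) + 12) (((18 : ℝ) - r) ^ 2) (sq_nonneg _)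
    (by interval_cases r <;> norm_num)
  norm_num at hmain ⊢
  exact hmain

end CfsgLib.ReeSquare
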