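import Cfsg.Agent.ReeSquare.Transfer
import Cfsg.Agent.Ree.Local

/-!
The maximal tori of the small twisted groups of type `G₂` as trivial-intersection tori, and the
inversion of their elements.
-/

set_option autoImplicit false
set_option linter.unusedSectionVars false
set_option linter.style.haveILetI false

open scoped Matrix MatrixGroups

namespace CfsgLib.ReeSquare

open Cfsg.Lie CfsgLib.Chevalley CfsgLib.Ree

variable {K : Type*} [Field K] [CharP K 3] {m : ℕ} [Fintype K]

local notation "G¹" => twistedG2 K (3 ^ m)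
local notation "q₀" => 3 ^ (2 * m + 1)

variable (hm : 1 ≤ m) (hK : Fintype.card K = 3 ^ (2 * m + 1))

/-- The part of the centraliser killed by the small factor. -/
noncomputable def smallPart {i : Fin 4} {z : ↥(twistedG2 K (3 ^ m))} (hz : IsRoot i z) :
    Subgroup ↥G¹ where
  carrier := {a | a ∈ Subgroup.centralizer {z} ∧ a ^ torusSmall i = 1}
  one_mem' := ⟨one_mem _, one_pow _⟩
  mul_mem' := fun {a b} ha hb => ⟨mul_mem ha.1 hb.1, by
    rw [(show Commute a b from comm_of_root hm hK hz ha.1 hb.1).mul_pow, ha.2, hb.2, one_mul]⟩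
  inv_mem' := fun {a} ha => ⟨inv_mem ha.1, by rw [inv_pow, ha.2, inv_one]⟩

include hm hK

variable {i j : Fin 4} {z z' : ↥(twistedG2 K (3 ^ m))}

theorem small_hall_coprime (i : Fin 4) : Nat.Coprime (torusSmall i) (torusHall m i) := by
  have h6 := torusHall_coprime hm i
  rcases torusSmall_cases i with h | h | h <;> rw [h]
  · exact Nat.coprime_one_left _
  · exact h6.coprime_dvd_left (by norm_num : 2 ∣ 6)
  · exact (h6.coprime_dvd_left (by norm_num : 2 ∣ 6)).pow_left 2

theorem card_cent_root (hz : IsRoot i z) :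
    Nat.card ↥(Subgroup.centralizer {z}) = torusNum m i := by
  rw [card_of_root hm hK hz, torusNum_eq hm i]

theorem card_smallPart (hz : IsRoot i z) : Nat.card ↥(smallPart hm hK hz) = torusSmall i := by
  set C := Subgroup.centralizer {z}
  have hcomm : ∀ a b : ↥C, a * b = b * a := fun a b => Subtype.ext (comm_of_root hm hK hz a.2 b.2)
  letI : CommGroup ↥C := { (inferInstance : Group ↥C) with mul_comm := hcomm }
  conv_rhs => rw [← natCard_torsion (A := ↥C) (card_of_root hm hK hz) (small_hall_coprime hm hK i)]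
  exact Nat.card_congr
    { toFun := fun a => ⟨⟨a.1, a.2.1⟩, Subtype.ext a.2.2⟩
      invFun := fun a => ⟨a.1.1, a.1.2,
        congrArg Subtype.val (show a.1 ^ torusSmall i = 1 from a.2)⟩ }

theorem pow_torusNum (hz : IsRoot i z) {a : ↥G¹} (ha : a ∈ Subgroup.centralizer {z}) :
    a ^ (torusSmall i * torusHall m i) = 1 :=
  orderOf_dvd_iff_pow_eq_one.1 (card_of_root hm hK hz ▸ Subgroup.orderOf_dvd_natCard _ ha)

/-- An element of the torus outside the small part has a power which is a root of the torus. -/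
theorem exists_root_power (hz : IsRoot i z) {a : ↥G¹} (ha : a ∈ Subgroup.centralizer {z})
    (haS : a ∉ smallPart hm hK hz) :
    ∃ (k p : ℕ), p.Prime ∧ 5 ≤ p ∧ p ∣ orderOf a ∧ orderOf (a ^ k) = p ∧
      Subgroup.centralizer {a ^ k} = Subgroup.centralizer {z} := by
  have hne : ¬ Nat.Coprime (orderOf a) (torusHall m i) := fun h => haS ⟨ha,
    orderOf_dvd_iff_pow_eq_one.1 (h.dvd_of_dvd_mul_right
      (orderOf_dvd_of_pow_eq_one (pow_torusNum hm hK hz ha)))⟩
  obtain ⟨p, hp, hpo, hpd⟩ := Nat.Prime.not_coprime_iff_dvd.1 hne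
  have h5 : 5 ≤ p := by
    by_contra hlt
    have h6 := (torusHall_coprime hm i).coprime_dvd_right hpd
    have h2 := hp.two_le
    interval_cases p
    · exact absurd h6 (by norm_num)
    · exact absurd h6 (by norm_num)
    · exact absurd hp (by norm_num)
  obtain ⟨l, hl, hl5, hol, -⟩ := id hz
  refine ⟨orderOf a / p, p, hp, h5, hpo, orderOf_pow_orderOf_div (orderOf_pos a).ne' hpo, ?_⟩
  exact cent_eq hK hl hl5 hol hp h5 (orderOf_pow_orderOf_div (orderOf_pos a).ne' hpo)
    (pow_mem ha _)

theorem tiTorus (hz : IsRoot i z) : TITorus (Subgroup.centralizer {z}) (smallPart hm hK hz) where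
  le := fun _ ha => ha.1
  comm := fun _ ha _ hb => comm_of_root hm hK hz ha hb
  coprime := by
    have hle : smallPart hm hK hz ≤ Subgroup.centralizer {z} := fun _ ha => ha.1
    have e := ((smallPart hm hK hz).subgroupOf (Subgroup.centralizer {z})).card_mul_index
    rw [Nat.card_congr (Subgroup.subgroupOfEquivOfLe hle).toEquiv, card_smallPart hm hK hz,
      card_of_root hm hK hz] at e
    have hpos : 0 < torusSmall i := by rcases torusSmall_cases i with h | h | h <;> omega
    rw [card_smallPart hm hK hz, Nat.eq_of_mul_eq_mul_left hpos e]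
    exact small_hall_coprime hm hK i
  cent := fun a ha haS => by
    obtain ⟨k, p, -, -, -, -, he⟩ := exists_root_power hm hK hz ha haS
    refine le_antisymm (fun c hc => ?_) fun c hc =>
      Subgroup.mem_centralizer_singleton_iff.2 (comm_of_root hm hK hz hc ha)
    rw [← he, Subgroup.mem_centralizer_singleton_iff]
    exact ((show Commute c a from Subgroup.mem_centralizer_singleton_iff.1 hc).pow_right k).eq

theorem index_smallPart (hz : IsRoot i z) :
    ((smallPart hm hK hz).subgroupOf (Subgroup.centralizer {z})).index = torusHall m i := by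
  have hle : smallPart hm hK hz ≤ Subgroup.centralizer {z} := fun _ ha => ha.1
  have e := ((smallPart hm hK hz).subgroupOf (Subgroup.centralizer {z})).card_mul_index
  rw [Nat.card_congr (Subgroup.subgroupOfEquivOfLe hle).toEquiv, card_smallPart hm hK hz,
    card_of_root hm hK hz] at e
  exact Nat.eq_of_mul_eq_mul_left (by rcases torusSmall_cases i with h | h | h <;> omega) e

theorem smallPart_eq_bot (hz : IsRoot i z) (hs : torusSmall i = 1) : smallPart hm hK hz = ⊥ :=
  Subgroup.card_eq_one.1 (by rw [card_smallPart hm hK hz, hs])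

theorem tiTorus_bot (hz : IsRoot i z) (hs : torusSmall i = 1) :
    TITorus (Subgroup.centralizer {z}) ⊥ :=
  smallPart_eq_bot hm hK hz hs ▸ tiTorus hm hK hz

theorem root_num_injective {i j : Fin 4} (h : torusNum m i = torusNum m j) : i = j := by
  obtain ⟨p, hp, h5, hd⟩ := exists_prime_ge_five (torusHall_coprime hm i) (torusHall_one_lt hm i)
  exact torusNum_disjoint (hm := hm) hp h5 (by rw [torusNum_eq hm i]; exact dvd_mul_of_dvd_right hd _)
    (by rw [← h, torusNum_eq hm i]; exact dvd_mul_of_dvd_right hd _)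

theorem apart (hz : IsRoot i z) (hz' : IsRoot j z') (hij : i ≠ j) :
    Apart (Subgroup.centralizer {z}) (Subgroup.centralizer {z'}) (smallPart hm hK hz') := by
  intro a ha haS c hc
  obtain ⟨k, p, hp, h5, -, hok, he⟩ := exists_root_power hm hK hz' ha haS
  obtain ⟨l, hl, hl5, hol, -⟩ := id hz
  have e := cent_eq hK hl hl5 hol hp h5 (y := c * a ^ k * c⁻¹) (by rw [orderOf_conj_eq, hok])
    (by rw [← conj_pow]; exact pow_mem hc k)
  apply hij
  apply root_num_injective hm hK
  rw [← card_cent_root hm hK hz, ← e, ← card_cent_root hm hK hz', ← he]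
  refine Nat.card_congr (Equiv.subtypeEquiv (MulAut.conj c).toEquiv fun w => ?_).symm
  show _ ↔ c * w * c⁻¹ ∈ Subgroup.centralizer {c * a ^ k * c⁻¹}
  rw [Subgroup.mem_centralizer_singleton_iff, Subgroup.mem_centralizer_singleton_iff,
    show c * w * c⁻¹ * (c * a ^ k * c⁻¹) = c * (w * a ^ k) * c⁻¹ by group,
    show c * a ^ k * c⁻¹ * (c * w * c⁻¹) = c * (a ^ k * w) * c⁻¹ by group, mul_left_inj,
    mul_right_inj]

/-- A small element has no conjugate in a torus without small part, except the identity. -/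
theorem no_conj_of_not_big (hz : IsRoot i z) (hs : torusSmall i = 1) {g : ↥G¹} (hg : ¬ IsBig g)
    (c : ↥G¹) (hc : c⁻¹ * g * c ∈ Subgroup.centralizer {z}) : c⁻¹ * g * c = 1 := by
  by_contra hne
  have hnot : c⁻¹ * g * c ∉ smallPart hm hK hz := by
    rw [smallPart_eq_bot hm hK hz hs]; simpa using hne
  obtain ⟨k, p, hp, h5, hpo, -⟩ := exists_root_power hm hK hz hc hnot
  refine hg ((isBig_conj c⁻¹ g).1 ?_)
  rw [inv_inv]
  exact ⟨p, hp, h5, hpo⟩

/-- Every element of a torus is inverted by an element of the normaliser. -/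
theorem real_of_root (hz : IsRoot i z) {x : ↥G¹} (hx : x ∈ Subgroup.centralizer {z}) :
    IsConj x x⁻¹ := by
  classical
  haveI : Fact (Nat.Prime 2) := ⟨Nat.prime_two⟩
  set T := Subgroup.centralizer {z} with hT
  set S := smallPart hm hK hz with hS
  set N := Subgroup.normalizer (T : Set ↥G¹) with hN
  have hti := tiTorus hm hK hz
  have hSN : S ≤ N := hti.le.trans Subgroup.le_normalizer
  obtain ⟨k, hk⟩ : ∃ k, torusSmall i = 2 ^ k := by
    rcases torusSmall_cases i with h | h | h
    exacts [⟨0, h⟩, ⟨1, h⟩, ⟨2, h⟩]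
  have hdvd : 2 ^ (k + 1) ∣ Nat.card ↥N := by
    rw [hN, hT, card_normalizer_of_root hm hK hz, torusNum_eq hm i, pow_succ', hk, ← mul_assoc]
    have h2 : 2 ∣ (if i = 0 then 2 else 6) := by split_ifs <;> norm_num
    exact dvd_mul_of_dvd_left (mul_dvd_mul h2 dvd_rfl) _
  obtain ⟨P₀, hP₀card, hP₀le⟩ := Sylow.exists_subgroup_card_pow_prime_le 2 hdvd (S.subgroupOf N)
    (n := k) (by
      rw [Nat.card_congr (Subgroup.subgroupOfEquivOfLe hSN).toEquiv, hS, card_smallPart hm hK hz, hk])
    (by omega)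
  set P : Subgroup ↥G¹ := P₀.map N.subtype with hP
  have hPcard : Nat.card P = 2 ^ (k + 1) := by rw [hP, Subgroup.card_subtype, hP₀card]
  obtain ⟨W, hW⟩ := (IsPGroup.of_card hPcard).exists_le_sylow
  have hsq : ∀ a ∈ P, a * a = 1 := fun a ha => (sylow_two_twisted hK W).2 a (hW ha)
  have hcomm : ∀ a ∈ P, ∀ b ∈ P, a * b = b * a := fun a ha b hb => by
    have h1 := hsq _ (mul_mem ha hb)
    have ea : a⁻¹ = a := inv_eq_of_mul_eq_one_left (hsq a ha)
    have eb : b⁻¹ = b := inv_eq_of_mul_eq_one_left (hsq b hb)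
    calc a * b = (a * b)⁻¹ := (inv_eq_of_mul_eq_one_left h1).symm
      _ = b * a := by rw [mul_inv_rev, ea, eb]
  have hSP : S ≤ P := fun a ha => ⟨⟨a, hSN ha⟩, hP₀le ha, rfl⟩
  obtain ⟨n, hnP, hnS⟩ : ∃ n ∈ P, n ∉ S := by
    by_contra! h
    have h1 := Subgroup.card_le_of_le (show P ≤ S from h)
    rw [hPcard, hS, card_smallPart hm hK hz, hk, pow_succ] at h1
    have := Nat.one_le_pow k 2 (by norm_num)
    omega
  have hnN : n ∈ N := by obtain ⟨a, -, rfl⟩ := hnP; exact a.2
  have hnT : n ∉ T := fun hn => hnS ⟨hn, by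
    have h2 : n ^ 2 = 1 := by rw [sq]; exact hsq n hnP
    rcases torusSmall_cases i with h | h | h <;> rw [h]
    · rw [pow_one]
      refine orderOf_eq_one_iff.1 (Nat.eq_one_of_dvd_coprimes ?_ (orderOf_dvd_of_pow_eq_one h2)
        (orderOf_dvd_of_pow_eq_one (pow_torusNum hm hK hz hn)))
      rw [h, one_mul]
      exact (torusHall_coprime hm i).coprime_dvd_left (by norm_num : 2 ∣ 6)
    · exact h2
    · rw [show (4 : ℕ) = 2 * 2 from rfl, pow_mul, h2, one_pow]⟩
  have hxn : n * x * n⁻¹ ∈ T := (Subgroup.mem_normalizer_iff.1 hnN x).1 hx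
  set y := x * (n * x * n⁻¹) with hy
  have hyT : y ∈ T := mul_mem hx hxn
  have hninv : n⁻¹ = n := inv_eq_of_mul_eq_one_left (hsq n hnP)
  have hny : n * y = y * n := by
    rw [← mul_inv_eq_iff_eq_mul, hy, show n * (x * (n * x * n⁻¹)) * n⁻¹ =
      (n * x * n⁻¹) * ((n * n) * x * (n * n)⁻¹) by group, hsq n hnP, one_mul, inv_one, mul_one]
    exact hti.comm _ hxn _ hx
  have hyS : y ∈ S := by
    by_contra h
    exact hnT ((hti.cent y hyT h).le (Subgroup.mem_centralizer_singleton_iff.2 hny))
  have hxd : x ^ torusHall m i ∈ S := ⟨pow_mem hx _, by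
    rw [← pow_mul, mul_comm, pow_torusNum hm hK hz hx]⟩
  have hyd : y ^ torusHall m i = 1 := by
    rw [hy, (show Commute x (n * x * n⁻¹) from hti.comm _ hx _ hxn).mul_pow, conj_pow,
      hcomm n hnP _ (hSP hxd), mul_inv_cancel_right]
    exact hsq _ (hSP hxd)
  have hy1 : y = 1 := orderOf_eq_one_iff.1 (Nat.eq_one_of_dvd_coprimes (small_hall_coprime hm hK i)
    (orderOf_dvd_of_pow_eq_one hyS.2) (orderOf_dvd_of_pow_eq_one hyd))
  exact isConj_iff.2 ⟨n, eq_inv_of_mul_eq_one_right hy1⟩

/-- A torus with nontrivial small part contains an involution. -/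
theorem exists_involution_root (hz : IsRoot i z) (hs : torusSmall i ≠ 1) :
    ∃ a ∈ Subgroup.centralizer {z}, orderOf a = 2 := by
  have hlt : 1 < Nat.card ↥(smallPart hm hK hz) := by
    rw [card_smallPart hm hK hz]
    rcases torusSmall_cases i with h | h | h <;> omega
  haveI := Finite.one_lt_card_iff_nontrivial.1 hlt
  obtain ⟨⟨a, ha, ha'⟩, hne⟩ := exists_ne (1 : ↥(smallPart hm hK hz))
  refine ⟨a, ha, ?_⟩
  have h4 : orderOf a ∣ 2 ^ 2 := by
    refine (orderOf_dvd_of_pow_eq_one ha').trans ?_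
    rcases torusSmall_cases i with h | h | h <;> rw [h] <;> norm_num
  obtain ⟨k, hk, e⟩ := (Nat.dvd_prime_pow Nat.prime_two).1 h4
  interval_cases k
  · exact absurd (Subtype.ext (orderOf_eq_one_iff.1 e)) hne
  · exact e
  · exact absurd e (orderOf_ne_four hK a)

/-- The torus of an element of order prime to three and bigger than two. -/
theorem exists_torus {x : ↥G¹} (hx2 : 2 < orderOf x) (hx3 : ¬ 3 ∣ orderOf x) :
    ∃ (i : Fin 4) (z : ↥G¹) (hz : IsRoot i z), x ∈ Subgroup.centralizer {z} ∧
      x ∉ smallPart hm hK hz := by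
  have hbig : IsBig x := by
    by_contra h
    rcases orderOf_two_three hK (g := x) (fun p hp hd => by
      by_contra h3
      refine h ⟨p, hp, ?_, hd⟩
      have h4 : p ≠ 4 := fun e => by subst e; norm_num at hp
      omega) with e | e | e | e | e <;> rw [e] at hx2 hx3 <;> omega
  obtain ⟨i, z, hz, hmem⟩ := exists_root_torus hm hK hbig
  refine ⟨i, z, hz, hmem, fun h => ?_⟩
  obtain ⟨p, hp, h5, hd⟩ := hbig
  have := hd.trans (orderOf_dvd_of_pow_eq_one h.2)
  rcases torusSmall_cases i with e | e | e <;> rw [e] at this <;>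
    have := Nat.le_of_dvd (by norm_num) this <;> omega

end CfsgLib.ReeSquare
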