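import Cfsg.Agent.ReeSquare.Classes
import Cfsg.Agent.ReeSquare.Toral
import Cfsg.Agent.S2455

/-!
The covering for elements with small centralisers, for involutions and the tori of order `q ± 1`,
and for elements of order three.
-/

set_option autoImplicit false
set_option linter.unusedSectionVars false
set_option linter.style.haveILetI false

open scoped Matrix MatrixGroups Classical

namespace CfsgLib.ReeSquare

open Cfsg Cfsg.Lie CfsgLib.Chevalley CfsgLib.Ree

variable {K : Type*} [Field K] [CharP K 3] {m : ℕ} [Fintype K]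

local notation "G¹" => twistedG2 K (3 ^ m)
local notation "B¹" => Subgroup.subgroupOf (chevG2.borelSubgroup K ⊓ twistedG2 K (3 ^ m)) (twistedG2 K (3 ^ m))
local notation "q₀" => 3 ^ (2 * m + 1)
local notation "r₀" => 3 ^ (m + 1)
local notation "PSL₂" => Matrix.ProjectiveSpecialLinearGroup (Fin 2) K
set_option quotPrecheck false in
local notation "C¹" => Subgroup.centralizer ({invE} : Set ↥(twistedG2 K (3 ^ m)))

variable (hm : 1 ≤ m) (hK : Fintype.card K = 3 ^ (2 * m + 1))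
include hm hK

theorem deg_lower (χ : IrrCharacter ↥G¹) (hχ : χ ∈ (others : Finset (IrrCharacter ↥G¹))) :
    ((q₀ ^ 2 - q₀ + 1 : ℕ) : ℝ) ≤ deg χ := by
  obtain ⟨n, ρ, hirr, hρ⟩ := χ.2
  have h1 : (χ : ↥G¹ → ℂ) 1 = (n : ℂ) := by rw [← hρ, Representation.char_one]; simp
  have hdeg : charDegree (χ : ↥G¹ → ℂ) = n := CfsgLib.Chars.charDegree_eq_of_map_one h1
  rw [deg, hdeg]
  have hn1 : n ≠ 1 := by
    rintro rfl
    rw [Nat.cast_one] at h1
    obtain ⟨l, hl⟩ := CfsgLib.Chars.exists_linChar_eq χ h1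
    refine (Finset.mem_erase.1 hχ).1 (Subtype.ext (funext fun g => ?_))
    have h2 : l g = 1 := Abelianization.commutator_subset_ker l
      (commutator_twisted hm hK ▸ Subgroup.mem_top g)
    rw [← hl, oneIrr_apply]
    simp [h2]
  have hn0 : 0 < n := hdeg ▸ CfsgLib.Chars.charDegree_pos χ
  have h := MinDeg65.min_degree hm hK ρ hirr (by rw [Module.finrank_fin_fun]; omega)
  rw [hK, Module.finrank_fin_fun] at h
  exact_mod_cast h

theorem torusNum_le (i : Fin 4) : torusNum m i ≤ q₀ + r₀ + 1 := by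
  have h1 : 0 < 3 ^ m := by positivity
  have h2 : 0 < 3 ^ (2 * m) := by positivity
  fin_cases i <;> simp [torusNum] <;> omega

theorem three_mul_r_le : 3 * r₀ ≤ q₀ := by
  rw [← pow_succ']
  exact Nat.pow_le_pow_right (by norm_num) (by omega)

theorem q_ge : 27 ≤ q₀ :=
  le_trans (by norm_num : 27 ≤ 3 ^ 3) (Nat.pow_le_pow_right (by norm_num) (by omega))

/-- Centralisers of the elements other than involutions and elements of order three are small. -/
theorem small_cent {g : ↥G¹} (hg : g ≠ 1) (h2 : orderOf g ≠ 2) (h3 : orderOf g ≠ 3) :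
    2 * Nat.card (Subgroup.centralizer ({g} : Set ↥G¹)) ≤ q₀ * (q₀ - 1) := by
  have hq := q_ge hm hK
  have hq' : 26 * q₀ ≤ q₀ * (q₀ - 1) := by
    rw [mul_comm 26]; exact Nat.mul_le_mul_left _ (by omega)
  by_cases hbig : IsBig g
  · obtain ⟨i, z, hz, hmem⟩ := exists_root_torus hm hK hbig
    have hS : g ∉ smallPart hm hK hz := fun h => by
      obtain ⟨p, hp, h5, hd⟩ := hbig
      have := hd.trans (orderOf_dvd_of_pow_eq_one h.2)
      rcases torusSmall_cases i with e | e | e <;> rw [e] at this <;>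
        have := Nat.le_of_dvd (by norm_num) this <;> omega
    rw [(tiTorus hm hK hz).cent g hmem hS, card_cent_root hm hK hz]
    have := torusNum_le hm hK i
    have := three_mul_r_le hm hK
    omega
  · rcases orderOf_two_three hK (g := g) (fun p hp hd => by
      by_contra h3'
      refine hbig ⟨p, hp, ?_, hd⟩
      have h4 : p ≠ 4 := fun e => by subst e; norm_num at hp
      omega) with e | e | e | e | e
    · exact absurd (orderOf_eq_one_iff.1 e) hg
    · exact absurd e h2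
    · exact absurd e h3
    · exact six_bound hK hm e
    · have := nine_cases hK e
      omega

theorem covers_small {x g : ↥G¹} {i : Fin 4} {z : ↥G¹} (hz : IsRoot i z)
    (hx : x ∈ Subgroup.centralizer {z}) (hxS : x ∉ smallPart hm hK hz) (hg : g ≠ 1)
    (h2 : orderOf g ≠ 2) (h3 : orderOf g ≠ 3) : Covers x g := by
  refine covers_of_small x g ((q₀ ^ 2 - q₀ + 1 : ℕ) : ℝ) (by exact_mod_cast Nat.succ_pos _)
    (deg_lower hm hK) ?_
  rw [(tiTorus hm hK hz).cent x hx hxS, card_cent_root hm hK hz]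
  have hg' := small_cent hm hK hg h2 h3
  have hn := torusNum_le hm hK i
  have hr := three_mul_r_le hm hK
  have hq := q_ge hm hK
  have hn1 : 1 ≤ torusNum m i := card_cent_root hm hK hz ▸ Nat.card_pos
  set q := q₀
  set n := torusNum m i
  set c := Nat.card (Subgroup.centralizer ({g} : Set ↥G¹))
  have hc : (2 : ℝ) * c ≤ (q : ℝ) * ((q : ℝ) - 1) := by
    have e : ((q - 1 : ℕ) : ℝ) = (q : ℝ) - 1 := by
      rw [Nat.cast_sub (show 1 ≤ q by omega)]; simp
    rw [← e]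
    exact_mod_cast hg'
  have hn' : 3 * ((n : ℝ) - 1) ≤ 4 * (q : ℝ) := by
    have : 3 * n ≤ 4 * q + 3 := by omega
    have : (3 : ℝ) * n ≤ 4 * q + 3 := by exact_mod_cast this
    linarith
  have hn0 : (0 : ℝ) ≤ (n : ℝ) - 1 := by
    have : (1 : ℝ) ≤ n := by exact_mod_cast hn1
    linarith
  have hq27 : (27 : ℝ) ≤ q := by exact_mod_cast hq
  rw [Nat.cast_add, Nat.cast_sub (show q ≤ q ^ 2 from Nat.le_self_pow (by norm_num) q), Nat.cast_pow,
    Nat.cast_one]
  have hsq : (((n : ℝ) - 1) * 3) ^ 2 ≤ (4 * (q : ℝ)) ^ 2 := by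
    apply pow_le_pow_left₀ (by linarith) (by linarith)
  have hc0 : (0 : ℝ) ≤ c := Nat.cast_nonneg _
  have h1 : ((n : ℝ) - 1) ^ 2 * c * 9 ≤ 16 * (q : ℝ) ^ 2 * c := by nlinarith
  have h2' : 16 * (q : ℝ) ^ 2 * c ≤ 8 * (q : ℝ) ^ 3 * ((q : ℝ) - 1) := by nlinarith
  nlinarith [mul_le_mul_of_nonneg_right hq27 (pow_nonneg (show (0 : ℝ) ≤ q by linarith) 3),
    mul_le_mul_of_nonneg_right hq27 (pow_nonneg (show (0 : ℝ) ≤ q by linarith) 2)]

theorem covers_involution_psl {x g : ↥G¹} {i : Fin 4} {z : ↥G¹} (hz : IsRoot i z)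
    (hs : torusSmall i ≠ 1) (hx : x ∈ Subgroup.centralizer {z}) (hx2 : 2 < orderOf x)
    (hx3 : ¬ 3 ∣ orderOf x) (hg : orderOf g = 2) : Covers x g := by
  haveI : Fact (Nat.Prime 3) := ⟨Nat.prime_three⟩
  haveI : Fact (Nat.Prime 2) := ⟨Nat.prime_two⟩
  obtain ⟨j, hj, hjo⟩ := exists_involution_root hm hK hz hs
  obtain ⟨c, hc⟩ := exists_conj_invE hK hjo
  have hxC : c * x * c⁻¹ ∈ C¹ := Subgroup.mem_centralizer_singleton_iff.2 (by
    rw [← hc, show c * x * c⁻¹ * (c * j * c⁻¹) = c * (x * j) * c⁻¹ by group,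
      comm_of_root hm hK hz hx hj]
    group)
  obtain ⟨e⟩ := centralizer_iso hK
  set x' : ↥(C¹) := ⟨c * x * c⁻¹, hxC⟩ with hx'
  have ho : orderOf x' = orderOf x := by rw [hx', Subgroup.orderOf_mk, orderOf_conj_eq]
  set xb : PSL₂ := (e x').2 with hxb
  have hdvd : orderOf xb ∣ orderOf x := by
    rw [← ho, ← e.orderOf_eq x']
    exact orderOf_dvd_of_pow_eq_one (by
      rw [hxb, ← Prod.pow_snd, pow_orderOf_eq_one]; rfl)
  have hz2 : ∀ s : Multiplicative (ZMod 2), s * s = 1 := fun s =>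
    congrArg Multiplicative.ofAdd (CharTwo.add_self_eq_zero (Multiplicative.toAdd s))
  have hb2 : 2 < orderOf xb := by
    by_contra hle
    have hpos := orderOf_pos xb
    have h2 : xb ^ 2 = 1 := orderOf_dvd_iff_pow_eq_one.1 (by
      interval_cases orderOf xb <;> norm_num)
    have h3 : x' ^ 2 = 1 := e.injective (by
      rw [map_pow, map_one]
      refine Prod.ext ?_ ?_
      · rw [Prod.pow_fst, sq]; exact hz2 _
      · rw [Prod.pow_snd]; exact h2)
    have := Nat.le_of_dvd (by norm_num) (orderOf_dvd_of_pow_eq_one h3)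
    omega
  have hcard : 2 ∣ Nat.card PSL₂ := by
    have h1 := card_centralizer_invE hK
    rw [Nat.card_congr e.toEquiv, Nat.card_prod, Nat.card_congr Multiplicative.toAdd,
      Nat.card_zmod] at h1
    have hodd : q₀ % 2 = 1 := by rw [Nat.pow_mod]; norm_num
    have h4 : 4 ∣ q₀ ^ 2 - 1 := by
      obtain ⟨k, hk⟩ : ∃ k, q₀ = 2 * k + 1 := ⟨q₀ / 2, by omega⟩
      rw [hk, show (2 * k + 1) ^ 2 = 4 * (k * (k + 1)) + 1 by ring, Nat.add_sub_cancel]
      exact dvd_mul_right 4 _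
    obtain ⟨a, ha⟩ := h4
    rw [ha] at h1
    have h5 : Nat.card PSL₂ = q₀ * (2 * a) := by linarith
    rw [h5]
    exact dvd_mul_of_dvd_right (dvd_mul_right 2 a) _
  obtain ⟨gb, hgb⟩ := exists_prime_orderOf_dvd_card' 2 hcard
  obtain ⟨u, v, huv⟩ := Cfsg.Agent.S2455.result (F := K) 3 (by norm_num)
    (by rw [hK]; have := q_ge hm hK; omega) xb hb2 (fun h => hx3 (h.trans hdvd)) gb
    (fun h => by rw [h, orderOf_one] at hgb; omega)
  set g' : ↥(C¹) := e.symm (1, gb) with hg'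
  have hg'o : orderOf (g' : ↥G¹) = 2 := by
    rw [Subgroup.orderOf_coe, hg', e.symm.orderOf_eq, Prod.orderOf, orderOf_one, hgb]
    rfl
  have hcov : Covers (c * x * c⁻¹) (g' : ↥G¹) := by
    refine ⟨((e.symm (1, u) : ↥(C¹)) : ↥G¹), ((e.symm (1, v) : ↥(C¹)) : ↥G¹), ?_⟩
    have h : g' = e.symm (1, u) * x' * (e.symm (1, u))⁻¹ *
        (e.symm (1, v) * x' * (e.symm (1, v))⁻¹) := by
      apply e.injective
      simp only [map_mul, map_inv, hg', MulEquiv.apply_symm_apply]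
      refine Prod.ext ?_ ?_
      · simp only [Prod.fst_mul, Prod.fst_inv, inv_one, one_mul, mul_one]
        exact (hz2 _).symm
      · simpa only [Prod.snd_mul, Prod.snd_inv] using huv
    exact congrArg Subtype.val h
  obtain ⟨a, ha⟩ := exists_conj_invE hK hg
  obtain ⟨b, hb⟩ := exists_conj_invE hK hg'o
  refine (hcov.of_isConj (isConj_iff.2 ⟨c⁻¹, by group⟩)).conj (isConj_iff.2 ⟨a⁻¹ * b, ?_⟩)
  rw [show a⁻¹ * b * (g' : ↥G¹) * (a⁻¹ * b)⁻¹ = a⁻¹ * (b * g' * b⁻¹) * a by group, hb, ← ha]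
  group

/-- The Steinberg character. -/
theorem exists_st : ∃ ψ : IrrCharacter ↥G¹, ψ ≠ oneIrr ↥G¹ ∧
    ∀ g : ↥G¹, (ψ : ↥G¹ → ℂ) g = (Nat.card (MulAction.fixedBy (↥G¹ ⧸ B¹) g) : ℂ) - 1 := by
  haveI : Fintype ↥G¹ := Fintype.ofFinite _
  haveI : Fintype (↥G¹ ⧸ B¹) := Fintype.ofFinite _
  refine exists_steinberg (↥G¹ ⧸ B¹) (QuotientGroup.mk 1) ?_ fun b c hb hc => ?_
  · rw [← Subgroup.index_eq_card, index_borel hK]
    have := q_ge hm hK
    have : q₀ ≤ q₀ ^ 3 := Nat.le_self_pow (by norm_num) _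
    omega
  · obtain ⟨g₁, h1a, h1b⟩ := exists_move hK (Ne.symm hb)
    obtain ⟨g₂, h2a, h2b⟩ := exists_move hK (Ne.symm hc)
    refine ⟨g₂⁻¹ * g₁, ?_, ?_⟩
    · rw [mul_smul, h1a, inv_smul_eq_iff, h2a]
    · rw [mul_smul, h1b, inv_smul_eq_iff, h2b]

theorem st_one {ψ : IrrCharacter ↥G¹}
    (hψ : ∀ g : ↥G¹, (ψ : ↥G¹ → ℂ) g = (Nat.card (MulAction.fixedBy (↥G¹ ⧸ B¹) g) : ℂ) - 1) :
    (ψ : ↥G¹ → ℂ) 1 = ((q₀ ^ 3 : ℕ) : ℂ) := by
  rw [hψ, show MulAction.fixedBy (↥G¹ ⧸ B¹) (1 : ↥G¹) = Set.univ from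
    Set.eq_univ_of_forall fun z => one_smul _ z, Nat.card_congr (Equiv.Set.univ _),
    ← Subgroup.index_eq_card, index_borel hK]
  push_cast
  ring

/-- The Steinberg character is `-1` on tori other than the split one. -/
theorem st_torus {ψ : IrrCharacter ↥G¹}
    (hψ : ∀ g : ↥G¹, (ψ : ↥G¹ → ℂ) g = (Nat.card (MulAction.fixedBy (↥G¹ ⧸ B¹) g) : ℂ) - 1)
    {i : Fin 4} {z : ↥G¹} (hz : IsRoot i z) (hi : i ≠ 0) {x : ↥G¹}
    (hx : x ∈ Subgroup.centralizer {z}) (hxS : x ∉ smallPart hm hK hz) :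
    (ψ : ↥G¹ → ℂ) x = -1 := by
  obtain ⟨k, p, hp, h5, hpo, hok, he⟩ := exists_root_power hm hK hz hx hxS
  have hpi : p ∣ torusNum m i := by
    rw [← card_cent_root hm hK hz, ← he, ← hok]
    exact Subgroup.orderOf_dvd_natCard _ (Subgroup.mem_centralizer_singleton_iff.2 rfl)
  have hB : ¬ p ∣ q₀ ^ 3 * (q₀ - 1) := by
    intro h
    rcases hp.dvd_mul.1 h with h | h
    · have := hp.dvd_of_dvd_pow (hp.dvd_of_dvd_pow h)
      have := Nat.le_of_dvd (by norm_num) this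
      omega
    · exact hi (torusNum_disjoint (hm := hm) hp h5 (j := 0) hpi (by simpa [torusNum] using h))
  rw [hψ, fixed_coprime hK hpo hB]
  simp

theorem covers_three {x g : ↥G¹} {i : Fin 4} {z : ↥G¹} (hz : IsRoot i z) (hi : i ≠ 3)
    (hx : x ∈ Subgroup.centralizer {z}) (hxS : x ∉ smallPart hm hK hz) (hg : orderOf g = 3) :
    Covers x g := by
  haveI : Fintype ↥G¹ := Fintype.ofFinite _
  obtain ⟨-, Z, hZ, hZc⟩ := three_data hK hg
  have hreal := real_of_root hm hK hz hx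
  have hcx : Nat.card (Subgroup.centralizer ({x} : Set ↥G¹)) = torusNum m i := by
    rw [(tiTorus hm hK hz).cent x hx hxS, card_cent_root hm hK hz]
  have hq := q_ge hm hK
  have hr0 : 3 ≤ r₀ := Nat.le_self_pow (by omega) 3
  by_cases h1 : i = 1
  · subst h1
    obtain ⟨ψ, hψ1, hψ⟩ := exists_st hm hK
    refine covers_of_ratio_st hreal Z hZc ?_ (by rw [hZ]; omega) ?_ ?_ ψ hψ1 (Q := q₀ ^ 3)
      (st_one hm hK hψ) (st_torus hm hK hψ hz (by decide) hx hxS) ?_ ?_
    · rw [hcx, hZ]; simp [torusNum]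
    · exact fun h => hxS (h ▸ one_mem _)
    · intro hc
      obtain ⟨c, hc⟩ := isConj_iff.1 hc
      have := hcx
      obtain ⟨k, p, hp, h5, hpo, -⟩ := exists_root_power hm hK hz hx hxS
      rw [← orderOf_conj_eq c x, hc, hg] at hpo
      have := Nat.le_of_dvd (by norm_num) hpo
      omega
    · rw [hψ, fixed_three hK hg]; simp
    · rw [hZ]
      calc q₀ = q₀ * 1 := (mul_one _).symm
        _ < q₀ * q₀ := Nat.mul_lt_mul_of_pos_left (by omega) (by omega)
        _ ≤ q₀ ^ 3 := by rw [← sq]; exact Nat.pow_le_pow_right (by omega) (by norm_num)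
  · refine covers_of_ratio hreal Z hZc ?_
    rw [hcx, hZ]
    fin_cases i <;> simp [torusNum] at h1 hi ⊢ <;> omega

end CfsgLib.ReeSquare
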