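import Cfsg.Agent.Chars.Basic
import Cfsg.Agent.Chars.Induced.Mult
import Cfsg.Agent.Chars.Apps.TI
import Cfsg.Agent.Chars.Exceptional.NormTwo

/-!
Virtual characters induced from an abelian subgroup `T` which contains the centralisers of the
elements outside a subgroup `S`.

* `cf`, `expand`: the multiplicities of the linear characters in a restriction;
* `inner_formula`: the inner products of the induced differences;
* `card_stab`, `card_transporter`: the normaliser acts semiregularly on the nontrivial linear
  characters which are trivial on `S`;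
* `dvd_sum_of_const`: a function constant on the fibres of restriction to `S` sums to a multiple of
  the index.
-/

set_option autoImplicit false
set_option linter.unusedSectionVars false
set_option linter.style.haveILetI false

namespace CfsgLib.ReeSquare

open Cfsg CfsgLib.Chars
open scoped ComplexConjugate

universe u

variable {G : Type u} [Group G] [Fintype G]

/-- An abelian subgroup containing the centralisers of its elements outside `S`. -/
structure TITorus (T S : Subgroup G) : Prop where
  le : S ≤ T
  comm : ∀ a ∈ T, ∀ b ∈ T, a * b = b * a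
  coprime : Nat.Coprime (Nat.card S) (S.subgroupOf T).index
  cent : ∀ a ∈ T, a ∉ S → Subgroup.centralizer ({a} : Set G) = T

variable (T : Subgroup G)

/-- The linear characters. -/
abbrev Dual : Type u := T →* ℂˣ

noncomputable instance instFintypeDual : Fintype (Dual T) := Fintype.ofFinite _

noncomputable instance instFintypeT : Fintype T := Fintype.ofFinite _

noncomputable instance instFintypeNormalizer :
    Fintype (Subgroup.normalizer (T : Set G)) := Fintype.ofFinite _

variable {T}

/-- A linear character as a function. -/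
def lf (l : Dual T) : T → ℂ := fun t => ((l t : ℂˣ) : ℂ)

theorem lf_eq (l : Dual T) : lf l = (linChar l : T → ℂ) := by
  funext t; simp [lf]

theorem inner_lf [DecidableEq (Dual T)] (l m : Dual T) :
    classInner (lf l) (lf m) = if l = m then 1 else 0 := by
  classical
  rw [lf_eq, lf_eq, classInner_irr]
  simp only [linChar_injective.eq_iff]

/-- The multiplicity of a linear character in a restriction. -/
noncomputable def cf (l : Dual T) (χ : IrrCharacter G) : ℤ :=
  (Induced.mult (fun t : T => (χ : G → ℂ) t) (lf l) : ℤ)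

theorem cf_nonneg (l : Dual T) (χ : IrrCharacter G) : 0 ≤ cf l χ := Int.natCast_nonneg _

theorem cf_eq (l : Dual T) (χ : IrrCharacter G) :
    classInner (fun t : T => (χ : G → ℂ) t) (lf l) = (cf l χ : ℂ) := by
  rw [cf, Int.cast_natCast, lf_eq]
  exact Induced.classInner_eq_mult (isCharacter_restrict (isCharacter_coe χ) T) _

/-- The class function obtained by inducing a difference. -/
noncomputable def tau (l m : Dual T) : G → ℂ := indFun T (lf l - lf m)

theorem inner_tau (χ : IrrCharacter G) (l m : Dual T) :
    classInner (tau l m) (χ : G → ℂ) = ((cf l χ - cf m χ : ℤ) : ℂ) := by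
  rw [tau, Apps.classInner_indFun_left T _ _ (isClassFunction_coe χ),
    ← Exceptional.inner_conj_symm (fun t : T => (χ : G → ℂ) t), Exceptional.inner_sub_right,
    cf_eq, cf_eq, map_sub, map_intCast, map_intCast, Int.cast_sub]

theorem tau_eq_sum (l m : Dual T) (g : G) :
    tau l m g = ∑ χ : IrrCharacter G, ((cf l χ - cf m χ : ℤ) : ℂ) * (χ : G → ℂ) g := by
  rw [tau, eq_sum_classInner_mul (Apps.indFun_isClassFunction T (lf l - lf m)) g]
  exact Finset.sum_congr rfl fun χ _ => by rw [← inner_tau χ l m, tau]

theorem tau_one (l m : Dual T) : tau l m 1 = 0 := by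
  rw [tau, Induced.indFun_one_apply]
  simp [lf]

theorem parseval {T' : Subgroup G} (l m : Dual T) (l' m' : Dual T') :
    classInner (tau l m) (tau l' m') =
      ((∑ χ : IrrCharacter G, (cf l χ - cf m χ) * (cf l' χ - cf m' χ) : ℤ) : ℂ) := by
  classical
  have e : tau l' m' = ∑ χ : IrrCharacter G, ((cf l' χ - cf m' χ : ℤ) : ℂ) • (χ : G → ℂ) := by
    funext g
    rw [tau_eq_sum, Finset.sum_apply]
    simp
  rw [e, Exceptional.inner_sum_right, Int.cast_sum]
  refine Finset.sum_congr rfl fun χ _ => ?_
  rw [Exceptional.inner_smul_right, inner_tau, map_intCast, ← Int.cast_mul, mul_comm]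

theorem tau_eq_zero {l m : Dual T} {g : G}
    (h : ∀ x : G, ∀ ha : x⁻¹ * g * x ∈ T, l ⟨_, ha⟩ = m ⟨_, ha⟩) : tau l m g = 0 := by
  rw [tau]
  unfold indFun
  rw [Finset.sum_eq_zero, mul_zero]
  intro x _
  by_cases hx : x⁻¹ * g * x ∈ T
  · rw [Induced.extendByZero_mem _ hx]
    simp [lf, h x hx]
  · exact Induced.extendByZero_notMem _ hx

/-! ### The action of the normaliser -/

theorem conj_mem (n : Subgroup.normalizer (T : Set G)) (t : T) :
    (n : G)⁻¹ * t * n ∈ T := by
  have := (Subgroup.mem_normalizer_iff.1 (inv_mem n.2) (t : G)).1 t.2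
  rwa [inv_inv] at this

/-- Conjugation by an element of the normaliser. -/
def cjT (n : Subgroup.normalizer (T : Set G)) : T ≃* T where
  toFun t := ⟨(n : G)⁻¹ * t * n, conj_mem n t⟩
  invFun t := ⟨(n : G) * t * (n : G)⁻¹, by
    have := conj_mem n⁻¹ t
    simpa using this⟩
  left_inv t := Subtype.ext (by simp; group)
  right_inv t := Subtype.ext (by simp; group)
  map_mul' a b := Subtype.ext (by simp; group)

/-- The conjugate of a linear character. -/
def cjg (n : Subgroup.normalizer (T : Set G)) (l : Dual T) : Dual T :=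
  l.comp (cjT n).toMonoidHom

theorem cjg_apply (n : Subgroup.normalizer (T : Set G)) (l : Dual T) (t : T) :
    cjg n l t = l ⟨(n : G)⁻¹ * t * n, conj_mem n t⟩ := rfl

theorem cjg_cjg (n k : Subgroup.normalizer (T : Set G)) (l : Dual T) :
    cjg n (cjg k l) = cjg (n * k) l := by
  refine MonoidHom.ext fun t => ?_
  simp only [cjg_apply]
  congr 1
  ext
  simp
  group

theorem cjg_one_left (l : Dual T) : cjg 1 l = l := by
  refine MonoidHom.ext fun t => ?_
  simp [cjg_apply]

theorem cjg_one_right (n : Subgroup.normalizer (T : Set G)) : cjg n (1 : Dual T) = 1 := rfl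

theorem cf_cjg (n : Subgroup.normalizer (T : Set G)) (l : Dual T) (χ : IrrCharacter G) :
    cf (cjg n l) χ = cf l χ := by
  have h : (cf (cjg n l) χ : ℂ) = (cf l χ : ℂ) := by
    rw [← cf_eq, ← cf_eq]
    unfold classInner
    congr 1
    refine Fintype.sum_equiv (cjT n).toEquiv _ _ fun t => ?_
    show (χ : G → ℂ) t * conj (lf l (cjT n t)) = (χ : G → ℂ) ((cjT n t : T) : G) * conj (lf l (cjT n t))
    congr 1
    have := isClassFunction_coe χ (t : G) (n : G)⁻¹
    rw [inv_inv] at this
    exact this.symm
  exact_mod_cast h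

namespace TITorus

variable {S : Subgroup G}

theorem isMulCommutative (h : TITorus T S) : IsMulCommutative T :=
  ⟨⟨fun a b => Subtype.ext (h.comm a a.2 b b.2)⟩⟩

theorem commutator_eq_bot (h : TITorus T S) : commutator T = ⊥ := by
  haveI := h.isMulCommutative
  exact commutator_eq_bot_iff.2 fun χ => map_one_eq_one_of_isMulCommutative χ

theorem card_dual (h : TITorus T S) : Nat.card (Dual T) = Nat.card T := by
  rw [card_monoidHom_units, h.commutator_eq_bot, Subgroup.index_bot]

/-- A conjugate in `T` outside `S` of an element of `T` outside `S` is obtained inside the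
normaliser. -/
theorem mem_normalizer_of_conj (h : TITorus T S) {a : G} (ha : a ∈ T) (haS : a ∉ S) {x : G}
    (hx : x⁻¹ * a * x ∈ T) (hxS : x⁻¹ * a * x ∉ S) : x ∈ Subgroup.normalizer (T : Set G) := by
  have e := h.cent a ha haS
  have e' := h.cent _ hx hxS
  rw [Subgroup.mem_normalizer_iff]
  intro t
  conv_lhs => rw [← e']
  rw [← e, Subgroup.mem_centralizer_singleton_iff, Subgroup.mem_centralizer_singleton_iff,
    show x * t * x⁻¹ * a = x * (t * (x⁻¹ * a * x)) * x⁻¹ by group,
    show a * (x * t * x⁻¹) = x * (x⁻¹ * a * x * t) * x⁻¹ by group, mul_left_inj, mul_right_inj]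

open Classical in
theorem inner_formula (h : TITorus T S) (l m l' m' : Dual T)
    (hlm : ∀ t : T, (t : G) ∈ S → l t = m t) (hlm' : ∀ t : T, (t : G) ∈ S → l' t = m' t) :
    (Nat.card T : ℤ) * ∑ χ : IrrCharacter G, (cf l χ - cf m χ) * (cf l' χ - cf m' χ) =
      ∑ n : Subgroup.normalizer (T : Set G),
        ((if l = cjg n l' then 1 else 0) - (if l = cjg n m' then 1 else 0)
          - (if m = cjg n l' then 1 else 0) + (if m = cjg n m' then 1 else 0)) := by
  set θ : T → ℂ := lf l - lf m with hθ
  set θ' : T → ℂ := lf l' - lf m' with hθ'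
  have hT : (Nat.card T : ℂ) ≠ 0 := Nat.cast_ne_zero.2 Nat.card_pos.ne'
  have hpt : ∀ t : T, θ t * conj (tau l' m' (t : G)) =
      θ t * ((Nat.card T : ℂ)⁻¹ * ∑ n : Subgroup.normalizer (T : Set G),
        conj ((lf (cjg n l') - lf (cjg n m')) t)) := by
    intro t
    by_cases ht : (t : G) ∈ S
    · simp [hθ, lf, hlm t ht]
    congr 1
    simp only [tau, indFun, map_mul, map_inv₀, map_natCast, map_sum]
    congr 1
    rw [← Finset.sum_subtype (Finset.univ.filter (· ∈ Subgroup.normalizer (T : Set G)))
      (by simp) (fun x : G => conj (extendByZero T θ' (x⁻¹ * (t : G) * x)))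
      |>.trans (Finset.sum_congr rfl fun n _ => ?_)]
    · refine (Finset.sum_subset (Finset.filter_subset _ _) fun x _ hx => ?_).symm
      by_cases hm : x⁻¹ * (t : G) * x ∈ T
      · rw [Induced.extendByZero_mem _ hm]
        by_cases hS : x⁻¹ * (t : G) * x ∈ S
        · simp [lf, hlm' ⟨_, hm⟩ hS]
        · exact absurd (h.mem_normalizer_of_conj t.2 ht hm hS) (by simpa using hx)
      · simp [Induced.extendByZero_notMem _ hm]
    · rw [Induced.extendByZero_mem _ (conj_mem n t)]
      simp [hθ', lf]
      rfl
  have key := parseval l m l' m'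
  rw [show classInner (tau l m) (tau l' m') = classInner θ (fun t : T => tau l' m' (t : G)) from
    Apps.classInner_indFun_left T _ _ (Apps.indFun_isClassFunction T _)] at key
  have e1 : classInner θ (fun t : T => tau l' m' (t : G)) =
      (Nat.card T : ℂ)⁻¹ * ∑ n : Subgroup.normalizer (T : Set G),
        classInner θ (lf (cjg n l') - lf (cjg n m')) := by
    unfold classInner
    rw [Finset.sum_congr rfl fun t _ => hpt t]
    simp only [Finset.mul_sum]
    rw [Finset.sum_comm]
    refine Finset.sum_congr rfl fun n _ => Finset.sum_congr rfl fun t _ => ?_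
    ring
  rw [e1] at key
  have hc : ((Nat.card T : ℤ) * ∑ χ : IrrCharacter G, (cf l χ - cf m χ) * (cf l' χ - cf m' χ) : ℤ) =
      (((∑ n : Subgroup.normalizer (T : Set G),
        ((if l = cjg n l' then 1 else 0) - (if l = cjg n m' then 1 else 0)
          - (if m = cjg n l' then 1 else 0) + (if m = cjg n m' then 1 else 0)) : ℤ)) : ℂ) := by
    rw [Int.cast_mul, ← key, Int.cast_natCast, mul_inv_cancel_left₀ hT, Int.cast_sum]
    refine Finset.sum_congr rfl fun n _ => ?_
    simp only [hθ, Exceptional.inner_sub_left, Exceptional.inner_sub_right, inner_lf]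
    push_cast
    ring
  exact_mod_cast hc

open Classical in
/-- The norm is at most twice the relative index of the normaliser. -/
theorem norm_le (h : TITorus T S) (l m : Dual T) (hlm : ∀ t : T, (t : G) ∈ S → l t = m t) :
    (Nat.card T : ℤ) * ∑ χ : IrrCharacter G, (cf l χ - cf m χ) ^ 2 ≤
      2 * Nat.card (Subgroup.normalizer (T : Set G)) := by
  simp only [sq]
  rw [h.inner_formula l m l m hlm hlm]
  refine (Finset.sum_le_card_nsmul _ _ 2 fun n _ => ?_).trans_eq ?_
  · split_ifs <;> omega
  · rw [Finset.card_univ, ← Nat.card_eq_fintype_card, nsmul_eq_mul]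
    ring

/-- Semiregularity on the nontrivial linear characters trivial on `S`. -/
theorem cjg_eq_self_iff (h : TITorus T S) {l : Dual T} (hl : l ≠ 1)
    (hlS : ∀ t : T, (t : G) ∈ S → l t = 1) (n : Subgroup.normalizer (T : Set G)) :
    cjg n l = l ↔ (n : G) ∈ T := by
  refine ⟨fun he => ?_, fun hn => ?_⟩
  · by_contra hn
    haveI := h.isMulCommutative
    letI : CommGroup T :=
      { (inferInstance : Group T) with mul_comm := fun a b => Subtype.ext (h.comm a a.2 b b.2) }
    set d := (S.subgroupOf T).index with hd
    set A := (powMonoidHom d : T →* T).ker with hA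
    let φ : A →* A :=
      { toFun := fun t => ⟨(t : T)⁻¹ * cjT n (t : T), by
          have ht : (t : T) ^ d = 1 := t.2
          show ((t : T)⁻¹ * cjT n (t : T)) ^ d = 1
          rw [mul_pow, inv_pow, ← map_pow, ht, map_one, inv_one, one_mul]⟩
        map_one' := Subtype.ext (by simp)
        map_mul' := fun a b => Subtype.ext (by
          simp only [Subgroup.coe_mul, mul_inv, map_mul]
          exact mul_mul_mul_comm _ _ _ _) }
    have hinj : Function.Injective φ := by
      refine (injective_iff_map_eq_one φ).2 fun t ht => ?_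
      have h1 : cjT n (t : T) = (t : T) := by
        have := congrArg Subtype.val ht
        exact (inv_mul_eq_one.1 this).symm
      by_cases htS : ((t : T) : G) ∈ S
      · have hd1 : (t : T) ^ d = 1 := t.2
        have hs1 : (t : T) ^ Nat.card S = 1 := Subtype.ext (by
          rw [Subgroup.coe_pow]
          exact congrArg Subtype.val
            (pow_card_eq_one' (G := S) (x := ⟨((t : T) : G), htS⟩)))
        exact Subtype.ext (orderOf_eq_one_iff.1 (Nat.eq_one_of_dvd_coprimes h.coprime
          (orderOf_dvd_of_pow_eq_one hs1) (orderOf_dvd_of_pow_eq_one hd1)))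
      · exfalso
        apply hn
        refine (h.cent _ (t : T).2 htS).le ?_
        rw [Subgroup.mem_centralizer_singleton_iff]
        have h2 : (n : G)⁻¹ * ((t : T) : G) * n = ((t : T) : G) := congrArg Subtype.val h1
        calc (n : G) * ((t : T) : G) = (n : G) * ((n : G)⁻¹ * ((t : T) : G) * n) := by rw [h2]
          _ = _ := by group
    have htriv : ∀ a : A, l (a : T) = 1 := by
      intro a
      obtain ⟨b, rfl⟩ := Finite.surjective_of_injective hinj a
      show l ((b : T)⁻¹ * cjT n (b : T)) = 1
      rw [map_mul, map_inv, inv_mul_eq_one]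
      exact (DFunLike.congr_fun he (b : T)).symm
    refine hl (MonoidHom.ext fun t => ?_)
    have hmem : t ^ d ∈ S.subgroupOf T := Subgroup.pow_index_mem _ t
    have hld : l t ^ d = 1 := by rw [← map_pow]; exact hlS _ hmem
    have hls : l t ^ Nat.card S = 1 := by
      have hA' : t ^ Nat.card S ∈ A := by
        show (t ^ Nat.card S) ^ d = 1
        rw [← pow_mul,
          show Nat.card S * d = Nat.card T by
            rw [hd, ← Nat.card_congr (Subgroup.subgroupOfEquivOfLe h.le).toEquiv,
              Subgroup.card_mul_index], pow_card_eq_one']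
      rw [← map_pow]
      exact htriv ⟨_, hA'⟩
    exact orderOf_eq_one_iff.1 (Nat.eq_one_of_dvd_coprimes h.coprime
      (orderOf_dvd_of_pow_eq_one hls) (orderOf_dvd_of_pow_eq_one hld))
  · refine MonoidHom.ext fun t => ?_
    rw [cjg_apply]
    congr 1
    ext
    show (n : G)⁻¹ * (t : G) * n = t
    rw [mul_assoc, h.comm _ t.2 _ hn, inv_mul_cancel_left]

open Classical in
theorem card_stab (h : TITorus T S) {l : Dual T} (hl : l ≠ 1)
    (hlS : ∀ t : T, (t : G) ∈ S → l t = 1) :
    (∑ n : Subgroup.normalizer (T : Set G), if l = cjg n l then 1 else 0 : ℤ) = Nat.card T := by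
  rw [Finset.sum_boole]
  norm_cast
  rw [← Fintype.card_subtype, ← Nat.card_eq_fintype_card]
  refine Nat.card_congr ((Equiv.subtypeEquivRight fun n => ?_).trans
    (Subgroup.subgroupOfEquivOfLe (Subgroup.le_normalizer : T ≤ Subgroup.normalizer (T : Set G))).toEquiv)
  rw [eq_comm, h.cjg_eq_self_iff hl hlS n]
  rfl

open Classical in
theorem card_transporter (h : TITorus T S) {l : Dual T} (hl : l ≠ 1)
    (hlS : ∀ t : T, (t : G) ∈ S → l t = 1) (l' : Dual T) :
    (∑ n : Subgroup.normalizer (T : Set G), if l' = cjg n l then 1 else 0 : ℤ) =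
      if (∃ n, l' = cjg n l) then (Nat.card T : ℤ) else 0 := by
  split_ifs with he
  · obtain ⟨k, rfl⟩ := he
    rw [← h.card_stab hl hlS]
    refine Fintype.sum_equiv (Equiv.mulLeft k⁻¹) _ _ fun n => if_congr ?_ rfl rfl
    show cjg k l = cjg n l ↔ l = cjg (k⁻¹ * n) l
    rw [← cjg_cjg]
    constructor
    · intro e; rw [← e, cjg_cjg, inv_mul_cancel, cjg_one_left]
    · intro e
      conv_lhs => rw [e]
      rw [cjg_cjg, mul_inv_cancel, cjg_one_left]
  · exact Finset.sum_eq_zero fun n _ => if_neg fun e => he ⟨n, e⟩

/-! ### Expansion of restrictions -/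

theorem expand (h : TITorus T S) (χ : IrrCharacter G) (t : T) :
    (χ : G → ℂ) t = ∑ l : Dual T, (cf l χ : ℂ) * lf l t := by
  haveI := h.isMulCommutative
  refine Eq.trans
    (eq_sum_classInner_mul (Induced.isClassFunction_restrict (isClassFunction_coe χ) T) t) ?_
  refine (Fintype.sum_equiv (Equiv.ofBijective (fun l : Dual T => linChar l)
    ⟨linChar_injective, fun ξ => exists_linChar_eq ξ (map_one_eq_one_of_isMulCommutative ξ)⟩)
    _ _ fun l => ?_).symm
  rw [← cf_eq, lf_eq]
  rfl

theorem degree_eq (h : TITorus T S) (χ : IrrCharacter G) :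
    (charDegree (χ : G → ℂ) : ℤ) = ∑ l : Dual T, cf l χ := by
  have e : ((charDegree (χ : G → ℂ) : ℤ) : ℂ) = ((∑ l : Dual T, cf l χ : ℤ) : ℂ) := by
    rw [Int.cast_natCast, coe_charDegree, ← OneMemClass.coe_one T, h.expand χ 1, Int.cast_sum]
    simp [lf]
  exact_mod_cast e

/-- A function on the linear characters which is constant on the fibres of restriction to `S` sums
to a multiple of the index. -/
theorem dvd_sum_of_const (h : TITorus T S) (f : Dual T → ℤ)
    (hf : ∀ l m : Dual T, (∀ t : T, (t : G) ∈ S → l t = m t) → f l = f m) :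
    ((S.subgroupOf T).index : ℤ) ∣ ∑ l : Dual T, f l := by
  classical
  haveI := h.isMulCommutative
  set S' := S.subgroupOf T with hS'
  haveI : S'.Normal := ⟨fun a ha b => by
    have e : b * a * b⁻¹ = a := Subtype.ext (by
      simp [h.comm (b : G) b.2 (a : G) a.2])
    rwa [e]⟩
  let Kd : Subgroup (Dual T) :=
    { carrier := {l | ∀ t ∈ S', l t = 1}
      one_mem' := fun t _ => rfl
      mul_mem' := fun {a b} ha hb t ht => by simp [ha t ht, hb t ht]
      inv_mem' := fun {a} ha t ht => by simp [ha t ht] }
  have hK : Nat.card Kd = S'.index := by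
    rw [Subgroup.index]
    have hc : commutator (T ⧸ S') = ⊥ := by
      haveI : IsMulCommutative (T ⧸ S') := ⟨⟨fun a b => by
        induction a using QuotientGroup.induction_on
        induction b using QuotientGroup.induction_on
        rw [← QuotientGroup.mk_mul, ← QuotientGroup.mk_mul, IsMulCommutative.is_comm.comm]⟩⟩
      exact commutator_eq_bot_iff.2 fun χ => map_one_eq_one_of_isMulCommutative χ
    rw [← Subgroup.index_bot (G := T ⧸ S'), ← hc, ← card_monoidHom_units]
    exact Nat.card_congr
      { toFun := fun l => QuotientGroup.lift S' l.1 l.2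
        invFun := fun k => ⟨k.comp (QuotientGroup.mk' S'), fun t ht => by
          show k (QuotientGroup.mk' S' t) = 1
          rw [(QuotientGroup.eq_one_iff t).2 ht |> fun e => (e : QuotientGroup.mk' S' t = 1), map_one]⟩
        left_inv := fun l => Subtype.ext (MonoidHom.ext fun t => rfl)
        right_inv := fun k => QuotientGroup.monoidHom_ext _ (MonoidHom.ext fun t => rfl) }
  rw [← Equiv.sum_comp (Subgroup.groupEquivQuotientProdSubgroup (s := Kd)).symm,
    Fintype.sum_prod_type]
  refine Finset.dvd_sum fun y _ => ?_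
  have e : ∀ k : Kd, f ((Subgroup.groupEquivQuotientProdSubgroup (s := Kd)).symm (y, k)) =
      f y.out := by
    intro k
    set l := (Subgroup.groupEquivQuotientProdSubgroup (s := Kd)).symm (y, k) with hl
    have h1 : (l : Dual T ⧸ Kd) = y := by
      have h2 := (Subgroup.groupEquivQuotientProdSubgroup (s := Kd)).apply_symm_apply (y, k)
      rw [← hl] at h2
      simpa [Subgroup.groupEquivQuotientProdSubgroup] using congrArg Prod.fst h2
    rw [← y.out_eq', QuotientGroup.eq] at h1
    refine hf _ _ fun t ht => ?_
    have h3 := h1 t ht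
    simpa [inv_mul_eq_one] using h3
  rw [Finset.sum_congr rfl fun k _ => e k, Finset.sum_const, Finset.card_univ,
    ← Nat.card_eq_fintype_card, hK, nsmul_eq_mul]
  exact dvd_mul_right _ _

end TITorus

end CfsgLib.ReeSquare
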