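import Cfsg.Agent.ReeSquare.Exceptional

/-!
Consequences for the exceptional characters of one torus of a second torus with no common conjugates.
-/

set_option autoImplicit false
set_option linter.unusedSectionVars false
set_option linter.style.haveILetI false

namespace CfsgLib.ReeSquare

open Cfsg CfsgLib.Chars
open scoped ComplexConjugate Classical

universe u

variable {G : Type u} [Group G] [Fintype G]

/-- No element of `T'` outside `S'` has a conjugate in `T`. -/
def Apart (T T' S' : Subgroup G) : Prop := ∀ a ∈ T', a ∉ S' → ∀ x : G, x * a * x⁻¹ ∉ T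

namespace Exc

variable {T T' S' : Subgroup G} {w : ℕ} (E : Exc T w)

theorem const_of_apart (hap : Apart T T' S') (l m : Dual T')
    (hlm : ∀ t : T', (t : G) ∈ S' → l t = m t) (i j : Fin E.k) :
    cf l (E.μ i) - cf m (E.μ i) = cf l (E.μ j) - cf m (E.μ j) := by
  have h := E.sum_mul_diff (fun χ => cf l χ - cf m χ) i j
  have hp : classInner (tau l m) (tau (E.rep i) (E.rep j)) = 0 := by
    rw [show classInner (tau l m) (tau (E.rep i) (E.rep j)) =
      classInner (fun t : T => tau l m (t : G)) (lf (E.rep i) - lf (E.rep j)) from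
      Apps.classInner_indFun_right T _ _ (Apps.indFun_isClassFunction T' _)]
    unfold classInner
    rw [Finset.sum_eq_zero, mul_zero]
    intro t _
    by_cases ht : t = 1
    · subst ht; simp [lf]
    · rw [tau_eq_zero, zero_mul]
      intro x hx
      by_cases hS : x⁻¹ * (t : G) * x ∈ S'
      · exact hlm _ hS
      · exact absurd (show x * (x⁻¹ * (t : G) * x) * x⁻¹ ∈ T by
          rw [show x * (x⁻¹ * (t : G) * x) * x⁻¹ = t by group]; exact t.2) (hap _ hx hS x)
  rw [parseval] at hp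
  have hp' : ∑ χ : IrrCharacter G, (cf l χ - cf m χ) * (cf (E.rep i) χ - cf (E.rep j) χ) = 0 := by
    exact_mod_cast hp
  rw [hp'] at h
  have hε : E.ε ≠ 0 := by rcases E.sign with e | e <;> rw [e] <;> norm_num
  exact sub_eq_zero.1 ((mul_eq_zero.1 h.symm).resolve_left hε)

theorem sum_image_le (f : IrrCharacter G → ℤ) (c : ℤ) (hc : ∀ i, f (E.μ i) = c) :
    (E.k : ℤ) * c ^ 2 + f (oneIrr G) ^ 2 ≤ ∑ χ : IrrCharacter G, f χ ^ 2 := by
  rw [← Finset.add_sum_erase _ _ (Finset.mem_univ (oneIrr G)), add_comm]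
  refine add_le_add le_rfl ?_
  refine le_trans (le_of_eq ?_) (Finset.sum_le_sum_of_subset_of_nonneg E.mu_subset
    fun χ _ _ => sq_nonneg _)
  rw [Finset.sum_image (fun i _ j _ e => E.inj e)]
  simp [hc]

theorem zero_of_apart (h' : TITorus T' S') (hap : Apart T T' S')
    (hbig : 2 * Nat.card (Subgroup.normalizer (T' : Set G)) < E.k * Nat.card T') (l m : Dual T')
    (hlm : ∀ t : T', (t : G) ∈ S' → l t = m t) (i : Fin E.k) :
    cf l (E.μ i) = cf m (E.μ i) := by
  set c := cf l (E.μ i) - cf m (E.μ i) with hc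
  have h1 := E.sum_image_le (fun χ => cf l χ - cf m χ) c fun j => E.const_of_apart hap l m hlm j i
  have h2 := h'.norm_le l m hlm
  by_contra hne
  have hc1 : 1 ≤ c ^ 2 := by
    have : c ≠ 0 := sub_ne_zero.2 hne
    rcases Int.lt_or_lt_of_ne this with h | h <;> nlinarith
  have hT : (0 : ℤ) ≤ Nat.card T' := Nat.cast_nonneg _
  have hb : (2 : ℤ) * Nat.card (Subgroup.normalizer (T' : Set G)) < E.k * Nat.card T' := by
    exact_mod_cast hbig
  have hk : (0 : ℤ) ≤ E.k := Nat.cast_nonneg _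
  have h3 : (E.k : ℤ) ≤ ∑ χ : IrrCharacter G, (cf l χ - cf m χ) ^ 2 := by
    nlinarith [sq_nonneg (cf l (oneIrr G) - cf m (oneIrr G))]
  nlinarith

theorem dvd_degree (h' : TITorus T' S') (hap : Apart T T' S')
    (hbig : 2 * Nat.card (Subgroup.normalizer (T' : Set G)) < E.k * Nat.card T') :
    (S'.subgroupOf T').index ∣ E.D := by
  have h := h'.dvd_sum_of_const (fun l => cf l (E.μ E.i₀))
    fun l m hlm => E.zero_of_apart h' hap hbig l m hlm E.i₀
  rw [← h'.degree_eq, E.deg_mu] at h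
  exact_mod_cast h

/-- The differences between the trivial character and a nontrivial one trivial on `S'`. -/
theorem trivial_pair (h' : TITorus T' S') {w' : ℕ}
    (hw' : Nat.card (Subgroup.normalizer (T' : Set G)) = w' * Nat.card T') (hap : Apart T T' S')
    {l : Dual T'} (hl : l ≠ 1) (hlS : ∀ t : T', (t : G) ∈ S' → l t = 1) (i : Fin E.k) :
    (E.k : ℤ) * (cf (1 : Dual T') (E.μ i) - cf l (E.μ i)) ^ 2 ≤ w' := by
  have hlm : ∀ t : T', (t : G) ∈ S' → (1 : Dual T') t = l t := fun t ht => (hlS t ht).symm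
  have h1 := E.sum_image_le (fun χ => cf 1 χ - cf l χ) _ fun j => E.const_of_apart hap 1 l hlm j i
  rw [cf_oneIrr, cf_oneIrr, if_pos rfl, if_neg hl] at h1
  have key := h'.inner_formula 1 l 1 l hlm hlm
  have hne : ∀ n, ¬ (1 : Dual T') = cjg n l := fun n e => TITorus.cjg_ne_one n hl e.symm
  simp only [cjg_one_right, hl, hne, if_true, if_false, sub_zero, Finset.sum_add_distrib,
    h'.card_stab hl hlS, Finset.sum_const, Finset.card_univ, nsmul_eq_mul, mul_one] at key
  rw [← Nat.card_eq_fintype_card, hw'] at key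
  simp only [← sq] at key
  have hT : (Nat.card T' : ℤ) ≠ 0 := by exact_mod_cast Nat.card_pos.ne'
  have h2 : ∑ χ : IrrCharacter G, (cf (1 : Dual T') χ - cf l χ) ^ 2 = (w' : ℤ) + 1 := by
    apply mul_left_cancel₀ hT
    rw [key]; push_cast; ring
  linarith

theorem not_mem_other {w' : ℕ} (E' : Exc T' w') (hap : Apart T T' ⊥) (i : Fin E.k) :
    E.μ i ∉ Finset.univ.image E'.μ := by
  intro hmem
  obtain ⟨a, -, ha⟩ := Finset.mem_image.1 hmem
  obtain ⟨b, hb⟩ : ∃ b : Fin E'.k, b ≠ a := by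
    by_cases h : a = E'.i₀
    · exact ⟨E'.i₁, fun e => E'.i₁_ne (e.trans h)⟩
    · exact ⟨E'.i₀, fun e => h e.symm⟩
  obtain ⟨j, hj⟩ : ∃ j : Fin E.k, j ≠ i := by
    by_cases h : i = E.i₀
    · exact ⟨E.i₁, fun e => E.i₁_ne (e.trans h)⟩
    · exact ⟨E.i₀, fun e => h e.symm⟩
  have h := E.const_of_apart hap (E'.rep a) (E'.rep b) (TITorus.bot_trivial _ _) i j
  rw [E'.diff, E'.diff, if_pos ha.symm, if_neg (fun e => hb (E'.inj (e.symm.trans ha.symm))),
    if_neg (fun e => hj (E.inj (e.trans ha)))] at h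
  rcases E'.sign with s | s <;> rw [s] at h <;> split_ifs at h <;> norm_num at h

theorem degree_apart (h' : TITorus T' ⊥) {w' : ℕ} (E' : Exc T' w')
    (hw' : Nat.card (Subgroup.normalizer (T' : Set G)) = w' * Nat.card T') (hap : Apart T T' ⊥) :
    ∃ Δ : ℤ, (E.k : ℤ) * Δ ^ 2 ≤ w' ∧ (Nat.card T' : ℤ) ∣ (E.D : ℤ) - Δ := by
  refine ⟨E'.cst (E.μ E.i₀), E.trivial_pair h' hw' hap (E'.rep_ne E'.i₀)
    (fun t ht => (TITorus.bot_trivial _ 1 t ht).trans rfl) E.i₀, ?_⟩
  have := E'.degree_rest h' (E.not_mem_other E' hap E.i₀)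
  rwa [E.deg_mu] at this

end Exc

/-- If the multiplicities of the linear characters trivial on `S` are equal, the sum over `S` is a
multiple of the order of `T`. -/
theorem TITorus.dvd_sum_subgroup {T S : Subgroup G} (h : TITorus T S) (χ : IrrCharacter G)
    (hc : ∀ l : Dual T, (∀ t : T, (t : G) ∈ S → l t = 1) → cf l χ = cf (1 : Dual T) χ) :
    ∃ z : ℤ, ∑ s : S, (χ : G → ℂ) s = (Nat.card T : ℂ) * z := by
  set P : Dual T → Prop := fun l => ∀ t : T, (t : G) ∈ S → l t = 1 with hP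
  obtain ⟨z, hz⟩ := h.dvd_sum_of_const (fun l => if P l then cf l χ else 0) fun l m hlm => by
    have hiff : P l ↔ P m := by
      constructor <;> intro hh t ht
      · rw [← hlm t ht]; exact hh t ht
      · rw [hlm t ht]; exact hh t ht
    by_cases hl : P l
    · rw [if_pos hl, if_pos (hiff.1 hl), hc l hl, hc m (hiff.1 hl)]
    · rw [if_neg hl, if_neg (fun e => hl (hiff.2 e))]
  refine ⟨z, ?_⟩
  have e : ∀ l : Dual T, ∑ s : S, lf l ⟨(s : G), h.le s.2⟩ = if P l then (Nat.card S : ℂ) else 0 := by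
    intro l
    by_cases hl : P l
    · rw [if_pos hl, Finset.sum_congr rfl fun (s : S) _ => show lf l ⟨(s : G), h.le s.2⟩ = 1 by
        simp [lf, hl ⟨(s : G), h.le s.2⟩ s.2]]
      simp [Nat.card_eq_fintype_card]
    · rw [if_neg hl]
      simp only [hP, not_forall] at hl
      obtain ⟨t, ht, htl⟩ := hl
      have e2 : ∑ s : S, lf l ⟨(s : G), h.le s.2⟩ =
          lf l t * ∑ s : S, lf l ⟨(s : G), h.le s.2⟩ := by
        rw [Finset.mul_sum]
        refine (Fintype.sum_equiv (Equiv.mulLeft (⟨(t : G), ht⟩ : S)) _ _ fun s => ?_).symm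
        rw [show (⟨((Equiv.mulLeft (⟨(t : G), ht⟩ : S)) s : G), h.le (_ : S).2⟩ : T) =
          t * ⟨(s : G), h.le s.2⟩ from Subtype.ext rfl]
        simp [lf]
      have e3 : (lf l t - 1) * ∑ s : S, lf l ⟨(s : G), h.le s.2⟩ = 0 := by
        rw [sub_mul, ← e2, one_mul, sub_self]
      exact (mul_eq_zero.1 e3).resolve_left fun e1 => htl (Units.ext (sub_eq_zero.1 e1))
  rw [Finset.sum_congr rfl fun (s : S) _ => h.expand χ ⟨(s : G), h.le s.2⟩, Finset.sum_comm]
  simp only [← Finset.mul_sum, e, mul_ite, mul_zero]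
  have hcard : Nat.card S * (S.subgroupOf T).index = Nat.card T := by
    rw [← Nat.card_congr (Subgroup.subgroupOfEquivOfLe h.le).toEquiv, Subgroup.card_mul_index]
  rw [← hcard, Nat.cast_mul, mul_assoc, ← Int.cast_natCast (R := ℂ) (S.subgroupOf T).index,
    ← Int.cast_mul, ← hz, Int.cast_sum, Finset.mul_sum]
  refine Finset.sum_congr rfl fun l _ => ?_
  split_ifs <;> simp [mul_comm]

end CfsgLib.ReeSquare
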